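import Cfsg.Agent.H260.Push6
set_option linter.all false

-- part: H260/GN1
section
/-!
# Glauberman-Niles, part 1: local data inside an ambient (possibly infinite) group
-/

set_option autoImplicit false
set_option linter.unusedSectionVars false
set_option linter.unusedVariables false
set_option linter.style.haveILetI false

namespace Cfsg.Agent.H260.GN

open Subgroup Push
open scoped commutatorElement

variable {G : Type*} [Group G]

theorem fin_le {A B : Subgroup G} (h : A ≤ B) [Finite B] : Finite A :=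
  Finite.of_injective (inclusion h) (inclusion_injective h)

theorem eq_of_card {A B : Subgroup G} [Finite B] (h : A ≤ B) (hc : Nat.card B ≤ Nat.card A) : A = B :=
  Subgroup.eq_of_le_of_card_ge h hc

theorem card_mono' {A B : Subgroup G} [Finite B] (h : A ≤ B) : Nat.card A ≤ Nat.card B :=
  Nat.card_mono (Set.toFinite (B : Set G)) h

/-- `A` and `B` commute. -/
def Cm (A B : Subgroup G) : Prop := ∀ x ∈ A, ∀ y ∈ B, x * y = y * x

theorem Cm.symm {A B : Subgroup G} (h : Cm A B) : Cm B A := fun x hx y hy => (h y hy x hx).symm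

theorem Cm.mono {A B A' B' : Subgroup G} (h : Cm A B) (h1 : A' ≤ A) (h2 : B' ≤ B) : Cm A' B' :=
  fun x hx y hy => h x (h1 hx) y (h2 hy)

theorem cm_iff_le {A B : Subgroup G} : Cm A B ↔ A ≤ centralizer (B : Set G) := by
  constructor
  · intro h x hx
    rw [mem_centralizer_iff]
    exact fun y hy => (h x hx y hy).symm
  · intro h x hx y hy
    exact (mem_centralizer_iff.mp (h hx) y hy).symm

theorem Cm.sup_left {A A' B : Subgroup G} (h : Cm A B) (h' : Cm A' B) : Cm (A ⊔ A') B := by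
  rw [cm_iff_le] at *
  exact sup_le h h'

theorem Cm.sup_right {A B B' : Subgroup G} (h : Cm A B) (h' : Cm A B') : Cm A (B ⊔ B') :=
  (Cm.sup_left h.symm h'.symm).symm

theorem Cm.iSup_left {κ : Sort*} {A : κ → Subgroup G} {B : Subgroup G} (h : ∀ k, Cm (A k) B) :
    Cm (⨆ k, A k) B := by
  rw [cm_iff_le]
  exact iSup_le fun k => cm_iff_le.mp (h k)

theorem Cm.iSup_right {κ : Sort*} {A : Subgroup G} {B : κ → Subgroup G} (h : ∀ k, Cm A (B k)) :
    Cm A (⨆ k, B k) := (Cm.iSup_left fun k => (h k).symm).symm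

theorem Cm.cj {A B : Subgroup G} (h : Cm A B) (g : G) : Cm (cj g A) (cj g B) := by
  intro x hx y hy
  rw [mem_cj] at hx hy
  have := h _ hx _ hy
  have e1 : g⁻¹ * x * g * (g⁻¹ * y * g) = g⁻¹ * (x * y) * g := by group
  have e2 : g⁻¹ * y * g * (g⁻¹ * x * g) = g⁻¹ * (y * x) * g := by group
  rw [e1, e2] at this
  exact mul_left_cancel (mul_right_cancel this)

theorem cm_cj_iff {A B : Subgroup G} {g : G} : Cm (cj g A) (cj g B) ↔ Cm A B := by
  constructor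
  · intro h
    have := h.cj g⁻¹
    rwa [cj_inv_cj, cj_inv_cj] at this
  · exact fun h => h.cj g

theorem cm_cj_left {A B : Subgroup G} {g : G} : Cm (cj g A) B ↔ Cm A (cj g⁻¹ B) := by
  rw [← cm_cj_iff (g := g⁻¹), cj_inv_cj]

theorem cm_cj_right {A B : Subgroup G} {g : G} : Cm A (cj g B) ↔ Cm (cj g⁻¹ A) B := by
  rw [← cm_cj_iff (g := g⁻¹), cj_inv_cj]

theorem Cm.cen_le {A : Subgroup G} : Cm (cen A) A := fun x hx y hy => (cen_comm hx hy).symm

theorem cj_of_mem {g : G} {H : Subgroup G} (h : g ∈ H) : cj g H = H := by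
  ext x
  rw [mem_cj]
  constructor
  · intro hx
    have := H.mul_mem (H.mul_mem h hx) (H.inv_mem h)
    have e : g * (g⁻¹ * x * g) * g⁻¹ = x := by group
    rwa [e] at this
  · intro hx
    exact H.mul_mem (H.mul_mem (H.inv_mem h) hx) h

theorem cj_iSup {κ : Sort*} (g : G) (A : κ → Subgroup G) : cj g (⨆ k, A k) = ⨆ k, cj g (A k) :=
  Subgroup.map_iSup _ _

theorem cj_comm (g : G) (A B : Subgroup G) : cj g ⁅A, B⁆ = ⁅cj g A, cj g B⁆ := Subgroup.map_commutator _ _ _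

theorem le_cj_iff {g : G} {A B : Subgroup G} : A ≤ cj g B ↔ cj g⁻¹ A ≤ B := by
  rw [← cj_le_cj (g := g⁻¹), cj_inv_cj]

theorem cj_le_iff {g : G} {A B : Subgroup G} : cj g A ≤ B ↔ A ≤ cj g⁻¹ B := by
  rw [← cj_le_cj (g := g⁻¹), cj_inv_cj]

theorem cj_eq_iff {g : G} {A B : Subgroup G} : cj g A = B ↔ A = cj g⁻¹ B := by
  constructor
  · rintro rfl; rw [cj_inv_cj]
  · rintro rfl; rw [cj_cj_inv]

/-- conjugation by `g` fixes `H` as soon as `gHg⁻¹ ≤ H`, `H` finite. -/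
theorem cj_eq_of_le {g : G} {H : Subgroup G} [Finite H] (h : cj g H ≤ H) : cj g H = H :=
  eq_of_card h (by rw [card_cj])

theorem cj_eq_of_forall {g : G} {H : Subgroup G} [Finite H] (h : ∀ y ∈ H, g * y * g⁻¹ ∈ H) :
    cj g H = H := by
  apply cj_eq_of_le
  intro y hy
  rw [mem_cj] at hy
  have := h _ hy
  have e : g * (g⁻¹ * y * g) * g⁻¹ = y := by group
  rwa [e] at this

theorem cj_inv_eq {g : G} {H : Subgroup G} (h : cj g H = H) : cj g⁻¹ H = H := by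
  conv_lhs => rw [← h]
  rw [cj_inv_cj]

theorem cj_mul_eq {g h : G} {H : Subgroup G} (h1 : cj g H = H) (h2 : cj h H = H) : cj (g * h) H = H := by
  rw [← cj_mul, h2, h1]

/-- If `K` normalises `H` (elementwise, `cj k H = H`) then `HK` is a product. -/
theorem mem_sup_of_norm {H K : Subgroup G} (h : ∀ k ∈ K, cj k H = H) {x : G} (hx : x ∈ K ⊔ H) :
    ∃ k ∈ K, ∃ y ∈ H, k * y = x := by
  have hn : K ≤ normalizer (H : Set G) := fun k hk => cj_eq_iff_mem_normalizer.mp (h k hk)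
  rw [← SetLike.mem_coe, coe_mul_of_left_le_normalizer_right _ _ hn] at hx
  obtain ⟨k, hk, y, hy, e⟩ := hx
  exact ⟨k, hk, y, hy, e⟩

theorem mem_sup_of_norm' {H K : Subgroup G} (h : ∀ k ∈ K, cj k H = H) {x : G} (hx : x ∈ H ⊔ K) :
    ∃ y ∈ H, ∃ k ∈ K, y * k = x := by
  have hn : K ≤ normalizer (H : Set G) := fun k hk => cj_eq_iff_mem_normalizer.mp (h k hk)
  rw [← SetLike.mem_coe, coe_mul_of_right_le_normalizer_left _ _ hn] at hx
  obtain ⟨k, hk, y, hy, e⟩ := hx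
  exact ⟨k, hk, y, hy, e⟩

theorem card_mul_norm {H K : Subgroup G} (h : ∀ k ∈ K, cj k H = H) :
    Nat.card (K ⊔ H : Subgroup G) * Nat.card (K ⊓ H : Subgroup G) = Nat.card K * Nat.card H :=
  card_mul_eq fun k hk => cj_eq_iff_mem_normalizer.mp (h k hk)

theorem cj_of_cm {g : G} {H : Subgroup G} (h : ∀ y ∈ H, g * y = y * g) : cj g H = H := by
  ext x
  rw [mem_cj]
  constructor
  · intro hx
    have := h _ hx
    have e : g⁻¹ * x * g = x := by
      have h2 : g * (g⁻¹ * x * g) = x * g := by group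
      rw [h2] at this
      exact (mul_right_cancel this).symm
    rwa [e] at hx
  · intro hx
    have := h _ hx
    rw [mul_assoc, ← this, ← mul_assoc, inv_mul_cancel, one_mul]
    exact hx

theorem Cm.cj_eq {A B : Subgroup G} (h : Cm A B) : ∀ g ∈ A, Push.cj g B = B :=
  fun g hg => cj_of_cm (h g hg)

theorem Cm.card_mul {A B : Subgroup G} (h : Cm A B) :
    Nat.card (A ⊔ B : Subgroup G) * Nat.card (A ⊓ B : Subgroup G) = Nat.card A * Nat.card B :=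
  card_mul_norm h.cj_eq

theorem Cm.mem_sup {A B : Subgroup G} (h : Cm A B) {x : G} (hx : x ∈ A ⊔ B) :
    ∃ a ∈ A, ∃ b ∈ B, a * b = x := mem_sup_of_norm h.cj_eq hx

/-- The set of elements normalising `H`, as a subgroup. -/
theorem norm_sup {A B H : Subgroup G} (h1 : ∀ g ∈ A, cj g H = H) (h2 : ∀ g ∈ B, cj g H = H) :
    ∀ g ∈ A ⊔ B, cj g H = H := by
  have : A ⊔ B ≤ normalizer (H : Set G) := by
    apply sup_le
    · exact fun g hg => cj_eq_iff_mem_normalizer.mp (h1 g hg)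
    · exact fun g hg => cj_eq_iff_mem_normalizer.mp (h2 g hg)
  exact fun g hg => cj_eq_iff_mem_normalizer.mpr (this hg)

theorem cj_sup_eq {g : G} {A B : Subgroup G} (h1 : cj g A = A) (h2 : cj g B = B) :
    cj g (A ⊔ B) = A ⊔ B := by rw [cj_sup, h1, h2]

theorem cj_inf_eq {g : G} {A B : Subgroup G} (h1 : cj g A = A) (h2 : cj g B = B) :
    cj g (A ⊓ B) = A ⊓ B := by rw [cj_inf, h1, h2]

theorem LargeAb.le_of_comm' {S A : Subgroup G} [Finite S] (h : LargeAb S A) {B : Subgroup G} (hB : B ≤ S)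
    (hBc : ∀ x ∈ B, ∀ y ∈ B, x * y = y * x) (hAB : ∀ x ∈ A, ∀ y ∈ B, x * y = y * x) : B ≤ A := by
  have h1 := h.max (A ⊔ B) (sup_le h.le hB) (comm_sup h.comm hBc hAB)
  haveI : Finite (A ⊔ B : Subgroup G) := fin_le (sup_le h.le hB)
  have h2 := eq_of_card (le_sup_left : A ≤ A ⊔ B) h1
  rw [h2]
  exact le_sup_right

theorem LargeAb.of_card {S A B : Subgroup G} (h : LargeAb S A) (hB : B ≤ S)
    (hBc : ∀ x ∈ B, ∀ y ∈ B, x * y = y * x) (hc : Nat.card A ≤ Nat.card B) : LargeAb S B :=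
  ⟨hB, hBc, fun X h1 h2 => (h.max X h1 h2).trans hc⟩

theorem LargeAb.cenS_le' {S A : Subgroup G} [Finite S] (h : LargeAb S A) : cen S ≤ A := by
  apply LargeAb.le_of_comm' h (Push.cen_le S)
  · intro x hx y hy
    exact (cen_comm hy (Push.cen_le S hx))
  · intro x hx y hy
    exact cen_comm hy (h.le hx)

/-- The local data. -/
structure Loc (p q : ℕ) (S L Q V C M : Subgroup G) : Prop where
  fin : Finite L
  SL : S ≤ L
  pg : IsPGroup p S
  idx : ¬ p ∣ S.relIndex L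
  QS : Q ≤ S
  Qn : ∀ g ∈ L, cj g Q = Q
  Vd : V = cen Q
  cV : S ⊓ centralizer (V : Set G) = Q
  Cd : C = cen S ⊓ centralizer (L : Set G)
  SM : S ≤ M
  ML : M ≤ L
  ex : ∃ g ∈ L, g ∉ M
  gen : ∀ g ∈ L, g ∉ M → S ⊔ cj g S = L
  ti : ∀ g ∈ L, g ∉ M → ∀ s ∈ S, s ∉ Q → g⁻¹ * s * g ∉ M
  quad : ∀ y ∈ V, ∀ s ∈ S, cm y s ∈ cen S
  cmc : ∀ s ∈ S, s ∉ Q → ∀ y ∈ V, cm y s ∈ C → y ∈ cen S
  cardS : Nat.card S = q * Nat.card Q
  cardV : Nat.card V = q * Nat.card (cen S)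
  cardZ : Nat.card (cen S) = q * Nat.card C
  big : ∃ A, LargeAb S A ∧ ¬ A ≤ Q
  el : ∀ z ∈ cen S, z ^ p = 1

/-! ## Transport -/

section map

variable {G' : Type*} [Group G'] (f : G →* G') (hf : Function.Injective f)
include hf

theorem map_mem_iff {H : Subgroup G} {x : G} : f x ∈ H.map f ↔ x ∈ H := by
  constructor
  · rintro ⟨y, hy, e⟩
    rwa [← hf e]
  · exact fun h => ⟨x, h, rfl⟩

theorem map_cent (S V : Subgroup G) :
    (S ⊓ centralizer (V : Set G)).map f = S.map f ⊓ centralizer (V.map f : Set G') := by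
  ext x
  constructor
  · rintro ⟨y, ⟨hy1, hy2⟩, rfl⟩
    refine ⟨⟨y, hy1, rfl⟩, mem_centralizer_iff.mpr ?_⟩
    rintro _ ⟨z, hz, rfl⟩
    rw [← map_mul, ← map_mul, mem_centralizer_iff.mp hy2 z hz]
  · rintro ⟨⟨y, hy, rfl⟩, h⟩
    refine ⟨y, ⟨hy, mem_centralizer_iff.mpr ?_⟩, rfl⟩
    intro z hz
    apply hf
    rw [map_mul, map_mul]
    exact mem_centralizer_iff.mp h _ ⟨z, hz, rfl⟩

theorem map_cen (H : Subgroup G) : (cen H).map f = cen (H.map f) := map_cent f hf H H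

omit hf in
theorem map_cj (g : G) (H : Subgroup G) : (cj g H).map f = cj (f g) (H.map f) := by
  unfold cj
  rw [Subgroup.map_map, Subgroup.map_map]
  congr 1
  ext x
  simp

theorem card_map' (H : Subgroup G) : Nat.card (H.map f) = Nat.card H :=
  Nat.card_congr (H.equivMapOfInjective f hf).symm.toEquiv

theorem map_largeAb {S A : Subgroup G} (h : LargeAb S A) : LargeAb (S.map f) (A.map f) := by
  refine ⟨Subgroup.map_mono h.le, ?_, ?_⟩
  · rintro _ ⟨x, hx, rfl⟩ _ ⟨y, hy, rfl⟩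
    rw [← map_mul, ← map_mul, h.comm x hx y hy]
  · intro B hB hBc
    have hB' : B = (B.comap f).map f := by
      symm
      apply Subgroup.map_comap_eq_self
      refine hB.trans ?_
      rintro _ ⟨x, _, rfl⟩
      exact ⟨x, rfl⟩
    rw [hB', card_map' f hf, card_map' f hf]
    apply h.max
    · intro x hx
      exact (map_mem_iff f hf).mp (hB hx)
    · intro x hx y hy
      apply hf
      rw [map_mul, map_mul]
      exact hBc _ hx _ hy

theorem Loc.map {p q : ℕ} {S L Q V C M : Subgroup G} (c : Loc p q S L Q V C M) :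
    Loc p q (S.map f) (L.map f) (Q.map f) (V.map f) (C.map f) (M.map f) := by
  have hcm : ∀ y s, cm (f y) (f s) = f (cm y s) := by
    intro y s
    simp [cm]
  refine ⟨?_, Subgroup.map_mono c.SL, c.pg.map f, ?_, Subgroup.map_mono c.QS, ?_, ?_, ?_, ?_,
    Subgroup.map_mono c.SM, Subgroup.map_mono c.ML, ?_, ?_, ?_, ?_, ?_, ?_, ?_, ?_, ?_, ?_⟩
  · haveI := c.fin
    exact Finite.of_equiv _ (L.equivMapOfInjective f hf).toEquiv
  · rw [relIndex_map_map_of_injective _ _ hf]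
    exact c.idx
  · rintro _ ⟨g, hg, rfl⟩
    rw [← map_cj, c.Qn g hg]
  · rw [← map_cen f hf, c.Vd]
  · rw [← map_cent f hf, c.cV]
  · rw [← map_cen f hf, ← map_cent f hf, c.Cd]
  · obtain ⟨g, hg, hgM⟩ := c.ex
    exact ⟨f g, ⟨g, hg, rfl⟩, fun h => hgM ((map_mem_iff f hf).mp h)⟩
  · rintro _ ⟨g, hg, rfl⟩ hgM
    rw [← map_cj, ← Subgroup.map_sup, c.gen g hg (fun h => hgM ⟨g, h, rfl⟩)]
  · rintro _ ⟨g, hg, rfl⟩ hgM _ ⟨s, hs, rfl⟩ hsQ
    rw [← map_inv, ← map_mul, ← map_mul, map_mem_iff f hf]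
    exact c.ti g hg (fun h => hgM ⟨g, h, rfl⟩) s hs (fun h => hsQ ⟨s, h, rfl⟩)
  · rintro _ ⟨y, hy, rfl⟩ _ ⟨s, hs, rfl⟩
    rw [hcm, ← map_cen f hf]
    exact ⟨_, c.quad y hy s hs, rfl⟩
  · rintro _ ⟨s, hs, rfl⟩ hsQ _ ⟨y, hy, rfl⟩ h
    rw [hcm, map_mem_iff f hf] at h
    rw [← map_cen f hf]
    exact ⟨y, c.cmc s hs (fun h => hsQ ⟨s, h, rfl⟩) y hy h, rfl⟩
  · rw [card_map' f hf, card_map' f hf, c.cardS]
  · rw [← map_cen f hf, card_map' f hf, card_map' f hf, c.cardV]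
  · rw [← map_cen f hf, card_map' f hf, card_map' f hf, c.cardZ]
  · obtain ⟨A, hA, hAQ⟩ := c.big
    refine ⟨A.map f, map_largeAb f hf hA, fun h => hAQ ?_⟩
    intro x hx
    exact (map_mem_iff f hf).mp (h ⟨x, hx, rfl⟩)
  · rw [← map_cen f hf]
    rintro _ ⟨z, hz, rfl⟩
    rw [← map_pow, c.el z hz, map_one]

end map

namespace Loc

variable {p q : ℕ} {S L Q V C M : Subgroup G}

theorem cj' (c : Loc p q S L Q V C M) (g : G) :
    Loc p q (cj g S) (cj g L) (cj g Q) (cj g V) (cj g C) (cj g M) :=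
  c.map (MulAut.conj g).toMonoidHom (MulAut.conj g).injective

variable (c : Loc p q S L Q V C M)
include c

theorem finS : Finite S := by
  haveI := c.fin
  exact fin_le c.SL

theorem finQ : Finite Q := by
  haveI := c.finS
  exact fin_le c.QS

theorem VQ : V ≤ Q := by rw [c.Vd]; exact Push.cen_le Q

theorem VS : V ≤ S := c.VQ.trans c.QS

theorem finV : Finite V := by
  haveI := c.finS
  exact fin_le c.VS

theorem finZ : Finite (cen S) := by
  haveI := c.finS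
  exact fin_le (Push.cen_le S)

theorem QL : Q ≤ L := c.QS.trans c.SL

theorem VL : V ≤ L := c.VS.trans c.SL

theorem ZS : cen S ≤ S := Push.cen_le S

theorem VQc : Cm V Q := by
  rw [c.Vd]
  exact Cm.cen_le

theorem Vab : Cm V V := c.VQc.mono le_rfl c.VQ

theorem ZV : cen S ≤ V := by
  intro z hz
  have h1 : z ∈ Q := by
    rw [← c.cV]
    refine ⟨c.ZS hz, mem_centralizer_iff.mpr ?_⟩
    intro y hy
    exact cen_comm hz (c.VS hy)
  rw [c.Vd]
  refine ⟨h1, mem_centralizer_iff.mpr ?_⟩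
  intro y hy
  exact cen_comm hz (c.QS hy)

theorem ZQ : cen S ≤ Q := c.ZV.trans c.VQ

theorem Vn : ∀ g ∈ L, cj g V = V := by
  intro g hg
  rw [c.Vd, cj_cen, c.Qn g hg]

theorem CZ : C ≤ cen S := by rw [c.Cd]; exact inf_le_left

theorem CV : C ≤ V := c.CZ.trans c.ZV

theorem CL : Cm C L := by
  rw [cm_iff_le, c.Cd]
  exact inf_le_right

theorem ZScm : Cm (cen S) S := Cm.cen_le

theorem mem_C {x : G} (h1 : x ∈ cen S) (h2 : ∀ g ∈ L, g * x = x * g) : x ∈ C := by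
  rw [c.Cd]
  exact ⟨h1, mem_centralizer_iff.mpr h2⟩

theorem Cn : ∀ g ∈ L, cj g C = C := fun g hg => c.CL.symm.cj_eq g hg

theorem cj_le_C {g : G} (hg : g ∈ L) {X : Subgroup G} (hX : X ≤ C) : cj g X = X :=
  (c.CL.mono hX le_rfl).symm.cj_eq g hg

/-- `Q` is the centraliser of `V` in `S`. -/
theorem mem_Q {x : G} (hx : x ∈ S) (h : ∀ y ∈ V, y * x = x * y) : x ∈ Q := by
  rw [← c.cV]
  exact ⟨hx, mem_centralizer_iff.mpr h⟩

theorem le_Q {X : Subgroup G} (hX : X ≤ S) (h : Cm V X) : X ≤ Q :=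
  fun x hx => c.mem_Q (hX hx) fun y hy => h y hy x hx

theorem Sg : ∀ s ∈ S, cj s S = S := fun s hs => cj_of_mem hs

theorem one_lt_q : 0 < q := by
  rcases Nat.eq_zero_or_pos q with h | h
  · have h1 := c.cardS
    rw [h, zero_mul] at h1
    haveI := c.finS
    have : 0 < Nat.card S := Nat.card_pos
    omega
  · exact h

theorem cj_mem {g x : G} (hg : g ∈ L) {X : Subgroup G} (hX : ∀ g ∈ L, cj g X = X) (hx : x ∈ X) :
    g * x * g⁻¹ ∈ X := by
  have := conj_mem_cj (g := g) hx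
  rwa [hX g hg] at this

/-- elements of `Z^a ∩ Z^b`, `a⁻¹ b ∉ M`. -/
theorem two {a b x : G} (ha : a ∈ L) (hb : b ∈ L) (hab : a⁻¹ * b ∉ M) (h1 : x ∈ cj a (cen S))
    (h2 : x ∈ cj b (cen S)) : x ∈ C := by
  have h3 : cj a S ⊔ cj b S = L := by
    have h4 := c.gen _ (L.mul_mem (L.inv_mem ha) hb) hab
    have h5 : cj a (S ⊔ cj (a⁻¹ * b) S) = cj a L := by rw [h4]
    rw [cj_sup, cj_mul, mul_inv_cancel_left, cj_of_mem ha] at h5
    exact h5
  have h6 : cj a S ⊔ cj b S ≤ centralizer ({x} : Set G) := by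
    rw [cj_cen] at h1 h2
    apply sup_le
    · intro z hz
      rw [mem_centralizer_singleton_iff]
      exact cen_comm h1 hz
    · intro z hz
      rw [mem_centralizer_singleton_iff]
      exact cen_comm h2 hz
  rw [h3] at h6
  refine c.mem_C ?_ (fun g hg => mem_centralizer_singleton_iff.mp (h6 hg))
  have h7 : a * x = x * a := mem_centralizer_singleton_iff.mp (h6 ha)
  rw [mem_cj] at h1
  have : a⁻¹ * x * a = x := by
    rw [mul_assoc, ← h7, ← mul_assoc, inv_mul_cancel, one_mul]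
  rwa [this] at h1

theorem two' {g x : G} (hg : g ∈ L) (hgM : g ∉ M) (h1 : x ∈ cen S) (h2 : x ∈ cj g (cen S)) : x ∈ C :=
  c.two (a := 1) (b := g) L.one_mem hg (by simpa using hgM) (by rwa [cj_one]) h2

theorem C_cj {g : G} (hg : g ∈ L) : C ≤ cj g (cen S) := by
  have := cj_mono (g := g) c.CZ
  rwa [c.Cn g hg] at this

theorem infZ {g : G} (hg : g ∈ L) (hgM : g ∉ M) : cen S ⊓ cj g (cen S) = C :=
  le_antisymm (fun x hx => c.two' hg hgM hx.1 hx.2) (le_inf c.CZ (c.C_cj hg))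

theorem cjZV {g : G} (hg : g ∈ L) : cj g (cen S) ≤ V := by
  have := cj_mono (g := g) c.ZV
  rwa [c.Vn g hg] at this

theorem supZ {g : G} (hg : g ∈ L) (hgM : g ∉ M) : cen S ⊔ cj g (cen S) = V := by
  haveI := c.finV
  apply eq_of_card (sup_le c.ZV (c.cjZV hg))
  have h1 : Cm (cen S) (cj g (cen S)) := c.Vab.mono c.ZV (c.cjZV hg)
  have h2 := h1.card_mul
  rw [c.infZ hg hgM, card_cj] at h2
  haveI := c.finZ
  haveI : Finite C := fin_le c.CZ
  have hpos : 0 < Nat.card C := Nat.card_pos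
  have h3 : Nat.card V * Nat.card C = Nat.card (cen S) * Nat.card (cen S) := by
    rw [c.cardV]
    conv_rhs => arg 1; rw [c.cardZ]
    ring
  rw [← h2] at h3
  exact (Nat.eq_of_mul_eq_mul_right hpos h3).le

theorem dec {g v : G} (hg : g ∈ L) (hgM : g ∉ M) (hv : v ∈ V) :
    ∃ z ∈ cen S, ∃ y ∈ cj g (cen S), z * y = v := by
  rw [← c.supZ hg hgM] at hv
  exact Cm.mem_sup (c.Vab.mono c.ZV (c.cjZV hg)) hv

theorem elV (v : G) (hv : v ∈ V) : v ^ p = 1 := by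
  obtain ⟨g, hg, hgM⟩ := c.ex
  obtain ⟨z, hz, y, hy, rfl⟩ := c.dec hg hgM hv
  have h1 : Commute z y := c.Vab z (c.ZV hz) y (c.cjZV hg hy)
  rw [h1.mul_pow, c.el z hz, one_mul]
  rw [mem_cj] at hy
  have h2 := c.el _ hy
  have h3 : (g⁻¹ * y * g) ^ p = g⁻¹ * y ^ p * g := by
    have := conj_pow (i := p) (a := g⁻¹) (b := y)
    rwa [inv_inv] at this
  rw [h3] at h2
  have : y ^ p = g * (g⁻¹ * y ^ p * g) * g⁻¹ := by group
  rw [this, h2]
  group

theorem fix {s y : G} (hs : s ∈ S) (hsQ : s ∉ Q) (hy : y ∈ V) (h : s * y = y * s) : y ∈ cen S := by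
  apply c.cmc s hs hsQ y hy
  unfold cm
  rw [h]
  have : y * s * s⁻¹ * y⁻¹ = 1 := by group
  rw [this]
  exact C.one_mem

/-- an `L`-invariant subgroup of `Z` lies in `C`. -/
theorem le_C {X : Subgroup G} (hX : X ≤ cen S) (h : ∀ g ∈ L, cj g X = X) : X ≤ C := by
  obtain ⟨g, hg, hgM⟩ := c.ex
  intro x hx
  apply c.two' hg hgM (hX hx)
  have h1 : cj g X ≤ cj g (cen S) := cj_mono hX
  rw [h g hg] at h1
  exact h1 hx

theorem VS_le : ⁅V, S⁆ ≤ cen S := by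
  rw [Subgroup.commutator_le]
  intro v hv s hs
  have h1 : ⁅v, s⁆ = (cm v s)⁻¹ := by
    unfold cm; rw [commutatorElement_def]; group
  rw [h1]
  exact inv_mem (c.quad v hv s hs)

theorem cm_mem_R {v s : G} (hv : v ∈ V) (hs : s ∈ S) : cm v s ∈ ⁅V, S⁆ := by
  have h1 : cm v s = ⁅v, s⁆⁻¹ := by
    unfold cm; rw [commutatorElement_def]; group
  rw [h1]
  exact inv_mem (commutator_mem_commutator hv hs)

theorem cjV_mem {g v : G} (hg : g ∈ L) (hv : v ∈ V) : g * v * g⁻¹ ∈ V := c.cj_mem hg c.Vn hv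

theorem cm_mem_V {g v : G} (hg : g ∈ L) (hv : v ∈ V) : cm v g ∈ V := by
  unfold cm
  exact V.mul_mem (c.cjV_mem hg hv) (V.inv_mem hv)

/-- `s ↦ [v,s]` is a homomorphism on `S`. -/
theorem cm_mul {v s t : G} (hv : v ∈ V) (hs : s ∈ S) (ht : t ∈ S) : cm v (s * t) = cm v s * cm v t := by
  have h1 : cm v (s * t) = s * cm v t * s⁻¹ * cm v s := by
    unfold cm; group
  have h2 : s * cm v t = cm v t * s := cen_comm (c.quad v hv t ht) hs
  rw [h1, h2]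
  have e : cm v t * s * s⁻¹ * cm v s = cm v t * cm v s := by group
  rw [e]
  exact cen_comm (c.quad v hv s hs) (c.ZS (c.quad v hv t ht))

theorem cm_inv {v s : G} (hv : v ∈ V) (hs : s ∈ S) : cm v s⁻¹ = (cm v s)⁻¹ := by
  have h9 := c.cm_mul hv (S.inv_mem hs) hs
  rw [inv_mul_cancel] at h9
  have h10 : cm v 1 = 1 := by simp [cm]
  rw [h10] at h9
  exact eq_inv_of_mul_eq_one_left h9.symm

/-- `v ↦ [v,s]` is a homomorphism on `V`. -/
theorem cm_mul' {v w s : G} (hv : v ∈ V) (hw : w ∈ V) (hs : s ∈ S) : cm (v * w) s = cm v s * cm w s := by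
  have h1 : cm (v * w) s = (s * v * s⁻¹) * (cm w s) * v⁻¹ := by
    unfold cm; group
  have h2 : cm w s * v⁻¹ = v⁻¹ * cm w s :=
    c.Vab _ (c.ZV (c.quad w hw s hs)) _ (V.inv_mem hv)
  rw [h1, mul_assoc, h2]
  unfold cm
  group

/-- For `v ∈ V - Z` every element of `Z` is `[v,s]` modulo `C`. -/
theorem surj {v z : G} (hv : v ∈ V) (hvZ : v ∉ cen S) (hz : z ∈ cen S) :
    ∃ s ∈ S, ∃ d ∈ C, cm v s * d = z := by
  haveI := c.finS
  haveI := c.finZ
  haveI : Finite C := fin_le c.CZ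
  -- the image of `s ↦ [v,s]` as a subgroup
  let f : S →* cen S :=
    { toFun := fun s => ⟨cm v s, c.quad v hv s s.2⟩
      map_one' := by apply Subtype.ext; simp [cm]
      map_mul' := fun s t => Subtype.ext (c.cm_mul hv s.2 t.2) }
  let B : Subgroup G := (f.range.map (cen S).subtype)
  have hB : ∀ b, b ∈ B ↔ ∃ s ∈ S, cm v s = b := by
    intro b
    constructor
    · rintro ⟨_, ⟨s, rfl⟩, rfl⟩
      exact ⟨s, s.2, rfl⟩
    · rintro ⟨s, hs, rfl⟩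
      exact ⟨_, ⟨⟨s, hs⟩, rfl⟩, rfl⟩
  have hBZ : B ≤ cen S := by
    intro b hb
    obtain ⟨s, hs, rfl⟩ := (hB b).mp hb
    exact c.quad v hv s hs
  haveI : Finite B := fin_le hBZ
  haveI : Finite (B ⊔ C : Subgroup G) := fin_le (sup_le hBZ c.CZ)
  have hcm : Cm B C := fun x hx y hy => cen_comm (c.CZ hy) (c.ZS (hBZ hx))
  -- the kernel of `f` modulo `C` is `Q`
  have hq : q ≤ C.relIndex (B ⊔ C) := by
    have h3 : Q.relIndex S = q := by
      have h2 := card_mul_relIndex c.QS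
      rw [c.cardS, mul_comm q] at h2
      haveI := c.finQ
      exact Nat.eq_of_mul_eq_mul_left Nat.card_pos h2
    rw [← h3]
    unfold relIndex index
    let g : S → (B ⊔ C : Subgroup G) := fun s => ⟨cm v s, mem_sup_left ((hB _).mpr ⟨s, s.2, rfl⟩)⟩
    let φ : (S ⧸ Q.subgroupOf S) → ((B ⊔ C : Subgroup G) ⧸ C.subgroupOf (B ⊔ C)) :=
      fun x => QuotientGroup.mk (g x.out)
    apply Nat.card_le_card_of_injective φ
    intro x x' hxx
    have h4 : (g x.out)⁻¹ * g x'.out ∈ C.subgroupOf (B ⊔ C) := QuotientGroup.eq.mp hxx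
    rw [mem_subgroupOf] at h4
    set s : S := x.out with hs
    set s' : S := x'.out with hs'
    have h5 : (cm v s)⁻¹ * cm v s' ∈ C := h4
    have h6 : (s : G)⁻¹ * s' ∈ Q := by
      by_contra hsQ
      apply hvZ
      apply c.cmc _ (S.mul_mem (S.inv_mem s.2) s'.2) hsQ v hv
      rw [c.cm_mul hv (S.inv_mem s.2) s'.2, c.cm_inv hv s.2]
      exact h5
    have h7 : (QuotientGroup.mk s : S ⧸ Q.subgroupOf S) = QuotientGroup.mk s' := by
      rw [QuotientGroup.eq, mem_subgroupOf]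
      exact h6
    have e1 : (QuotientGroup.mk s : S ⧸ Q.subgroupOf S) = x := Quotient.out_eq x
    have e2 : (QuotientGroup.mk s' : S ⧸ Q.subgroupOf S) = x' := Quotient.out_eq x'
    rw [← e1, ← e2, h7]
  have h9 : B ⊔ C = cen S := by
    apply eq_of_card (sup_le hBZ c.CZ)
    have h10 : Nat.card C * C.relIndex (B ⊔ C) = Nat.card (B ⊔ C : Subgroup G) :=
      card_mul_relIndex le_sup_right
    rw [← h10, c.cardZ, mul_comm q]
    gcongr
  rw [← h9] at hz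
  obtain ⟨b, hb, d, hd, e⟩ := hcm.mem_sup hz
  obtain ⟨s, hs, rfl⟩ := (hB b).mp hb
  exact ⟨s, hs, d, hd, e⟩

theorem ZneV : ∃ v ∈ V, v ∉ cen S := by
  by_contra h
  push Not at h
  have h1 : V ≤ cen S := h
  obtain ⟨A, hA, hAQ⟩ := c.big
  apply hAQ
  refine hA.le.trans ?_
  intro s hs
  exact c.mem_Q hs fun y hy => (cen_comm (h1 hy) hs).symm

theorem SneQ : ∃ s ∈ S, s ∉ Q := by
  by_contra h
  push Not at h
  obtain ⟨A, hA, hAQ⟩ := c.big
  exact hAQ (hA.le.trans h)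

theorem R_sup_C : ⁅V, S⁆ ⊔ C = cen S := by
  apply le_antisymm (sup_le c.VS_le c.CZ)
  intro z hz
  obtain ⟨v, hv, hvZ⟩ := c.ZneV
  obtain ⟨s, hs, d, hd, e⟩ := c.surj hv hvZ hz
  rw [← e]
  exact mul_mem (mem_sup_left (c.cm_mem_R hv hs)) (mem_sup_right hd)

theorem R_not_le_C : ¬ ⁅V, S⁆ ≤ C := by
  intro h
  obtain ⟨v, hv, hvZ⟩ := c.ZneV
  obtain ⟨s, hs, hsQ⟩ := c.SneQ
  exact hvZ (c.cmc s hs hsQ v hv (h (c.cm_mem_R hv hs)))

theorem cover {g w : G} (hg : g ∈ L) (hgM : g ∉ M) (hw : w ∈ V) (hwZ : w ∉ cen S) :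
    ∃ s ∈ S, w ∈ cj (s * g) (cen S) := by
  obtain ⟨z, hz, y, hy, rfl⟩ := c.dec hg hgM hw
  have hyV := c.cjZV hg hy
  have hyZ : y ∉ cen S := fun h => hwZ (mul_mem hz h)
  obtain ⟨s, hs, d, hd, e⟩ := c.surj hyV hyZ hz
  refine ⟨s, hs, ?_⟩
  have h1 : z * y = (s * y * s⁻¹) * d := by
    rw [← e]
    have h2 : d * y = y * d := c.Vab d (c.CV hd) y hyV
    rw [mul_assoc, h2]
    unfold cm
    group
  rw [h1]
  apply mul_mem
  · rw [← cj_mul]
    exact conj_mem_cj hy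
  · exact c.C_cj (L.mul_mem (c.SL hs) hg) hd

theorem MZ : ∀ m ∈ M, cj m (cen S) = cen S := by
  intro m hm
  haveI := c.finZ
  apply cj_eq_of_le
  intro x hx
  by_contra hxZ
  obtain ⟨g, hg, hgM⟩ := c.ex
  have hmL := c.ML hm
  obtain ⟨s, hs, h1⟩ := c.cover hg hgM (c.cjZV hmL hx) hxZ
  apply hxZ
  apply c.CZ
  apply c.two hmL (L.mul_mem (c.SL hs) hg) _ hx h1
  intro h2
  apply hgM
  have h3 := M.mul_mem (M.mul_mem (M.inv_mem (c.SM hs)) hm) h2
  have e : s⁻¹ * m * (m⁻¹ * (s * g)) = g := by group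
  rwa [e] at h3

theorem Z_ne_C : ¬ cen S ≤ C := by
  intro h
  exact c.R_not_le_C (c.VS_le.trans h)

theorem mem_M_of {g : G} (hg : g ∈ L) (h : cj g (cen S) = cen S) : g ∈ M := by
  by_contra hgM
  apply c.Z_ne_C
  rw [← c.infZ hg hgM, h, inf_idem]

/-- If `R ≤ Z^g` then `g ∈ M`. -/
theorem mem_M_of_R {g : G} (hg : g ∈ L) (h : cj g ⁅V, S⁆ ≤ cen S) : g ∈ M := by
  apply c.mem_M_of hg
  haveI := c.finZ
  apply cj_eq_of_le
  rw [← c.R_sup_C, cj_sup, c.Cn g hg]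
  refine sup_le ?_ le_sup_right
  refine h.trans ?_
  rw [c.R_sup_C]

/-- the large abelian subgroups outside `Q`. -/
theorem large {A : Subgroup G} (hA : LargeAb S A) (hAQ : ¬ A ≤ Q) :
    A ⊔ Q = S ∧ A ⊓ V = cen S ∧ LargeAb S ((A ⊓ Q) ⊔ V) := by
  haveI := c.finS
  haveI := c.finQ
  haveI := c.finV
  haveI : Finite A := fin_le hA.le
  obtain ⟨a, ha, haQ⟩ := SetLike.not_le_iff_exists.mp hAQ
  have h1 : A ⊓ V = cen S := by
    apply le_antisymm
    · rintro x ⟨hx, hxV⟩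
      exact c.fix (hA.le ha) haQ hxV (hA.comm a ha x hx)
    · exact le_inf (LargeAb.cenS_le' hA) c.ZV
  have hcm : Cm (A ⊓ Q) V := c.VQc.symm.mono inf_le_right le_rfl
  have h2 := hcm.card_mul
  have e1 : A ⊓ Q ⊓ V = cen S := by
    rw [inf_assoc, inf_eq_right.mpr c.VQ, h1]
  rw [e1, c.cardV] at h2
  haveI := c.finZ
  have hZpos : 0 < Nat.card (cen S) := Nat.card_pos
  have h3 : Nat.card (A ⊓ Q ⊔ V : Subgroup G) = q * Nat.card (A ⊓ Q : Subgroup G) := by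
    apply Nat.eq_of_mul_eq_mul_right hZpos
    rw [h2]; ring
  have h4 : Nat.card (A ⊔ Q : Subgroup G) * Nat.card (A ⊓ Q : Subgroup G) = Nat.card A * Nat.card Q :=
    card_mul_norm fun k hk => c.Qn k (c.SL (hA.le hk))
  have hsub : A ⊔ Q ≤ S := sup_le hA.le c.QS
  have h5 : Nat.card (A ⊔ Q : Subgroup G) ≤ Nat.card S := card_mono' hsub
  have habs : ∀ x ∈ A ⊓ Q ⊔ V, ∀ y ∈ A ⊓ Q ⊔ V, x * y = y * x :=
    comm_sup (fun x hx y hy => hA.comm x hx.1 y hy.1) c.Vab hcm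
  have hle : A ⊓ Q ⊔ V ≤ S := sup_le (inf_le_left.trans hA.le) c.VS
  have h6 : Nat.card (A ⊓ Q ⊔ V : Subgroup G) ≤ Nat.card A := hA.max _ hle habs
  have hQpos : 0 < Nat.card Q := Nat.card_pos
  haveI : Finite (A ⊓ Q : Subgroup G) := fin_le inf_le_left
  have hIpos : 0 < Nat.card (A ⊓ Q : Subgroup G) := Nat.card_pos
  have h7 : Nat.card A ≤ q * Nat.card (A ⊓ Q : Subgroup G) := by
    rw [c.cardS] at h5
    have : Nat.card A * Nat.card Q ≤ q * Nat.card (A ⊓ Q : Subgroup G) * Nat.card Q := by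
      rw [← h4]
      calc _ ≤ q * Nat.card Q * Nat.card (A ⊓ Q : Subgroup G) := by gcongr
        _ = _ := by ring
    exact Nat.le_of_mul_le_mul_right this hQpos
  refine ⟨?_, h1, LargeAb.of_card hA hle habs (by rw [h3]; exact h7)⟩
  apply eq_of_card hsub
  rw [c.cardS]
  have h8 : Nat.card A = q * Nat.card (A ⊓ Q : Subgroup G) := le_antisymm h7 (by rw [← h3]; exact h6)
  rw [h8] at h4
  have : q * Nat.card Q * Nat.card (A ⊓ Q : Subgroup G) ≤
      Nat.card (A ⊔ Q : Subgroup G) * Nat.card (A ⊓ Q : Subgroup G) := by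
    rw [h4]
    exact le_of_eq (by ring)
  exact Nat.le_of_mul_le_mul_right this hIpos

/-- **The critical pair lemma.** -/
theorem crit {q' : ℕ} {S' L' Q' V' C' M' : Subgroup G} (c' : Loc p q' S' L' Q' V' C' M')
    (h1 : V ≤ S') (h2 : V' ≤ S) (hnc : ¬ Cm V V') :
    q = q' ∧ V' ⊔ Q = S ∧ V ⊔ Q' = S' ∧ V' ⊓ Q = cen S' ∧ V ⊓ Q' = cen S ∧
      ⁅V, V'⁆ = ⁅V, S⁆ ∧ ⁅V', S'⁆ = ⁅V, S⁆ := by
  haveI := c.finS
  haveI := c'.finS
  haveI := c.finQ
  haveI := c'.finQ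
  haveI := c.finV
  haveI := c'.finV
  haveI := c.finZ
  haveI := c'.finZ
  have hV'Q : ¬ V' ≤ Q := fun h => hnc (c.VQc.mono le_rfl h)
  have hVQ' : ¬ V ≤ Q' := fun h => hnc (c'.VQc.mono le_rfl h).symm
  have key : ∀ {q q' : ℕ} {S L Q V C M S' L' Q' V' C' M' : Subgroup G} (c : Loc p q S L Q V C M)
      (c' : Loc p q' S' L' Q' V' C' M'), V ≤ S' → V' ≤ S → ¬ V' ≤ Q → V ⊓ Q' = cen S := by
    intro q q' S L Q V C M S' L' Q' V' C' M' c c' h1 h2 h3
    obtain ⟨b, hb, hbQ⟩ := SetLike.not_le_iff_exists.mp h3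
    apply le_antisymm
    · rintro x ⟨hx, hxQ⟩
      exact c.fix (h2 hb) hbQ hx (c'.VQc b hb x hxQ)
    · apply le_inf c.ZV
      apply c'.le_Q (c.ZV.trans h1)
      intro x hx y hy
      exact cen_comm hy (h2 hx)
  have e1 : V ⊓ Q' = cen S := key c c' h1 h2 hV'Q
  have e2 : V' ⊓ Q = cen S' := key c' c h2 h1 hVQ'
  have hn1 : ∀ k ∈ V, cj k Q' = Q' := fun k hk => c'.Qn k (c'.SL (h1 hk))
  have hn2 : ∀ k ∈ V', cj k Q = Q := fun k hk => c.Qn k (c.SL (h2 hk))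
  have f1 := card_mul_norm hn1
  have f2 := card_mul_norm hn2
  rw [e1, c.cardV] at f1
  rw [e2, c'.cardV] at f2
  have hZ : 0 < Nat.card (cen S) := Nat.card_pos
  have hZ' : 0 < Nat.card (cen S') := Nat.card_pos
  have hQ : 0 < Nat.card Q := Nat.card_pos
  have hQ' : 0 < Nat.card Q' := Nat.card_pos
  have g1 : Nat.card (V ⊔ Q' : Subgroup G) = q * Nat.card Q' := by
    apply Nat.eq_of_mul_eq_mul_right hZ
    rw [f1]; ring
  have g2 : Nat.card (V' ⊔ Q : Subgroup G) = q' * Nat.card Q := by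
    apply Nat.eq_of_mul_eq_mul_right hZ'
    rw [f2]; ring
  have l1 : V ⊔ Q' ≤ S' := sup_le h1 c'.QS
  have l2 : V' ⊔ Q ≤ S := sup_le h2 c.QS
  have i1 : q ≤ q' := by
    have := card_mono' l1
    rw [g1, c'.cardS] at this
    exact Nat.le_of_mul_le_mul_right this hQ'
  have i2 : q' ≤ q := by
    have := card_mono' l2
    rw [g2, c.cardS] at this
    exact Nat.le_of_mul_le_mul_right this hQ
  have hq : q = q' := le_antisymm i1 i2
  have s1 : V ⊔ Q' = S' := eq_of_card l1 (by rw [g1, c'.cardS, hq])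
  have s2 : V' ⊔ Q = S := eq_of_card l2 (by rw [g2, c.cardS, hq])
  have r1 : ⁅V, V'⁆ = ⁅V, S⁆ := by
    apply le_antisymm (commutator_mono le_rfl h2)
    rw [Subgroup.commutator_le]
    intro v hv s hs
    rw [← s2] at hs
    obtain ⟨b, hb, t, ht, rfl⟩ := mem_sup_of_norm hn2 hs
    have : ⁅v, b * t⁆ = ⁅v, b⁆ := by
      rw [commutatorElement_def, commutatorElement_def]
      have h3 : t * v⁻¹ = v⁻¹ * t := (c.VQc _ (V.inv_mem hv) t ht).symm
      calc v * (b * t) * v⁻¹ * (b * t)⁻¹ = v * b * (t * v⁻¹) * t⁻¹ * b⁻¹ := by group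
        _ = v * b * v⁻¹ * b⁻¹ := by rw [h3]; group
    rw [this]
    exact commutator_mem_commutator hv hb
  have r2 : ⁅V', V⁆ = ⁅V', S'⁆ := by
    apply le_antisymm (commutator_mono le_rfl h1)
    rw [Subgroup.commutator_le]
    intro v hv s hs
    rw [← s1] at hs
    obtain ⟨b, hb, t, ht, rfl⟩ := mem_sup_of_norm hn1 hs
    have : ⁅v, b * t⁆ = ⁅v, b⁆ := by
      rw [commutatorElement_def, commutatorElement_def]
      have h3 : t * v⁻¹ = v⁻¹ * t := (c'.VQc _ (V'.inv_mem hv) t ht).symm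
      calc v * (b * t) * v⁻¹ * (b * t)⁻¹ = v * b * (t * v⁻¹) * t⁻¹ * b⁻¹ := by group
        _ = v * b * v⁻¹ * b⁻¹ := by rw [h3]; group
    rw [this]
    exact commutator_mem_commutator hv hb
  refine ⟨hq, s2, s1, e2, e1, r1, ?_⟩
  rw [← r2, commutator_comm, r1]

end Loc

end Cfsg.Agent.H260.GN
end

-- part: H260/GN2
section
/-!
# Glauberman-Niles, part 2: the extension lemma, the large abelian lemma, Lemma M
-/

set_option autoImplicit false
set_option linter.unusedSectionVars false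
set_option linter.unusedVariables false
set_option linter.style.haveILetI false

namespace Cfsg.Agent.H260.GN

open Subgroup Push
open scoped commutatorElement

variable {G : Type*} [Group G]

theorem comm_sup' {A B : Subgroup G} (hA : Cm A A) (hB : Cm B B) (hAB : Cm A B) : Cm (A ⊔ B) (A ⊔ B) :=
  comm_sup hA hB hAB

/-- numerical part -/
theorem numJ {b b0 x P i j m A t q : ℕ} (hx : 0 < x) (hi : 0 < i) (hb0 : 0 < b0) (hq : 0 < q)
    (e1 : P = q * (q * x)) (e2 : m * j = b0 * P) (e3 : m ≤ A) (e4 : A * i = b * x) (e5 : b ≤ q * b0)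
    (e6 : t * i = j * x) : q * x ≤ t := by
  have h1 : (b0 * q * x) * (q * i) ≤ (b0 * q * x) * j := by
    calc (b0 * q * x) * (q * i) = (b0 * P) * i := by rw [e1]; ring
      _ = m * j * i := by rw [← e2]
      _ ≤ A * j * i := by gcongr
      _ = (A * i) * j := by ring
      _ = b * x * j := by rw [e4]
      _ ≤ (q * b0) * x * j := by gcongr
      _ = _ := by ring
  have h2 : q * i ≤ j := Nat.le_of_mul_le_mul_left h1 (by positivity)
  have h3 : (q * x) * i ≤ t * i := by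
    rw [e6]
    calc (q * x) * i = (q * i) * x := by ring
      _ ≤ j * x := by gcongr
  exact Nat.le_of_mul_le_mul_right h3 hi

theorem numJ' {b b0 x P i j m A t q : ℕ} (hx : 0 < x) (hi : 0 < i) (hb0 : 0 < b0) (hq : 0 < q)
    (e1 : P = q * (q * x)) (e2 : m * j = b0 * P) (e3 : m ≤ A) (e4 : A * i = b * x) (e5 : b ≤ q * b0)
    (e6 : t * i = j * x) (e7 : t ≤ q * x) : b = q * b0 := by
  apply le_antisymm e5
  have h2 : j ≤ q * i := by
    have h3 : j * x ≤ (q * i) * x := by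
      rw [← e6]
      calc t * i ≤ (q * x) * i := by gcongr
        _ = _ := by ring
    exact Nat.le_of_mul_le_mul_right h3 hx
  have h4 : (q * b0) * (q * x) ≤ b * (q * x) := by
    calc (q * b0) * (q * x) = b0 * P := by rw [e1]; ring
      _ = m * j := e2.symm
      _ ≤ A * (q * i) := by gcongr
      _ = q * (A * i) := by ring
      _ = b * (q * x) := by rw [e4]; ring
  exact Nat.le_of_mul_le_mul_right h4 (by positivity)

/-- **Lemma J.** -/
theorem lemmaJ {S A B X U W1 W2 : Subgroup G} {a : G} {q : ℕ} [Finite S]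
    (hA : ∀ x ∈ A, ∀ y ∈ A, x * y = y * x) (hBA : B ≤ A) (ha : a ∈ A) (hAS : LargeAb S (B ⊔ X))
    (hX : cj a X = X) (hUS : U ≤ S) (hUaS : cj a U ≤ S) (hUU : Cm U U) (hUUa : Cm U (cj a U))
    (hUX : Cm U X) (hW1 : Cm W1 (cj a U)) (hW1X : Cm W1 X)
    (hW1U : ∀ u ∈ U, (∀ w ∈ W1, w * u = u * w) → u ∈ X) (hW2 : Cm W2 U) (hW2X : Cm W2 X)
    (hW2U : ∀ u ∈ cj a U, (∀ w ∈ W2, w * u = u * w) → u ∈ X)
    (hq1 : Nat.card U = q * Nat.card (U ⊓ X : Subgroup G))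
    (hq2 : Nat.card B ≤ q * Nat.card (B ⊓ centralizer (U : Set G) : Subgroup G)) :
    Nat.card B = q * Nat.card (B ⊓ centralizer (U : Set G) : Subgroup G) ∧
      ∀ u ∈ U, ∃ u' ∈ cj a U, ∃ e ∈ X, u * u' * e ∈ B ⊔ X := by
  set Ua := cj a U with hUa
  set B₀ := B ⊓ centralizer (U : Set G) with hB₀
  have hBS : B ≤ S := le_sup_left.trans hAS.le
  have hXS : X ≤ S := le_sup_right.trans hAS.le
  haveI : Finite U := fin_le hUS
  haveI : Finite Ua := fin_le hUaS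
  haveI : Finite X := fin_le hXS
  haveI : Finite B := fin_le hBS
  have hUaX : Cm Ua X := by
    have := hUX.cj a
    rwa [hX] at this
  have hUaUa : Cm Ua Ua := hUU.cj a
  have hAc : Cm (B ⊔ X) (B ⊔ X) := hAS.comm
  have hXX : Cm X X := hAc.mono le_sup_right le_sup_right
  have hBX : Cm B X := hAc.mono le_sup_left le_sup_right
  have hBB : Cm B B := hAc.mono le_sup_left le_sup_left
  set P := U ⊔ (Ua ⊔ X) with hP
  have hUaXc : Cm (Ua ⊔ X) (Ua ⊔ X) := comm_sup' hUaUa hXX hUaX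
  have hUP : Cm U (Ua ⊔ X) := hUUa.sup_right hUX
  have hPc : Cm P P := comm_sup' hUU hUaXc hUP
  have hPS : P ≤ S := sup_le hUS (sup_le hUaS hXS)
  haveI : Finite P := fin_le hPS
  -- (i), (ii)
  have h1 : ∀ u ∈ Ua, u ∈ U ⊔ X → u ∈ X := by
    intro u hu hu'
    exact hW2U u hu fun w hw => (hW2.sup_right hW2X) w hw u hu'
  have h2 : ∀ u ∈ U, u ∈ Ua ⊔ X → u ∈ X := by
    intro u hu hu'
    exact hW1U u hu fun w hw => (hW1.sup_right hW1X) w hw u hu'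
  have e1 : U ⊓ (Ua ⊔ X) = U ⊓ X := by
    apply le_antisymm
    · exact fun x hx => ⟨hx.1, h2 x hx.1 hx.2⟩
    · exact inf_le_inf_left _ le_sup_right
  have hUXpos : 0 < Nat.card (U ⊓ X : Subgroup G) := by
    haveI : Finite (U ⊓ X : Subgroup G) := fin_le inf_le_left
    exact Nat.card_pos
  have c1 : Nat.card P = q * Nat.card (Ua ⊔ X : Subgroup G) := by
    have := hUP.card_mul
    rw [e1, hq1] at this
    apply Nat.eq_of_mul_eq_mul_right hUXpos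
    rw [hP, this]; ring
  have e2 : Ua ⊓ X = cj a (U ⊓ X) := by rw [cj_inf, hX]
  have c2 : Nat.card (Ua ⊔ X : Subgroup G) = q * Nat.card X := by
    have := hUaX.card_mul
    rw [e2, card_cj, hUa, card_cj, hq1] at this
    apply Nat.eq_of_mul_eq_mul_right hUXpos
    rw [hUa, this]; ring
  have cP : Nat.card P = q * (q * Nat.card X) := by rw [c1, c2]
  have hq : 0 < q := by
    rcases Nat.eq_zero_or_pos q with h | h
    · rw [h, zero_mul] at hq1
      have : 0 < Nat.card U := Nat.card_pos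
      omega
    · exact h
  -- (v)
  have hB₀P : Cm B₀ P := by
    have hb1 : Cm B₀ U := by
      rw [cm_iff_le]
      exact inf_le_right
    have hb2 : Cm B₀ Ua := by
      intro b hb y hy
      rw [hUa, mem_cj] at hy
      have h3 := hb1 b hb _ hy
      have h4 : a * b = b * a := hA a ha b (hBA hb.1)
      have h4' : a⁻¹ * b = b * a⁻¹ := by
        rw [inv_mul_eq_iff_eq_mul, ← mul_assoc, h4, mul_assoc, mul_inv_cancel, mul_one]
      calc b * y = b * (a * (a⁻¹ * y * a) * a⁻¹) := by group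
        _ = (b * a) * (a⁻¹ * y * a) * a⁻¹ := by group
        _ = a * (b * (a⁻¹ * y * a)) * a⁻¹ := by rw [← h4]; group
        _ = a * (a⁻¹ * y * a * b) * a⁻¹ := by rw [h3]
        _ = y * a * (b * a⁻¹) := by group
        _ = y * a * (a⁻¹ * b) := by rw [h4']
        _ = y * b := by group
    exact hb1.sup_right (hb2.sup_right (hBX.mono inf_le_left le_rfl))
  have hB₀B₀ : Cm B₀ B₀ := hBB.mono inf_le_left inf_le_left
  have hm : Nat.card (B₀ ⊔ P : Subgroup G) ≤ Nat.card (B ⊔ X : Subgroup G) :=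
    hAS.max _ (sup_le (inf_le_left.trans hBS) hPS) (comm_sup hB₀B₀ hPc hB₀P)
  set T := (B₀ ⊓ P) ⊔ X with hT
  have hXB₀ : B ⊓ X ≤ B₀ := by
    apply le_inf inf_le_left
    intro x hx
    rw [mem_centralizer_iff]
    intro y hy
    exact hUX y hy x hx.2
  have hXP : X ≤ P := le_sup_right.trans le_sup_right
  have e3 : (B₀ ⊓ P) ⊓ X = B ⊓ X := by
    apply le_antisymm
    · exact inf_le_inf_right _ (inf_le_left.trans inf_le_left)
    · exact le_inf (le_inf hXB₀ (inf_le_right.trans hXP)) inf_le_right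
  have hTcm : Cm (B₀ ⊓ P) X := hPc.mono inf_le_right hXP
  have e6 : Nat.card T * Nat.card (B ⊓ X : Subgroup G) =
      Nat.card (B₀ ⊓ P : Subgroup G) * Nat.card X := by
    have := hTcm.card_mul
    rwa [e3] at this
  have e4 : Nat.card (B ⊔ X : Subgroup G) * Nat.card (B ⊓ X : Subgroup G) = Nat.card B * Nat.card X :=
    hBX.card_mul
  have e5 : Nat.card (B₀ ⊔ P : Subgroup G) * Nat.card (B₀ ⊓ P : Subgroup G) = Nat.card B₀ * Nat.card P :=
    hB₀P.card_mul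
  have hXpos : 0 < Nat.card X := Nat.card_pos
  haveI : Finite B₀ := fin_le (inf_le_left : B₀ ≤ B)
  haveI : Finite (B ⊓ X : Subgroup G) := fin_le (inf_le_left : B ⊓ X ≤ B)
  have hBXpos : 0 < Nat.card (B ⊓ X : Subgroup G) := Nat.card_pos
  have hB₀pos : 0 < Nat.card B₀ := Nat.card_pos
  have hT1 : q * Nat.card X ≤ Nat.card T := numJ hXpos hBXpos hB₀pos hq cP e5 hm e4 hq2 e6
  -- (vi)
  have hTA : T ≤ B ⊔ X := sup_le (inf_le_left.trans (inf_le_left.trans le_sup_left)) le_sup_right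
  have hTP : T ≤ P := sup_le inf_le_right hXP
  have haB : ∀ b ∈ B, a * b * a⁻¹ = b := by
    intro b hb
    rw [hA a ha b (hBA hb), mul_assoc, mul_inv_cancel, mul_one]
  have h3 : ∀ t ∈ B ⊔ X, t ∈ U ⊔ X → t ∈ X := by
    intro t ht htU
    obtain ⟨b, hb, x, hx, rfl⟩ := hBX.mem_sup ht
    have hx' : a * x * a⁻¹ ∈ X := by
      have := conj_mem_cj (g := a) hx
      rwa [hX] at this
    have m1 : a * (b * x) * a⁻¹ = (b * x) * (x⁻¹ * (a * x * a⁻¹)) := by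
      calc a * (b * x) * a⁻¹ = (a * b * a⁻¹) * (a * x * a⁻¹) := by group
        _ = _ := by rw [haB b hb]; group
    have m2 : a * (b * x) * a⁻¹ ∈ U ⊔ X := by
      rw [m1]
      exact mul_mem htU (mem_sup_right (X.mul_mem (X.inv_mem hx) hx'))
    have m3 : a * (b * x) * a⁻¹ ∈ Ua ⊔ X := by
      have := conj_mem_cj (g := a) htU
      rwa [cj_sup, hX] at this
    obtain ⟨u', hu', e, he, hue⟩ := hUaX.mem_sup m3
    have m4 : u' ∈ X := by
      apply h1 u' hu'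
      have : u' = (a * (b * x) * a⁻¹) * e⁻¹ := by rw [← hue]; group
      rw [this]
      exact mul_mem m2 (mem_sup_right (X.inv_mem he))
    have m5 : a * (b * x) * a⁻¹ ∈ X := by
      rw [← hue]
      exact X.mul_mem m4 he
    have m6 : b * x ∈ cj a⁻¹ X := by
      rw [mem_cj]
      simpa using m5
    rwa [cj_inv_eq hX] at m6
  have h4 : ∀ t ∈ B ⊔ X, t ∈ Ua ⊔ X → t ∈ X := by
    intro t ht htU
    have m1 : a⁻¹ * t * a ∈ B ⊔ X := by
      obtain ⟨b, hb, x, hx, rfl⟩ := hBX.mem_sup ht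
      have e7 : a⁻¹ * (b * x) * a = (a⁻¹ * b * a) * (a⁻¹ * x * a) := by group
      have e8 : a⁻¹ * b * a = b := by
        have := haB b hb
        calc a⁻¹ * b * a = a⁻¹ * (a * b * a⁻¹) * a := by rw [this]
          _ = b := by group
      have e9 : a⁻¹ * x * a ∈ X := by
        rw [← mem_cj, hX]
        exact hx
      rw [e7, e8]
      exact mul_mem (mem_sup_left hb) (mem_sup_right e9)
    have m2 : a⁻¹ * t * a ∈ U ⊔ X := by
      rw [← mem_cj, cj_sup, hX]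
      exact htU
    have m3 := h3 _ m1 m2
    rwa [← mem_cj, hX] at m3
  have e7 : T ⊓ (Ua ⊔ X) = X := by
    apply le_antisymm
    · exact fun x hx => h4 x (hTA hx.1) hx.2
    · exact le_inf le_sup_right le_sup_right
  have hTcm2 : Cm T (Ua ⊔ X) := hPc.mono hTP le_sup_right
  have e8 : Nat.card (T ⊔ (Ua ⊔ X) : Subgroup G) * Nat.card X = Nat.card T * (q * Nat.card X) := by
    have := hTcm2.card_mul
    rw [e7, c2] at this
    exact this
  have hle : T ⊔ (Ua ⊔ X) ≤ P := sup_le hTP le_sup_right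
  have hle' : Nat.card (T ⊔ (Ua ⊔ X) : Subgroup G) ≤ Nat.card P := card_mono' hle
  have hT2 : Nat.card T ≤ q * Nat.card X := by
    have h5 : Nat.card T * (q * Nat.card X) ≤ (q * Nat.card X) * (q * Nat.card X) := by
      rw [← e8]
      calc _ ≤ Nat.card P * Nat.card X := by gcongr
        _ = _ := by rw [cP]; ring
    exact Nat.le_of_mul_le_mul_right h5 (by positivity)
  refine ⟨numJ' hXpos hBXpos hB₀pos hq cP e5 hm e4 hq2 e6 hT2, ?_⟩
  have hPeq : T ⊔ (Ua ⊔ X) = P := by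
    apply eq_of_card hle
    have h5 : Nat.card P * Nat.card X ≤ Nat.card (T ⊔ (Ua ⊔ X) : Subgroup G) * Nat.card X := by
      rw [e8, cP]
      calc q * (q * Nat.card X) * Nat.card X = (q * Nat.card X) * (q * Nat.card X) := by ring
        _ ≤ _ := by gcongr
    exact Nat.le_of_mul_le_mul_right h5 hXpos
  intro u hu
  have hu' : u ∈ T ⊔ (Ua ⊔ X) := by
    rw [hPeq]
    exact mem_sup_left hu
  obtain ⟨t, ht, y, hy, hty⟩ := hTcm2.mem_sup hu'
  obtain ⟨u', hu'', e, he, hue⟩ := hUaX.mem_sup hy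
  refine ⟨u'⁻¹, Ua.inv_mem hu'', e⁻¹, X.inv_mem he, ?_⟩
  have : u * u'⁻¹ * e⁻¹ = t := by
    rw [← hty, ← hue, hUaX u' hu'' e he]
    group
  rw [this]
  exact hTA ht

/-- `U/K` of `p`-power exponent gives `U = SK`. -/
theorem sylAct {p : ℕ} [hp : Fact p.Prime] {S L U K : Subgroup G} (hL : Finite L)
    (hidx : ¬ p ∣ S.relIndex L) (hSU : S ≤ U) (hUL : U ≤ L) (hKU : K ≤ U) (hKn : ∀ g ∈ U, cj g K = K)
    (hpow : ∀ g ∈ U, ∃ k, g ^ (p ^ k) ∈ K) : U ≤ S ⊔ K := by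
  haveI : Finite U := fin_le hUL
  have h1 : ¬ p ∣ S.relIndex U := by
    intro h
    apply hidx
    rw [← relIndex_mul_relIndex S U L hSU hUL]
    exact h.mul_right _
  have hSK : S ⊔ K ≤ U := sup_le hSU hKU
  have h2 : ¬ p ∣ (S ⊔ K).relIndex U := by
    intro h
    apply h1
    rw [← relIndex_mul_relIndex S (S ⊔ K) U le_sup_left hSK]
    exact h.mul_left _
  have hn : (K.subgroupOf U).Normal := by
    constructor
    intro x hx g
    rw [mem_subgroupOf] at hx ⊢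
    have := conj_mem_cj (g := (g : G)) hx
    rwa [hKn g g.2] at this
  have hpg : IsPGroup p (U ⧸ K.subgroupOf U) := by
    intro x
    obtain ⟨g, rfl⟩ := QuotientGroup.mk_surjective x
    obtain ⟨k, hk⟩ := hpow g g.2
    refine ⟨k, ?_⟩
    rw [← QuotientGroup.mk_pow, QuotientGroup.eq_one_iff, mem_subgroupOf]
    exact hk
  obtain ⟨n, hn'⟩ := (IsPGroup.iff_card).mp hpg
  have h3 : K.relIndex U = p ^ n := hn'
  have h4 : (S ⊔ K).relIndex U ∣ p ^ n := by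
    rw [← h3, ← relIndex_mul_relIndex K (S ⊔ K) U le_sup_right hSK]
    exact dvd_mul_left _ _
  obtain ⟨j, -, hj⟩ := (Nat.dvd_prime_pow hp.out).mp h4
  have hj0 : j = 0 := by
    by_contra hne
    apply h2
    rw [hj]
    exact dvd_pow_self p hne
  rw [hj0, pow_zero, relIndex_eq_one] at hj
  exact hj

/-- if `g` acts trivially on `N/K` and a `p`-power of `g` centralises `K`, then one centralises `N`. -/
theorem unip_step {p : ℕ} [hp : Fact p.Prime] {g : G} {N K : Subgroup G} (hKN : K ≤ N) [Finite K]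
    (hK : IsPGroup p K) (h1 : ∀ x ∈ N, g * x * g⁻¹ * x⁻¹ ∈ K)
    (h2 : ∃ m, ∀ k ∈ K, g ^ (p ^ m) * k = k * g ^ (p ^ m)) :
    ∃ m, ∀ x ∈ N, g ^ (p ^ m) * x = x * g ^ (p ^ m) := by
  obtain ⟨m, hm⟩ := h2
  obtain ⟨e, he⟩ := (IsPGroup.iff_card).mp hK
  have h3 : ∀ n : ℕ, ∀ x ∈ N, g ^ n * x * (g ^ n)⁻¹ * x⁻¹ ∈ K := by
    intro n
    induction n with
    | zero => intro x hx; simp
    | succ n ih =>
      intro x hx
      have e1 : g ^ (n + 1) * x * (g ^ (n + 1))⁻¹ * x⁻¹ =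
          (g * (g ^ n * x * (g ^ n)⁻¹ * x⁻¹) * g⁻¹ * (g ^ n * x * (g ^ n)⁻¹ * x⁻¹)⁻¹) *
            (g ^ n * x * (g ^ n)⁻¹ * x⁻¹) * (g * x * g⁻¹ * x⁻¹) := by
        rw [pow_succ']
        group
      rw [e1]
      exact K.mul_mem (K.mul_mem (h1 _ (hKN (ih x hx))) (ih x hx)) (h1 x hx)
  set h := g ^ (p ^ m) with hh
  have h4 : ∀ x ∈ N, h * x * h⁻¹ * x⁻¹ ∈ K := fun x hx => h3 _ x hx
  refine ⟨m + e, ?_⟩
  intro x hx
  have h5 : ∀ n : ℕ, h ^ n * x * (h ^ n)⁻¹ = (h * x * h⁻¹ * x⁻¹) ^ n * x := by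
    intro n
    induction n with
    | zero => simp
    | succ n ih =>
      have h6 : h * (h * x * h⁻¹ * x⁻¹) ^ n = (h * x * h⁻¹ * x⁻¹) ^ n * h :=
        hm _ (K.pow_mem (h4 x hx) n)
      calc h ^ (n + 1) * x * (h ^ (n + 1))⁻¹ = h * (h ^ n * x * (h ^ n)⁻¹) * h⁻¹ := by
            rw [pow_succ']; group
        _ = h * ((h * x * h⁻¹ * x⁻¹) ^ n * x) * h⁻¹ := by rw [ih]
        _ = (h * (h * x * h⁻¹ * x⁻¹) ^ n) * x * h⁻¹ := by group
        _ = (h * x * h⁻¹ * x⁻¹) ^ n * (h * x * h⁻¹ * x⁻¹) * x := by rw [h6]; group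
        _ = _ := by rw [← pow_succ]
  have h7 := h5 (p ^ e)
  have h8 : (h * x * h⁻¹ * x⁻¹) ^ (p ^ e) = 1 := by
    have : (⟨h * x * h⁻¹ * x⁻¹, h4 x hx⟩ : K) ^ (p ^ e) = 1 := by
      rw [← he]
      exact pow_card_eq_one'
    exact congrArg Subtype.val this
  rw [h8, one_mul] at h7
  rw [pow_add, pow_mul, ← hh]
  calc h ^ p ^ e * x = (h ^ p ^ e * x * (h ^ p ^ e)⁻¹) * h ^ p ^ e := by group
    _ = x * h ^ p ^ e := by rw [h7]

/-- the elements of `M` acting trivially on `A/B`. -/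
def tr (M A B : Subgroup G) (hB : ∀ g ∈ M, cj g B = B) : Subgroup G where
  carrier := {g | g ∈ M ∧ ∀ a ∈ A, g * a * g⁻¹ * a⁻¹ ∈ B}
  one_mem' := ⟨M.one_mem, fun a _ => by simp⟩
  mul_mem' := by
    rintro g h ⟨hg, hg'⟩ ⟨hh, hh'⟩
    refine ⟨M.mul_mem hg hh, fun a ha => ?_⟩
    have e : g * h * a * (g * h)⁻¹ * a⁻¹ = (g * (h * a * h⁻¹ * a⁻¹) * g⁻¹) * (g * a * g⁻¹ * a⁻¹) := by
      group
    rw [e]
    apply B.mul_mem _ (hg' a ha)
    have := conj_mem_cj (g := g) (hh' a ha)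
    rwa [hB g hg] at this
  inv_mem' := by
    rintro g ⟨hg, hg'⟩
    refine ⟨M.inv_mem hg, fun a ha => ?_⟩
    have e : g⁻¹ * a * g⁻¹⁻¹ * a⁻¹ = g⁻¹ * (g * a * g⁻¹ * a⁻¹)⁻¹ * g⁻¹⁻¹ := by group
    rw [e]
    have := conj_mem_cj (g := g⁻¹) (B.inv_mem (hg' a ha))
    rwa [hB _ (M.inv_mem hg)] at this

theorem mem_tr {M A B : Subgroup G} {hB : ∀ g ∈ M, cj g B = B} {g : G} :
    g ∈ tr M A B hB ↔ g ∈ M ∧ ∀ a ∈ A, g * a * g⁻¹ * a⁻¹ ∈ B := Iff.rfl

theorem tr_n {M A B : Subgroup G} {hB : ∀ g ∈ M, cj g B = B} (hA : ∀ g ∈ M, cj g A = A) :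
    ∀ g ∈ M, cj g (tr M A B hB) = tr M A B hB := by
  have key : ∀ g ∈ M, cj g (tr M A B hB) ≤ tr M A B hB := by
    intro g hg x hx
    rw [mem_cj] at hx
    obtain ⟨h1, h2⟩ := hx
    refine ⟨?_, ?_⟩
    · have := M.mul_mem (M.mul_mem hg h1) (M.inv_mem hg)
      have e : g * (g⁻¹ * x * g) * g⁻¹ = x := by group
      rwa [e] at this
    · intro a ha
      have ha' : g⁻¹ * a * g ∈ A := by
        rw [← mem_cj, hA g hg]
        exact ha
      have h3 := conj_mem_cj (g := g) (h2 _ ha')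
      rw [hB g hg] at h3
      have e : g * (g⁻¹ * x * g * (g⁻¹ * a * g) * (g⁻¹ * x * g)⁻¹ * (g⁻¹ * a * g)⁻¹) * g⁻¹ =
          x * a * x⁻¹ * a⁻¹ := by group
      rwa [e] at h3
  intro g hg
  apply le_antisymm (key g hg)
  rw [le_cj_iff]
  exact key _ (M.inv_mem hg)

namespace Loc

variable {p q : ℕ} [hp : Fact p.Prime] {S L Q V C M : Subgroup G}
variable (c : Loc p q S L Q V C M)
include c

theorem pgV : IsPGroup p V := c.pg.to_le c.VS

theorem pgZ : IsPGroup p (cen S) := c.pg.to_le c.ZS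

theorem pgC : IsPGroup p C := c.pg.to_le (c.CZ.trans c.ZS)

theorem MC : ∀ m ∈ M, cj m C = C := fun m hm => c.Cn m (c.ML hm)

/-- `M` normalises `R = [V,S]`. -/
theorem cjR {g : G} (hg : g ∈ M) : cj g ⁅V, S⁆ = ⁅V, S⁆ := by
  haveI := c.finZ
  haveI : Finite C := fin_le c.CZ
  have hMV : ∀ m ∈ M, cj m V = V := fun m hm => c.Vn m (c.ML hm)
  have hMb : ∀ m ∈ M, cj m (⊥ : Subgroup G) = ⊥ := fun m hm => Subgroup.map_bot _
  set U := tr M V (cen S) c.MZ ⊓ tr M (cen S) C c.MC with hU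
  set K := tr M V ⊥ hMb with hK
  have hKV : ∀ k ∈ K, ∀ v ∈ V, k * v = v * k := by
    intro k hk v hv
    have := hk.2 v hv
    rw [mem_bot] at this
    have h2 := mul_inv_eq_one.mp this
    calc k * v = (k * v * k⁻¹) * k := by group
      _ = v * k := by rw [h2]
  have hn : ∀ m ∈ M, cj m U = U := fun m hm => cj_inf_eq (tr_n hMV m hm) (tr_n c.MZ m hm)
  have hSU : S ≤ U := by
    intro s hs
    refine ⟨⟨c.SM hs, fun v hv => c.quad v hv s hs⟩, ⟨c.SM hs, fun z hz => ?_⟩⟩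
    have h1 : s * z = z * s := cen_comm hz hs
    rw [h1]
    have : z * s * s⁻¹ * z⁻¹ = 1 := by group
    rw [this]
    exact C.one_mem
  have hKU : K ≤ U := by
    intro k hk
    have h1 : ∀ v ∈ V, k * v * k⁻¹ * v⁻¹ = 1 := fun v hv => by
      rw [hKV k hk v hv]; group
    refine ⟨⟨hk.1, fun v hv => by rw [h1 v hv]; exact one_mem _⟩,
      ⟨hk.1, fun z hz => by rw [h1 z (c.ZV hz)]; exact one_mem _⟩⟩
  have hUM : U ≤ M := fun x hx => hx.1.1
  have hsyl : U ≤ S ⊔ K := by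
    apply sylAct c.fin c.idx hSU (hUM.trans c.ML) hKU
    · exact fun m hm => tr_n hMV m (hUM hm)
    · intro g hg
      have h1 : ∃ m, ∀ k ∈ C, g ^ (p ^ m) * k = k * g ^ (p ^ m) :=
        ⟨0, fun k hk => (c.CL k hk _ (L.pow_mem (c.ML (hUM hg)) _)).symm⟩
      have h2 := unip_step c.CZ c.pgC hg.2.2 h1
      obtain ⟨m, hm⟩ := unip_step c.ZV c.pgZ hg.1.2 h2
      refine ⟨m, M.pow_mem (hUM hg) _, fun v hv => ?_⟩
      rw [hm v hv, mem_bot]
      group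
  have hKn : ∀ s ∈ S, cj s K = K := fun s hs => tr_n hMV s (c.SM hs)
  haveI : Finite (⁅V, S⁆ : Subgroup G) := fin_le c.VS_le
  apply cj_eq_of_le
  rw [cj_comm, Subgroup.commutator_le, hMV g hg]
  intro v hv s hs
  have h1 : s ∈ S ⊔ K := by
    apply hsyl
    have h2 := cj_mono (g := g) hSU
    rw [hn g hg] at h2
    exact h2 hs
  obtain ⟨s', hs', k, hk, rfl⟩ := mem_sup_of_norm hKn h1
  have : ⁅v, s' * k⁆ = ⁅v, s'⁆ := by
    rw [commutatorElement_def, commutatorElement_def]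
    have h3 : k * v⁻¹ = v⁻¹ * k := hKV k hk _ (V.inv_mem hv)
    calc v * (s' * k) * v⁻¹ * (s' * k)⁻¹ = v * s' * (k * v⁻¹) * k⁻¹ * s'⁻¹ := by group
      _ = v * s' * v⁻¹ * s'⁻¹ := by rw [h3]; group
  rw [this]
  exact commutator_mem_commutator hv hs'

theorem cjR_of_le {g : G} (hg : g ∈ L) (h : cj g ⁅V, S⁆ ≤ cen S) : cj g ⁅V, S⁆ = ⁅V, S⁆ :=
  c.cjR (c.mem_M_of_R hg h)

/-- If `R^g ≤ Z` then `g ∈ M`; hence `R ≤ Z ∩ Z^g` is impossible for `g ∉ M`. -/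
theorem R_not_le {g : G} (hg : g ∈ L) (hgM : g ∉ M) : ¬ cj g ⁅V, S⁆ ≤ cen S :=
  fun h => hgM (c.mem_M_of_R hg h)

theorem crit_R {q' : ℕ} {S' L' Q' V' C' M' : Subgroup G} (c' : Loc p q' S' L' Q' V' C' M')
    (h1 : V ≤ S') (h2 : V' ≤ S) (hnc : ¬ Cm V V') : ⁅V', S'⁆ = ⁅V, S⁆ := (c.crit c' h1 h2 hnc).2.2.2.2.2.2

theorem crit_S {q' : ℕ} {S' L' Q' V' C' M' : Subgroup G} (c' : Loc p q' S' L' Q' V' C' M')
    (h1 : V ≤ S') (h2 : V' ≤ S) (hnc : ¬ Cm V V') : V' ⊔ Q = S := (c.crit c' h1 h2 hnc).2.1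

theorem crit_mem {q' : ℕ} {S' L' Q' V' C' M' : Subgroup G} (c' : Loc p q' S' L' Q' V' C' M')
    (h1 : V ≤ S') (h2 : V' ≤ S) (hnc : ¬ Cm V V') {v : G} (hv : v ∈ V) (h : ∀ y ∈ V', y * v = v * y) :
    v ∈ cen S := by
  have hV'Q : ¬ V' ≤ Q := fun h => hnc (c.VQc.mono le_rfl h)
  obtain ⟨b, hb, hbQ⟩ := SetLike.not_le_iff_exists.mp hV'Q
  exact c.fix (h2 hb) hbQ hv (h b hb)

theorem cj_comm' (g : G) : ⁅cj g V, cj g S⁆ = cj g ⁅V, S⁆ := (cj_comm g V S).symm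

/-- **The extension lemma.** -/
theorem extend {q' : ℕ} {S' L' Q' V' C' M' : Subgroup G} (c' : Loc p q' S' L' Q' V' C' M')
    (h1 : V ≤ S') (h2 : V' ≤ S) (hnc : ¬ Cm V V') {g : G} (hg : g ∈ L) (hgM : g ∉ M) {E : Subgroup G}
    (hVE : V ≤ E) (hES : ∀ s ∈ S, cj s E = E) (hE' : cj g E ≤ S') : ∀ l ∈ L, cj l E = E := by
  haveI := c'.finS
  haveI : Finite (cj g E) := fin_le hE'
  have hR := c.crit_R c' h1 h2 hnc
  have hVE' : V ≤ cj g E := by
    have := cj_mono (g := g) hVE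
    rwa [c.Vn g hg] at this
  have k1 : ∀ b ∈ V', cj b (cj g E) = cj g E := by
    intro b hb
    apply cj_eq_of_forall
    intro e he
    have h3 : ⁅b, e⁆ ∈ cj g E := by
      apply hVE'
      apply c.ZV
      apply c.VS_le
      rw [← hR]
      exact commutator_mem_commutator hb (hE' he)
    have e1 : b * e * b⁻¹ = ⁅b, e⁆ * e := by rw [commutatorElement_def]; group
    rw [e1]
    exact mul_mem h3 he
  have k2 : ∀ k ∈ cj g S, cj k (cj g E) = cj g E := by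
    intro k hk
    rw [mem_cj] at hk
    have := hES _ hk
    have e1 : k * g = g * (g⁻¹ * k * g) := by group
    rw [cj_mul, e1, ← cj_mul, this]
  have k3 : ∀ k ∈ Q, cj k (cj g E) = cj g E := by
    intro k hk
    apply k2
    have := cj_mono (g := g) c.QS
    rw [c.Qn g hg] at this
    exact this hk
  have k4 : ∀ k ∈ L, cj k (cj g E) = cj g E := by
    rw [← c.gen g hg hgM]
    apply norm_sup _ k2
    rw [← c.crit_S c' h1 h2 hnc]
    exact norm_sup k1 k3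
  have k5 : cj g E = E := by
    have := k4 _ (L.inv_mem hg)
    rw [cj_inv_cj] at this
    exact this.symm
  rw [k5] at k4
  exact k4

theorem Q_le_cjS {g : G} (hg : g ∈ L) : Q ≤ cj g S := by
  have := cj_mono (g := g) c.QS
  rwa [c.Qn g hg] at this

/-- `|B : B ∩ Q| ≤ q` for `B ≤ S`. -/
theorem card_le_q' {B : Subgroup G} (hB : B ≤ S) :
    Nat.card B ≤ q * Nat.card (B ⊓ Q : Subgroup G) ∧
      (q * Nat.card (B ⊓ Q : Subgroup G) ≤ Nat.card B → B ⊔ Q = S) := by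
  haveI := c.finS
  haveI := c.finQ
  haveI : Finite B := fin_le hB
  haveI : Finite (B ⊓ Q : Subgroup G) := fin_le inf_le_left
  have h1 : Nat.card (B ⊔ Q : Subgroup G) * Nat.card (B ⊓ Q : Subgroup G) = Nat.card B * Nat.card Q :=
    card_mul_norm fun k hk => c.Qn k (c.SL (hB hk))
  have hle : B ⊔ Q ≤ S := sup_le hB c.QS
  have h2 := card_mono' hle
  rw [c.cardS] at h2
  have hQ : 0 < Nat.card Q := Nat.card_pos
  have hI : 0 < Nat.card (B ⊓ Q : Subgroup G) := Nat.card_pos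
  refine ⟨?_, fun h => ?_⟩
  · have h3 : Nat.card B * Nat.card Q ≤ (q * Nat.card (B ⊓ Q : Subgroup G)) * Nat.card Q := by
      rw [← h1]
      calc _ ≤ q * Nat.card Q * Nat.card (B ⊓ Q : Subgroup G) := by gcongr
        _ = _ := by ring
    exact Nat.le_of_mul_le_mul_right h3 hQ
  · apply eq_of_card hle
    rw [c.cardS]
    have h3 : q * Nat.card Q * Nat.card (B ⊓ Q : Subgroup G) ≤
        Nat.card (B ⊔ Q : Subgroup G) * Nat.card (B ⊓ Q : Subgroup G) := by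
      rw [h1]
      calc _ = (q * Nat.card (B ⊓ Q : Subgroup G)) * Nat.card Q := by ring
        _ ≤ _ := by gcongr
    exact Nat.le_of_mul_le_mul_right h3 hI

theorem centU {B : Subgroup G} (hB : B ≤ S) : B ⊓ centralizer (V : Set G) = B ⊓ Q := by
  apply le_antisymm
  · apply le_inf inf_le_left
    rw [← c.cV]
    exact inf_le_inf_right _ hB
  · apply le_inf inf_le_left
    refine inf_le_right.trans ?_
    rw [← cm_iff_le]
    exact c.VQc.symm

/-- **Lemma M.** -/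
theorem lemmaM {q₁ q' : ℕ} {L₁ Q₁ V₁ C₁ M₁ S' L' Q' V' C' M' : Subgroup G}
    (c₁ : Loc p q₁ S L₁ Q₁ V₁ C₁ M₁) (c' : Loc p q' S' L' Q' V' C' M') (h01 : Cm V V₁)
    (h1' : Cm V₁ V') (hS' : ∀ l ∈ L₁, cj l V ≤ S') (hS : ∀ l ∈ L₁, cj l V' ≤ S) (hnc : ¬ Cm V V') :
    ⁅V, S⁆ ≤ C₁ := by
  haveI := c.finS
  have hVS' : V ≤ S' := by
    have := hS' 1 L₁.one_mem
    rwa [cj_one] at this
  have hV'S : V' ≤ S := by
    have := hS 1 L₁.one_mem
    rwa [cj_one] at this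
  have hR := c.crit_R c' hVS' hV'S hnc
  have hback : ∀ l ∈ L₁, cj l ⁅V, S⁆ ≤ C₁ → ⁅V, S⁆ ≤ C₁ := by
    intro l hl h
    have := cj_mono (g := l⁻¹) h
    rwa [cj_inv_cj, c₁.Cn _ (L₁.inv_mem hl)] at this
  by_cases hcase : ∃ l ∈ L₁, l ∉ M₁ ∧ ¬ Cm (cj l V) V'
  · obtain ⟨l, hl, hlM, hlc⟩ := hcase
    have h3 := (c.cj' l).crit_R c' (hS' l hl) (by
      rw [le_cj_iff]; exact hS _ (L₁.inv_mem hl)) hlc
    rw [c.cj_comm', hR] at h3
    intro x hx
    apply c₁.two' hl hlM (c.VS_le hx)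
    rw [h3] at hx
    exact cj_mono c.VS_le hx
  push Not at hcase
  obtain ⟨l₀, hl₀, hl₀M⟩ := c₁.ex
  obtain ⟨A, hA, hAQ₁⟩ := c₁.big
  obtain ⟨a, ha, haQ⟩ := SetLike.not_le_iff_exists.mp hAQ₁
  have haS := hA.le ha
  have haL := c₁.SL haS
  have hal₀ : a * l₀ ∈ L₁ := L₁.mul_mem haL hl₀
  have m1 : l₀⁻¹ * (a * l₀) ∉ M₁ := by
    have := c₁.ti l₀ hl₀ hl₀M a haS haQ
    rwa [mul_assoc] at this
  have m2 : (a * l₀)⁻¹ * l₀ ∉ M₁ := by
    intro h
    apply m1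
    have := M₁.inv_mem h
    have e : ((a * l₀)⁻¹ * l₀)⁻¹ = l₀⁻¹ * (a * l₀) := by group
    rwa [e] at this
  have hVQ₁ : V ≤ Q₁ := c₁.le_Q c.VS h01.symm
  have hcjQ : ∀ l ∈ L₁, cj l V ≤ Q₁ := by
    intro l hl
    have := cj_mono (g := l) hVQ₁
    rwa [c₁.Qn l hl] at this
  have hQcj : ∀ l ∈ L₁, Q₁ ≤ cj l S := fun l hl => c₁.Q_le_cjS hl
  by_cases hUU : Cm (cj l₀ V) (cj (a * l₀) V)
  swap
  · have h3 := (c.cj' l₀).crit_R (c.cj' (a * l₀)) ((hcjQ _ hl₀).trans (hQcj _ hal₀))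
      ((hcjQ _ hal₀).trans (hQcj _ hl₀)) hUU
    rw [c.cj_comm', c.cj_comm'] at h3
    apply hback l₀ hl₀
    intro x hx
    apply c₁.two hl₀ hal₀ m1 (cj_mono c.VS_le hx)
    rw [← h3] at hx
    exact cj_mono c.VS_le hx
  have hVV₁ : V ⊓ V₁ = cen S := by
    apply le_antisymm
    · rintro x ⟨hx, hx1⟩
      exact c.crit_mem c' hVS' hV'S hnc hx fun y hy => (h1' x hx1 y hy).symm
    · exact le_inf c.ZV c₁.ZV
  set U := cj l₀ V with hU
  have hUa : cj a U = cj (a * l₀) V := cj_mul _ _ _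
  have hUX : Cm U V₁ := by
    have := h01.cj l₀
    rwa [c₁.Vn l₀ hl₀] at this
  set B := A ⊓ Q₁ with hB
  have hBS' : ∀ l ∈ L₁, B ≤ cj l S := fun l hl => inf_le_right.trans (hQcj l hl)
  have hcentU : B ⊓ centralizer (U : Set G) = B ⊓ cj l₀ Q := (c.cj' l₀).centU (hBS' l₀ hl₀)
  obtain ⟨j1, j2⟩ := lemmaJ (W1 := cj l₀ V') (W2 := cj (a * l₀) V') (q := q) hA.comm
    (inf_le_left : B ≤ A) ha (c₁.large hA hAQ₁).2.2 (c₁.Vn a haL) ((hcjQ l₀ hl₀).trans c₁.QS)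
    (by rw [hUa]; exact (hcjQ _ hal₀).trans c₁.QS) (c.Vab.cj l₀) (by rw [hUa]; exact hUU) hUX
    (by
      rw [hUa, cm_cj_left, cj_mul]
      exact (hcase _ (L₁.mul_mem (L₁.inv_mem hl₀) hal₀) m1).symm)
    (by
      have := h1'.symm.cj l₀
      rwa [c₁.Vn l₀ hl₀] at this)
    (by
      intro u hu hw
      rw [mem_cj] at hu
      have h3 : l₀⁻¹ * u * l₀ ∈ cen S := by
        apply c.crit_mem c' hVS' hV'S hnc hu
        intro y hy
        have h4 := hw _ (conj_mem_cj (g := l₀) hy)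
        calc y * (l₀⁻¹ * u * l₀) = l₀⁻¹ * (l₀ * y * l₀⁻¹ * u) * l₀ := by group
          _ = l₀⁻¹ * (u * (l₀ * y * l₀⁻¹)) * l₀ := by rw [h4]
          _ = _ := by group
      rw [← mem_cj] at h3
      exact c₁.cjZV hl₀ h3)
    (by
      rw [cm_cj_left, cj_mul]
      exact (hcase _ (L₁.mul_mem (L₁.inv_mem hal₀) hl₀) m2).symm)
    (by
      have := h1'.symm.cj (a * l₀)
      rwa [c₁.Vn _ hal₀] at this)
    (by
      intro u hu hw
      rw [hUa, mem_cj] at hu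
      have h3 : (a * l₀)⁻¹ * u * (a * l₀) ∈ cen S := by
        apply c.crit_mem c' hVS' hV'S hnc hu
        intro y hy
        have h4 := hw _ (conj_mem_cj (g := a * l₀) hy)
        calc y * ((a * l₀)⁻¹ * u * (a * l₀)) =
              (a * l₀)⁻¹ * (a * l₀ * y * (a * l₀)⁻¹ * u) * (a * l₀) := by group
          _ = (a * l₀)⁻¹ * (u * (a * l₀ * y * (a * l₀)⁻¹)) * (a * l₀) := by rw [h4]
          _ = _ := by group
      rw [← mem_cj] at h3
      exact c₁.cjZV hal₀ h3)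
    (by
      have h3 : U ⊓ V₁ = cj l₀ (V ⊓ V₁) := by rw [cj_inf, c₁.Vn l₀ hl₀]
      rw [h3, hVV₁, card_cj, card_cj, c.cardV])
    (by
      rw [hcentU]
      exact ((c.cj' l₀).card_le_q' (hBS' l₀ hl₀)).1)
  rw [hcentU] at j1
  have hBQ : B ⊔ cj l₀ Q = cj l₀ S := ((c.cj' l₀).card_le_q' (hBS' l₀ hl₀)).2 (le_of_eq j1.symm)
  apply hback l₀ hl₀
  rw [cj_comm, Subgroup.commutator_le]
  intro u hu s hs
  rw [← hBQ] at hs
  obtain ⟨b, hb, t, ht, rfl⟩ := mem_sup_of_norm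
    (fun k hk => (c.cj' l₀).Qn k ((c.cj' l₀).SL (hBS' l₀ hl₀ hk))) hs
  have e1 : ⁅u, b * t⁆ = ⁅u, b⁆ := by
    rw [commutatorElement_def, commutatorElement_def]
    have h3 : t * u⁻¹ = u⁻¹ * t := ((c.cj' l₀).VQc _ (inv_mem hu) t ht).symm
    calc u * (b * t) * u⁻¹ * (b * t)⁻¹ = u * b * (t * u⁻¹) * t⁻¹ * b⁻¹ := by group
      _ = u * b * u⁻¹ * b⁻¹ := by rw [h3]; group
  rw [e1]
  obtain ⟨u', hu', e, he, hx⟩ := j2 u hu
  rw [hUa] at hu'
  have hbx : (u * u' * e) * b = b * (u * u' * e) :=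
    (c₁.large hA hAQ₁).2.2.comm _ hx b (mem_sup_left hb)
  have heb : e * b = b * e := c₁.VQc e he b hb.2
  -- d' = [u',b]
  have hd' : u' * b * u'⁻¹ * b⁻¹ ∈ cj (a * l₀) (cen S) := by
    have h3 := (c.cj' (a * l₀)).quad u' hu' b⁻¹ (inv_mem (hBS' _ hal₀ hb))
    have h4 := (c.cj' (a * l₀)).quad u' hu' b (hBS' _ hal₀ hb)
    have h5 : u' * b * u'⁻¹ * b⁻¹ = (cm u' b)⁻¹ := by unfold cm; group
    rw [h5, cj_cen]
    exact inv_mem h4
  have hd : u * b * u⁻¹ * b⁻¹ ∈ cj l₀ (cen S) := by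
    have h4 := (c.cj' l₀).quad u hu b (hBS' _ hl₀ hb)
    have h5 : u * b * u⁻¹ * b⁻¹ = (cm u b)⁻¹ := by unfold cm; group
    rw [h5, cj_cen]
    exact inv_mem h4
  have h6 : u * b * u⁻¹ * b⁻¹ = (u' * b * u'⁻¹ * b⁻¹)⁻¹ := by
    set d := u' * b * u'⁻¹ * b⁻¹ with hdd
    have h7 : u * d = d * u := by
      have := hUX u hu d (c₁.cjZV hal₀ hd')
      exact this
    have h8 : u' * b = d * b * u' := by rw [hdd]; group
    have h9 : u * u' * b = b * u * u' := by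
      have h10 : (u * u' * b) * e = (b * u * u') * e := by
        calc (u * u' * b) * e = (u * u') * (b * e) := by group
          _ = (u * u') * (e * b) := by rw [heb]
          _ = (u * u' * e) * b := by group
          _ = b * (u * u' * e) := hbx
          _ = (b * u * u') * e := by group
      exact mul_right_cancel h10
    have h11 : d * (u * b) * u' = (b * u) * u' := by
      calc d * (u * b) * u' = (d * u) * b * u' := by group
        _ = (u * d) * b * u' := by rw [h7]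
        _ = u * (d * b * u') := by group
        _ = u * (u' * b) := by rw [h8]
        _ = u * u' * b := by group
        _ = (b * u) * u' := h9
    have h12 : d * (u * b) = b * u := mul_right_cancel h11
    calc u * b * u⁻¹ * b⁻¹ = d⁻¹ * (d * (u * b)) * u⁻¹ * b⁻¹ := by group
      _ = d⁻¹ * (b * u) * u⁻¹ * b⁻¹ := by rw [h12]
      _ = d⁻¹ := by group
  rw [commutatorElement_def]
  apply c₁.two hl₀ hal₀ m1 hd
  rw [h6]
  exact inv_mem hd'

end Loc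

end Cfsg.Agent.H260.GN
end

-- part: H260/GN3
section
/-!
# Glauberman-Niles, part 3: dead ends at distance at least two (local part)
-/

set_option autoImplicit false
set_option linter.unusedSectionVars false
set_option linter.unusedVariables false
set_option linter.style.haveILetI false

namespace Cfsg.Agent.H260.GN

open Subgroup Push
open scoped commutatorElement

variable {G : Type*} [Group G]

theorem tr_cj {M A B : Subgroup G} {hB : ∀ g ∈ M, cj g B = B} {g : G} (hM : cj g M = M)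
    (hA : cj g A = A) (hBg : cj g B = B) : cj g (tr M A B hB) = tr M A B hB := by
  have key : ∀ g, cj g M = M → cj g A = A → cj g B = B → cj g (tr M A B hB) ≤ tr M A B hB := by
    intro g hM hA hBg x hx
    rw [mem_cj] at hx
    obtain ⟨h1, h2⟩ := hx
    refine ⟨?_, ?_⟩
    · rw [← mem_cj, hM] at h1
      exact h1
    · intro a ha
      have ha' : g⁻¹ * a * g ∈ A := by
        rw [← mem_cj, hA]
        exact ha
      have h3 := conj_mem_cj (g := g) (h2 _ ha')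
      rw [hBg] at h3
      have e : g * (g⁻¹ * x * g * (g⁻¹ * a * g) * (g⁻¹ * x * g)⁻¹ * (g⁻¹ * a * g)⁻¹) * g⁻¹ =
          x * a * x⁻¹ * a⁻¹ := by group
      rwa [e] at h3
  apply le_antisymm (key g hM hA hBg)
  rw [le_cj_iff]
  exact key _ (cj_inv_eq hM) (cj_inv_eq hA) (cj_inv_eq hBg)

/-- For `g` fixed, the `x ∈ N` with `[g,x] ∈ B` form a subgroup. -/
def cs (g : G) (N B : Subgroup G) (hB : ∀ x ∈ N, cj x B = B) : Subgroup G where
  carrier := {x | x ∈ N ∧ g * x * g⁻¹ * x⁻¹ ∈ B}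
  one_mem' := ⟨N.one_mem, by simp⟩
  mul_mem' := by
    rintro x y ⟨hx, hx'⟩ ⟨hy, hy'⟩
    refine ⟨N.mul_mem hx hy, ?_⟩
    have e : g * (x * y) * g⁻¹ * (x * y)⁻¹ = (g * x * g⁻¹ * x⁻¹) * (x * (g * y * g⁻¹ * y⁻¹) * x⁻¹) := by
      group
    rw [e]
    apply B.mul_mem hx'
    have := conj_mem_cj (g := x) hy'
    rwa [hB x hx] at this
  inv_mem' := by
    rintro x ⟨hx, hx'⟩
    refine ⟨N.inv_mem hx, ?_⟩
    have e : g * x⁻¹ * g⁻¹ * x⁻¹⁻¹ = x⁻¹ * (g * x * g⁻¹ * x⁻¹)⁻¹ * x⁻¹⁻¹ := by group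
    rw [e]
    have := conj_mem_cj (g := x⁻¹) (B.inv_mem hx')
    rwa [hB _ (N.inv_mem hx)] at this

theorem mem_cs {g : G} {N B : Subgroup G} {hB : ∀ x ∈ N, cj x B = B} {x : G} :
    x ∈ cs g N B hB ↔ x ∈ N ∧ g * x * g⁻¹ * x⁻¹ ∈ B := Iff.rfl

/-- extend `[g, A k] ≤ B` to the supremum of the `A k`. -/
theorem cs_iSup {κ : Sort*} {g : G} {N B : Subgroup G} (hB : ∀ x ∈ N, cj x B = B) {A : κ → Subgroup G}
    (hA : ∀ k, A k ≤ N) (h : ∀ k, ∀ x ∈ A k, g * x * g⁻¹ * x⁻¹ ∈ B) :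
    ∀ x ∈ ⨆ k, A k, g * x * g⁻¹ * x⁻¹ ∈ B := by
  have : (⨆ k, A k) ≤ cs g N B hB := iSup_le fun k x hx => ⟨hA k hx, h k x hx⟩
  exact fun x hx => (this hx).2

/-- `W = ⟨V^L⟩`. -/
def cl (L V : Subgroup G) : Subgroup G := ⨆ l : L, cj (l : G) V

theorem le_cl {L V : Subgroup G} {l : G} (hl : l ∈ L) : cj l V ≤ cl L V :=
  le_iSup (fun l : L => cj (l : G) V) ⟨l, hl⟩

theorem le_cl' {L V : Subgroup G} : V ≤ cl L V := by
  have := le_cl (V := V) L.one_mem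
  rwa [cj_one] at this

theorem cl_le {L V X : Subgroup G} (h : ∀ l ∈ L, cj l V ≤ X) : cl L V ≤ X :=
  iSup_le fun l => h l l.2

theorem cl_inv {L V : Subgroup G} : ∀ g ∈ L, cj g (cl L V) = cl L V := by
  have key : ∀ g ∈ L, cj g (cl L V) ≤ cl L V := by
    intro g hg
    unfold cl
    rw [cj_iSup]
    apply iSup_le
    intro l
    rw [cj_mul]
    exact le_cl (L.mul_mem hg l.2)
  intro g hg
  apply le_antisymm (key g hg)
  rw [le_cj_iff]
  exact key _ (L.inv_mem hg)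

theorem cl_cm {L V : Subgroup G} (h : ∀ l ∈ L, Cm V (cj l V)) : Cm (cl L V) (cl L V) := by
  unfold cl
  apply Cm.iSup_left
  intro l
  apply Cm.iSup_right
  intro l'
  rw [cm_cj_left, cj_mul]
  exact h _ (L.mul_mem (L.inv_mem l.2) l'.2)

namespace Loc

variable {p q : ℕ} [hp : Fact p.Prime] {S L Q V C M : Subgroup G}
variable (c : Loc p q S L Q V C M)
include c

/-- if `S` acts trivially on the `L`-section `A/B` so does `L`. -/
theorem tr_all {A B : Subgroup G} (hA : ∀ g ∈ L, cj g A = A) (hB : ∀ g ∈ L, cj g B = B)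
    (hS : ∀ s ∈ S, ∀ a ∈ A, s * a * s⁻¹ * a⁻¹ ∈ B) : ∀ g ∈ L, ∀ a ∈ A, g * a * g⁻¹ * a⁻¹ ∈ B := by
  obtain ⟨g₀, hg₀, hg₀M⟩ := c.ex
  have h1 : S ≤ tr L A B hB := fun s hs => ⟨c.SL hs, hS s hs⟩
  have h2 : cj g₀ S ≤ tr L A B hB := by
    have := cj_mono (g := g₀) h1
    rwa [tr_n hA g₀ hg₀] at this
  have h3 : L ≤ tr L A B hB := (c.gen g₀ hg₀ hg₀M).ge.trans (sup_le h1 h2)
  exact fun g hg => (h3 hg).2

/-- generation: something normalised by `S` and by `V'^g`. -/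
theorem norm_of {V' X : Subgroup G} {g : G} (hg : g ∈ L) (hgM : g ∉ M) (hS : V' ⊔ Q = S)
    (h1 : ∀ s ∈ S, cj s X = X) (h2 : ∀ b ∈ V', cj (g * b * g⁻¹) X = X) : ∀ l ∈ L, cj l X = X := by
  have h3 := c.gen g hg hgM
  rw [← h3]
  apply norm_sup h1
  rw [← hS, cj_sup, c.Qn g hg]
  apply norm_sup
  · intro k hk
    rw [mem_cj] at hk
    have := h2 _ hk
    have e : g * (g⁻¹ * k * g) * g⁻¹ = k := by group
    rwa [e] at this
  · intro k hk
    exact h1 k (c.QS hk)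

theorem SV₁ {q₁ : ℕ} {L₁ Q₁ V₁ C₁ M₁ : Subgroup G} (c₁ : Loc p q₁ S L₁ Q₁ V₁ C₁ M₁) :
    ∀ s ∈ S, cj s (V ⊔ V₁) = V ⊔ V₁ :=
  fun s hs => cj_sup_eq (c.Vn s (c.SL hs)) (c₁.Vn s (c₁.SL hs))

/-- `V V₁` is `L`-invariant at a dead end. -/
theorem dead_X {q₁ q' : ℕ} {L₁ Q₁ V₁ C₁ M₁ S' L' Q' V' C' M' : Subgroup G}
    (c₁ : Loc p q₁ S L₁ Q₁ V₁ C₁ M₁) (c' : Loc p q' S' L' Q' V' C' M') (h1 : V ≤ S') (h2 : V' ≤ S)
    (hnc : ¬ Cm V V') {E : Subgroup G} (hE : ∀ g ∈ L, cj g E = E) (hV₁E : V₁ ≤ E) (hES' : E ≤ S') :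
    ∀ g ∈ L, cj g (V ⊔ V₁) = V ⊔ V₁ := by
  haveI := c.finS
  haveI : Finite (V ⊔ V₁ : Subgroup G) := fin_le (sup_le c.VS c₁.VS)
  obtain ⟨g₀, hg₀, hg₀M⟩ := c.ex
  apply c.norm_of hg₀ hg₀M (c.crit_S c' h1 h2 hnc) (c.SV₁ c₁)
  intro b hb
  have hbL : g₀ * b * g₀⁻¹ ∈ L := L.mul_mem (L.mul_mem hg₀ (c.SL (h2 hb))) (L.inv_mem hg₀)
  apply cj_eq_of_le
  rw [cj_sup, c.Vn _ hbL]
  apply sup_le le_sup_left
  intro x hx
  rw [mem_cj] at hx
  set k := g₀ * b * g₀⁻¹ with hk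
  set v := k⁻¹ * x * k with hv
  have hxv : x = (k * v * k⁻¹ * v⁻¹) * v := by rw [hv]; group
  rw [hxv]
  apply mul_mem _ (mem_sup_right hx)
  apply mem_sup_left
  have e1 : k * v * k⁻¹ * v⁻¹ = g₀ * (b * (g₀⁻¹ * v * g₀) * b⁻¹ * (g₀⁻¹ * v * g₀)⁻¹) * g₀⁻¹ := by
    rw [hk]; group
  rw [e1]
  apply c.cjV_mem hg₀
  apply c.ZV
  apply c.VS_le
  rw [← c.crit_R c' h1 h2 hnc]
  have h3 : g₀⁻¹ * v * g₀ ∈ S' := by
    apply hES'
    rw [← mem_cj, hE g₀ hg₀]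
    exact hV₁E hx
  have : b * (g₀⁻¹ * v * g₀) * b⁻¹ * (g₀⁻¹ * v * g₀)⁻¹ = ⁅b, g₀⁻¹ * v * g₀⁆ := by
    rw [commutatorElement_def]
  rw [this]
  exact commutator_mem_commutator hb h3

/-- `Q ∩ Q₁ = C_Q(V V₁)`. -/
theorem D_eq {q₁ : ℕ} {L₁ Q₁ V₁ C₁ M₁ : Subgroup G} (c₁ : Loc p q₁ S L₁ Q₁ V₁ C₁ M₁) :
    Q ⊓ Q₁ = Q ⊓ centralizer ((V ⊔ V₁ : Subgroup G) : Set G) := by
  apply le_antisymm
  · apply le_inf inf_le_left
    rw [← cm_iff_le]
    exact (Cm.sup_left (c.VQc.mono le_rfl inf_le_left) (c₁.VQc.mono le_rfl inf_le_right)).symm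
  · apply le_inf inf_le_left
    rintro x ⟨hx, hx1⟩
    apply c₁.mem_Q (c.QS hx)
    intro y hy
    exact mem_centralizer_iff.mp hx1 y (mem_sup_right hy)

theorem D_inv {q₁ : ℕ} {L₁ Q₁ V₁ C₁ M₁ : Subgroup G} (c₁ : Loc p q₁ S L₁ Q₁ V₁ C₁ M₁)
    (hX : ∀ g ∈ L, cj g (V ⊔ V₁) = V ⊔ V₁) : ∀ g ∈ L, cj g (Q ⊓ Q₁) = Q ⊓ Q₁ := by
  intro g hg
  rw [c.D_eq c₁, cj_inf, c.Qn g hg, cj_centralizer, hX g hg]

/-- `L₁` does not normalise `V V₁`. -/
theorem notInv {q₁ : ℕ} {L₁ Q₁ V₁ C₁ M₁ V' : Subgroup G}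
    (c₁ : Loc p q₁ S L₁ Q₁ V₁ C₁ M₁) (h1' : Cm V₁ V') {l₁ : G} (hl₁ : l₁ ∈ L₁)
    (hl : Cm (cj l₁ V) V') (hnc : ¬ Cm V V') : ¬ ∀ g ∈ L₁, cj g (V ⊔ V₁) = V ⊔ V₁ := by
  intro h
  apply hnc
  have h1 := h l₁ hl₁
  rw [cj_sup, c₁.Vn l₁ hl₁] at h1
  have h2 : Cm (cj l₁ V ⊔ V₁) V' := hl.sup_left h1'
  rw [h1] at h2
  exact h2.mono le_sup_left le_rfl

/-- the large abelian subgroup `A'` with `V₁ ≤ A' ≤ Q₁`, `A' ≰ Q`. -/
theorem exists_A' {q₁ : ℕ} {L₁ Q₁ V₁ C₁ M₁ : Subgroup G} (c₁ : Loc p q₁ S L₁ Q₁ V₁ C₁ M₁)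
    (h01 : Cm V V₁) (hW : ∀ l ∈ L₁, Cm V (cj l V)) (hni : ¬ ∀ g ∈ L₁, cj g (V ⊔ V₁) = V ⊔ V₁) :
    ∃ A', LargeAb S A' ∧ V₁ ≤ A' ∧ A' ≤ Q₁ ∧ ¬ A' ≤ Q := by
  by_contra hcon
  push Not at hcon
  apply hni
  haveI := c.finS
  obtain ⟨A, hA, hAQ₁⟩ := c₁.big
  obtain ⟨hAS, hAV, hA'⟩ := c₁.large hA hAQ₁
  set A' := (A ⊓ Q₁) ⊔ V₁ with hA'd
  haveI : Finite A' := fin_le hA'.le
  have hA'Q₁ : A' ≤ Q₁ := sup_le inf_le_right c₁.VQ
  have hVQ₁ : V ≤ Q₁ := c₁.le_Q c.VS h01.symm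
  have hcomm : ∀ l ∈ L₁, Cm A' (cj l V) := by
    intro l hl
    rw [cm_cj_right]
    have hl' := L₁.inv_mem hl
    have h1 : cj l⁻¹ A' ≤ Q₁ := by
      have := cj_mono (g := l⁻¹) hA'Q₁
      rwa [c₁.Qn _ hl'] at this
    have h2 : LargeAb S (cj l⁻¹ A') := by
      apply LargeAb.of_card hA' (h1.trans c₁.QS)
      · have : Cm A' A' := hA'.comm
        exact this.cj l⁻¹
      · rw [card_cj]
    have h3 : V₁ ≤ cj l⁻¹ A' := by
      have := cj_mono (g := l⁻¹) (le_sup_right : V₁ ≤ A')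
      rwa [c₁.Vn _ hl'] at this
    exact (c.VQc.mono le_rfl (hcon _ h2 h3 h1)).symm
  set W := cl L₁ V with hWd
  have hWQ₁ : W ≤ Q₁ := by
    apply cl_le
    intro l hl
    have := cj_mono (g := l) hVQ₁
    rwa [c₁.Qn l hl] at this
  have hWc : Cm W W := cl_cm hW
  have hA'W : Cm A' W := by
    unfold W cl
    exact Cm.iSup_right fun l => hcomm l l.2
  have hWA' : W ≤ A' := LargeAb.le_of_comm' hA' (hWQ₁.trans c₁.QS) hWc hA'W
  have hV₁n : ∀ x ∈ W, cj x V₁ = V₁ := fun x hx => c₁.Vn x (c₁.QL (hWQ₁ hx))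
  have hS : ∀ s ∈ S, ∀ a ∈ W, s * a * s⁻¹ * a⁻¹ ∈ V₁ := by
    have hsub : S ≤ tr L₁ W V₁ c₁.Vn := by
      apply hAS.ge.trans
      apply sup_le
      · intro a ha
        refine ⟨c₁.SL (hA.le ha), ?_⟩
        intro w hw
        obtain ⟨b, hb, v, hv, rfl⟩ := Cm.mem_sup (c₁.VQc.symm.mono inf_le_right le_rfl) (hWA' hw)
        have e : a * (b * v) * a⁻¹ * (b * v)⁻¹ = b * (a * v * a⁻¹ * v⁻¹) * b⁻¹ := by
          have h1 : a * b = b * a := hA.comm a ha b hb.1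
          calc a * (b * v) * a⁻¹ * (b * v)⁻¹ = (a * b) * v * a⁻¹ * v⁻¹ * b⁻¹ := by group
            _ = (b * a) * v * a⁻¹ * v⁻¹ * b⁻¹ := by rw [h1]
            _ = _ := by group
        rw [e]
        have hbL : b ∈ L₁ := c₁.QL hb.2
        exact c₁.cjV_mem hbL (c₁.cm_mem_V (c₁.SL (hA.le ha)) hv)
      · intro x hx
        refine ⟨c₁.QL hx, ?_⟩
        apply cs_iSup (N := W) hV₁n (fun l => le_cl l.2)
        intro l y hy
        -- y = l v l⁻¹
        rw [mem_cj] at hy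
        have hl := l.2
        have hx' : (l : G)⁻¹ * x * l ∈ Q₁ := by
          rw [← mem_cj, c₁.Qn _ hl]
          exact hx
        have h1 := c.quad _ hy _ (c₁.QS hx')
        have e : x * y * x⁻¹ * y⁻¹ = l * (cm ((l : G)⁻¹ * y * l) ((l : G)⁻¹ * x * l)) * (l : G)⁻¹ := by
          unfold cm; group
        rw [e]
        exact c₁.cjV_mem hl (c₁.ZV h1)
    exact fun s hs => (hsub hs).2
  have hall := c₁.tr_all cl_inv c₁.Vn hS
  intro g hg
  haveI : Finite (V ⊔ V₁ : Subgroup G) := fin_le (sup_le c.VS c₁.VS)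
  apply cj_eq_of_le
  rw [cj_sup, c₁.Vn g hg]
  apply sup_le _ le_sup_right
  intro x hx
  rw [mem_cj] at hx
  have h1 := hall g hg _ (le_cl' hx)
  have e : x = (g * (g⁻¹ * x * g) * g⁻¹ * (g⁻¹ * x * g)⁻¹) * (g⁻¹ * x * g) := by group
  rw [e]
  exact mul_mem (mem_sup_right h1) (mem_sup_left hx)

/-- **Dead ends at distance at least two** (local part). -/
theorem dead2 {q₁ q' : ℕ} {L₁ Q₁ V₁ C₁ M₁ S' L' Q' V' C' M' : Subgroup G}
    (c₁ : Loc p q₁ S L₁ Q₁ V₁ C₁ M₁) (c' : Loc p q' S' L' Q' V' C' M') (h2 : V' ≤ S)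
    (hnc : ¬ Cm V V') (h01 : Cm V V₁) (h1' : Cm V₁ V') (hW : ∀ l ∈ L₁, Cm V (cj l V))
    (hR₁ : ⁅V, S⁆ ≤ C₁) (hX : ∀ g ∈ L, cj g (V ⊔ V₁) = V ⊔ V₁)
    (h5 : ∀ g ∈ L, ∀ l ∈ L₁, cj (g * l) V ≤ S') {l₁ : G} (hl₁ : l₁ ∈ L₁) (hl : Cm (cj l₁ V) V') :
    False := by
  haveI := c.finS
  have h1 : V ≤ S' := by
    have := h5 1 L.one_mem 1 L₁.one_mem
    rwa [mul_one, cj_one] at this
  have hR := c.crit_R c' h1 h2 hnc
  have hS' : V ⊔ Q' = S' := (c.crit c' h1 h2 hnc).2.2.1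
  have hS := c.crit_S c' h1 h2 hnc
  have hVQ₁ : V ≤ Q₁ := c₁.le_Q c.VS h01.symm
  have hV'Q₁ : V' ≤ Q₁ := c₁.le_Q h2 h1'
  set R := ⁅V, S⁆ with hRd
  set W := cl L₁ V with hWd
  have hRZ : R ≤ cen S := c.VS_le
  have hWQ₁ : W ≤ Q₁ := by
    apply cl_le
    intro l hl
    have := cj_mono (g := l) hVQ₁
    rwa [c₁.Qn l hl] at this
  have hWS : W ≤ S := hWQ₁.trans c₁.QS
  have hWc : Cm W W := cl_cm hW
  have hVW : V ≤ W := le_cl'
  have hcen : ∀ z ∈ cen S, ∀ s ∈ S, s * z = z * s := fun z hz s hs => cen_comm hz hs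
  have hcjR : ∀ x ∈ S, cj x R = R := by
    intro x hx
    apply cj_of_cm
    intro y hy
    exact hcen y (hRZ hy) x hx
  -- [Q₁, W] ≤ R
  have hQW : ∀ x ∈ Q₁, ∀ w ∈ W, x * w * x⁻¹ * w⁻¹ ∈ R := by
    intro x hx
    apply cs_iSup (N := W) (fun y hy => hcjR y (hWS hy)) (fun l => le_cl l.2)
    intro l y hy
    rw [mem_cj] at hy
    have hl := l.2
    have hx' : (l : G)⁻¹ * x * l ∈ Q₁ := by
      rw [← mem_cj, c₁.Qn _ hl]
      exact hx
    have h1 : cm ((l : G)⁻¹ * y * l) ((l : G)⁻¹ * x * l) ∈ R := c.cm_mem_R hy (c₁.QS hx')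
    have e : x * y * x⁻¹ * y⁻¹ = l * (cm ((l : G)⁻¹ * y * l) ((l : G)⁻¹ * x * l)) * (l : G)⁻¹ := by
      unfold cm; group
    rw [e]
    have := conj_mem_cj (g := (l : G)) h1
    rwa [c₁.cj_le_C hl hR₁] at this
  -- W^g ≤ S'
  have hWg : ∀ g ∈ L, cj g W ≤ S' := by
    intro g hg
    rw [cj_le_iff]
    apply cl_le
    intro l hl
    rw [← cj_le_iff, cj_mul]
    exact h5 g hg l hl
  have hWS' : W ≤ S' := by
    have := hWg 1 L.one_mem
    rwa [cj_one] at this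
  -- [V'^g, W] ≤ V
  have hVW' : ∀ g ∈ L, ∀ b ∈ V', ∀ w ∈ W,
      (g * b * g⁻¹) * w * (g * b * g⁻¹)⁻¹ * w⁻¹ ∈ V := by
    intro g hg b hb w hw
    have e1 : (g * b * g⁻¹) * w * (g * b * g⁻¹)⁻¹ * w⁻¹ =
        g * ⁅b, g⁻¹ * w * g⁆ * g⁻¹ := by
      rw [commutatorElement_def]; group
    rw [e1]
    apply c.cjV_mem hg
    apply c.ZV
    apply hRZ
    rw [← hR]
    apply commutator_mem_commutator hb
    apply hWg _ (L.inv_mem hg)
    rw [mem_cj, inv_inv]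
    have e : g * (g⁻¹ * w * g) * g⁻¹ = w := by group
    rwa [e]
  set D := Q ⊓ Q₁ with hD
  have hDn : ∀ g ∈ L, cj g D = D := c.D_inv c₁ hX
  -- Y = [D, W] ≤ C
  have hYC : ∀ d ∈ D, ∀ w ∈ W, d * w * d⁻¹ * w⁻¹ ∈ C := by
    set Y := ⁅D, W⁆ with hY
    have hYR : Y ≤ R := by
      rw [hY, Subgroup.commutator_le]
      intro d hd w hw
      rw [commutatorElement_def]
      exact hQW d hd.2 w hw
    haveI : Finite Y := fin_le (hYR.trans (hRZ.trans c.ZS))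
    have hYS : ∀ s ∈ S, cj s Y = Y := by
      intro s hs
      apply cj_of_cm
      intro y hy
      exact hcen y (hRZ (hYR hy)) s hs
    obtain ⟨g₀, hg₀, hg₀M⟩ := c.ex
    have hYn : ∀ g ∈ L, cj g Y = Y := by
      apply c.norm_of hg₀ hg₀M hS hYS
      intro b hb
      set k := g₀ * b * g₀⁻¹ with hk
      have hkL : k ∈ L := L.mul_mem (L.mul_mem hg₀ (c.SL (h2 hb))) (L.inv_mem hg₀)
      apply cj_eq_of_le
      rw [cj_le_iff, hY, Subgroup.commutator_le]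
      intro d hd w hw
      rw [mem_cj, inv_inv]
      have e1 : k * ⁅d, w⁆ * k⁻¹ = ⁅k * d * k⁻¹, (k * w * k⁻¹ * w⁻¹) * w⁆ := by
        rw [commutatorElement_def, commutatorElement_def]; group
      rw [e1]
      have hd' : k * d * k⁻¹ ∈ D := by
        have := conj_mem_cj (g := k) hd
        rwa [hDn k hkL] at this
      have he := hVW' g₀ hg₀ b hb w hw
      set d' := k * d * k⁻¹ with hd'd
      set e := k * w * k⁻¹ * w⁻¹ with hed
      have h3 : d' * e = e * d' := (c.VQc e he d' hd'.1).symm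
      have h4 : ⁅d', w⁆ ∈ Y := commutator_mem_commutator hd' hw
      have h5 : e * ⁅d', w⁆ = ⁅d', w⁆ * e := hcen _ (hRZ (hYR h4)) e (c.VS he)
      have e2 : ⁅d', e * w⁆ = ⁅d', w⁆ := by
        calc ⁅d', e * w⁆ = (d' * e) * w * d'⁻¹ * w⁻¹ * e⁻¹ := by rw [commutatorElement_def]; group
          _ = (e * d') * w * d'⁻¹ * w⁻¹ * e⁻¹ := by rw [h3]
          _ = (e * ⁅d', w⁆) * e⁻¹ := by rw [commutatorElement_def]; group
          _ = ⁅d', w⁆ := by rw [h5]; group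
      rw [e2]
      exact h4
    have hYC : Y ≤ C := c.le_C (hYR.trans hRZ) hYn
    intro d hd w hw
    have := hYC (commutator_mem_commutator hd hw)
    rwa [commutatorElement_def] at this
  -- T*
  have hB : ∀ g ∈ W, cj g (R ⊓ C) = R ⊓ C := by
    intro g hg
    apply cj_of_cm
    intro y hy
    exact hcen y (hRZ hy.1) g (hWS hg)
  set T := tr W Q₁ (R ⊓ C) hB with hT
  have hTn : ∀ g ∈ L₁, cj g T = T := by
    intro g hg
    exact tr_cj (cl_inv g hg) (c₁.Qn g hg) (c₁.cj_le_C hg (inf_le_left.trans hR₁))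
  have hZT : cen S ≤ T := by
    intro z hz
    refine ⟨hVW (c.ZV hz), fun y hy => ?_⟩
    have h3 : y * z = z * y := hcen z hz y (c₁.QS hy)
    rw [← h3]
    have : y * z * z⁻¹ * y⁻¹ = 1 := by group
    rw [this]
    exact one_mem _
  have hdecomp : ∀ u ∈ W, ∃ v ∈ V, ∃ t ∈ T, v * t = u := by
    intro u hu
    have hu' := hWS' hu
    rw [← hS'] at hu'
    obtain ⟨v, hv, t, ht, rfl⟩ := mem_sup_of_norm (fun k hk => c'.Qn k (c'.SL (h1 hk))) hu'
    have htW : t ∈ W := by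
      have e : t = v⁻¹ * (v * t) := by group
      rw [e]
      exact W.mul_mem (W.inv_mem (hVW hv)) hu
    refine ⟨v, hv, t, ⟨htW, ?_⟩, rfl⟩
    intro y hy
    have hyS := c₁.QS hy
    -- y = b t'
    have hy2 := hyS
    rw [← hS] at hy2
    obtain ⟨b, hb, d, hd, rfl⟩ := mem_sup_of_norm (fun k hk => c.Qn k (c.SL (h2 hk))) hy2
    have hdQ₁ : d ∈ Q₁ := by
      have e : d = b⁻¹ * (b * d) := by group
      rw [e]
      exact Q₁.mul_mem (Q₁.inv_mem (hV'Q₁ hb)) hy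
    have hdD : d ∈ D := ⟨hd, hdQ₁⟩
    -- [d, t] = [d, v t]
    have h3 : d * t * d⁻¹ * t⁻¹ ∈ C := hYC d hdD t htW
    have h3R : d * t * d⁻¹ * t⁻¹ ∈ R := hQW d hdQ₁ t htW
    have hbt : b * t = t * b := c'.VQc b hb t ht
    set z := d * t * d⁻¹ * t⁻¹ with hz
    have hbz : b * z = z * b := hcen z (hRZ h3R) b (h2 hb)
    have e1 : t * (b * d) * t⁻¹ * (b * d)⁻¹ = z⁻¹ := by
      have h4 : d * t = z * t * d := by rw [hz]; group
      calc t * (b * d) * t⁻¹ * (b * d)⁻¹ = (t * b) * d * t⁻¹ * d⁻¹ * b⁻¹ := by group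
        _ = (b * t) * d * t⁻¹ * d⁻¹ * b⁻¹ := by rw [hbt]
        _ = b * z⁻¹ * b⁻¹ := by rw [hz]; group
        _ = (z * b)⁻¹⁻¹ * z⁻¹ * z⁻¹ * b⁻¹ := by rw [inv_inv, ← hbz]; group
        _ = z * (b * z⁻¹ * z⁻¹ * b⁻¹) := by group
        _ = z * ((z * (z * b))⁻¹⁻¹ * z⁻¹ * z⁻¹ * z⁻¹ * z⁻¹ * b⁻¹) := by
            rw [inv_inv, ← hbz, ← mul_assoc z b z, ← hbz]; group
        _ = z⁻¹ := by
            have h5 : b * z⁻¹ = z⁻¹ * b := by
              rw [eq_inv_mul_iff_mul_eq, ← mul_assoc, ← hbz]; group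
            rw [inv_inv]
            calc z * (z * (z * b) * z⁻¹ * z⁻¹ * z⁻¹ * z⁻¹ * b⁻¹) =
                z * z * z * (b * z⁻¹) * z⁻¹ * z⁻¹ * z⁻¹ * b⁻¹ := by group
              _ = z * z * z * (z⁻¹ * b) * z⁻¹ * z⁻¹ * z⁻¹ * b⁻¹ := by rw [h5]
              _ = z * z * (b * z⁻¹) * z⁻¹ * z⁻¹ * b⁻¹ := by group
              _ = z * z * (z⁻¹ * b) * z⁻¹ * z⁻¹ * b⁻¹ := by rw [h5]
              _ = z * (b * z⁻¹) * z⁻¹ * b⁻¹ := by group
              _ = z * (z⁻¹ * b) * z⁻¹ * b⁻¹ := by rw [h5]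
              _ = (b * z⁻¹) * b⁻¹ := by group
              _ = (z⁻¹ * b) * b⁻¹ := by rw [h5]
              _ = z⁻¹ := by group
    rw [e1]
    exact inv_mem ⟨h3R, h3⟩
  -- S acts trivially on W / T
  have hSW : ∀ s ∈ S, ∀ w ∈ W, s * w * s⁻¹ * w⁻¹ ∈ T := by
    intro s hs w hw
    obtain ⟨v, hv, t, ht, rfl⟩ := hdecomp w hw
    have e : s * (v * t) * s⁻¹ * (v * t)⁻¹ = (cm v s) * (v * (s * t * s⁻¹ * t⁻¹) * v⁻¹) := by
      unfold cm; group
    rw [e]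
    have hsL := c₁.SL hs
    have h3 : s * t * s⁻¹ ∈ T := by
      have := conj_mem_cj (g := s) ht
      rwa [hTn s hsL] at this
    have h4 : v * (s * t * s⁻¹ * t⁻¹) * v⁻¹ ∈ T := by
      have := conj_mem_cj (g := v) (T.mul_mem h3 (T.inv_mem ht))
      rwa [hTn v (c₁.QL (hVQ₁ hv))] at this
    exact T.mul_mem (hZT (c.quad v hv s hs)) h4
  have hall := c₁.tr_all cl_inv hTn hSW
  -- conclusion
  obtain ⟨v, hv, hvZ⟩ := c.ZneV
  apply hvZ
  have hV'Q : ¬ V' ≤ Q := fun h => hnc (c.VQc.mono le_rfl h)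
  obtain ⟨b, hb, hbQ⟩ := SetLike.not_le_iff_exists.mp hV'Q
  apply c.cmc b (h2 hb) hbQ v hv
  have hx := hall l₁ hl₁ v (hVW hv)
  set x := l₁ * v * l₁⁻¹ * v⁻¹ with hxd
  have h3 := hx.2 b (hV'Q₁ hb)
  have h4 : (x * v) * b = b * (x * v) := by
    have e : x * v = l₁ * v * l₁⁻¹ := by rw [hxd]; group
    rw [e]
    exact hl _ (conj_mem_cj hv) b hb
  set z := x * b * x⁻¹ * b⁻¹ with hz
  have h5 : cm v b = z := by
    have h6 : x * cm v b = cm v b * x := hcen _ (c.quad v hv b (h2 hb)) x (hWS hx.1)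
    have e : z = x * (cm v b) * x⁻¹ := by
      have h7 : b * x = x * (v * b * v⁻¹ * b⁻¹) * b * x⁻¹ * x := by
        calc b * x = b * (x * v) * v⁻¹ := by group
          _ = (x * v) * b * v⁻¹ := by rw [← h4]
          _ = _ := by group
      have h8 : x⁻¹ * b⁻¹ = (b * x)⁻¹ := by group
      calc z = x * b * (x⁻¹ * b⁻¹) := by rw [hz]; group
        _ = x * b * (x * (v * b * v⁻¹ * b⁻¹) * b * x⁻¹ * x)⁻¹ := by rw [h8, h7]
        _ = x * (cm v b) * x⁻¹ := by unfold cm; group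
    rw [e, h6]
    group
  rw [h5]
  exact h3.2

/-- **Step A**: everything of the form `V^{gl}` commutes with `V_ρ`. -/
theorem stepA {q₁ qr : ℕ} {L₁ Q₁ V₁ C₁ M₁ Sr Lr Qr Vr Cr Mr : Subgroup G}
    (c₁ : Loc p q₁ S L₁ Q₁ V₁ C₁ M₁) (cr : Loc p qr Sr Lr Qr Vr Cr Mr)
    (h01 : Cm V V₁) (hW : ∀ l ∈ L₁, Cm V (cj l V))
    (hR₁ : ⁅V, S⁆ ≤ C₁) (hX : ∀ g ∈ L, cj g (V ⊔ V₁) = V ⊔ V₁)
    (hni : ¬ ∀ g ∈ L₁, cj g (V ⊔ V₁) = V ⊔ V₁) (hXr : Cm (V ⊔ V₁) Vr)
    (hY : ∀ g ∈ L, ∀ l ∈ L₁, cj (g * l) V ≤ Sr) (hr : ∀ g ∈ L, ∀ l ∈ L₁, Vr ≤ cj (g * l) S)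
    (hRr : ∀ g ∈ L, ∀ l ∈ L₁, ¬ Cm (cj (g * l) V) Vr → cj g ⁅V, S⁆ = ⁅V, S⁆) :
    ∀ g ∈ L, ∀ l ∈ L₁, Cm (cj (g * l) V) Vr := by
  intro g hg l hl
  by_contra hnc
  haveI := c.finS
  obtain ⟨A, hA, hV₁A, hAQ₁, hAQ⟩ := c.exists_A' c₁ h01 hW hni
  obtain ⟨hAS, hAV, hA'⟩ := c.large hA hAQ
  obtain ⟨a, ha, haQ⟩ := SetLike.not_le_iff_exists.mp hAQ
  obtain ⟨h, hh, hhM⟩ := c.ex
  have haS := hA.le ha
  have haL := c.SL haS
  have hah : a * h ∈ L := L.mul_mem haL hh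
  have m1 : h⁻¹ * (a * h) ∉ M := by
    have := c.ti h hh hhM a haS haQ
    rwa [mul_assoc] at this
  set R := ⁅V, S⁆ with hR
  have hcjgR := hRr g hg l hl hnc
  set D := Q ⊓ Q₁ with hD
  have hDn : ∀ g ∈ L, cj g D = D := c.D_inv c₁ hX
  set B := A ⊓ Q with hB
  have hBD : B ≤ D := le_inf inf_le_right (inf_le_left.trans hAQ₁)
  have hV₁Q : V₁ ≤ Q := c.le_Q c₁.VS h01
  have hV₁B : V₁ ≤ B := le_inf hV₁A hV₁Q
  have hBX : B ⊔ (V ⊔ V₁) = B ⊔ V := by
    apply le_antisymm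
    · exact sup_le le_sup_left (sup_le le_sup_right (hV₁B.trans le_sup_left))
    · exact sup_le_sup_left le_sup_left _
  -- W ≤ D
  have hVlD : ∀ l ∈ L₁, cj l V ≤ D := by
    intro l hl
    have hVQ₁ : V ≤ Q₁ := c₁.le_Q c.VS h01.symm
    have h1 : cj l V ≤ Q₁ := by
      have := cj_mono (g := l) hVQ₁
      rwa [c₁.Qn l hl] at this
    exact le_inf (c.le_Q (h1.trans c₁.QS) (hW l hl)) h1
  have hVglD : ∀ g ∈ L, ∀ l ∈ L₁, cj (g * l) V ≤ D := by
    intro g hg l hl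
    have := cj_mono (g := g) (hVlD l hl)
    rwa [cj_mul, hDn g hg] at this
  have hDS : ∀ g ∈ L, ∀ l ∈ L₁, D ≤ cj (g * l) S := by
    intro g hg l hl
    have h1 : D ≤ cj l S := inf_le_right.trans (c₁.Q_le_cjS hl)
    have := cj_mono (g := g) h1
    rwa [cj_mul, hDn g hg] at this
  have hcjR : ∀ g ∈ L, ∀ l ∈ L₁, cj (g * l) R = cj g R := by
    intro g hg l hl
    rw [← cj_mul, c₁.cj_le_C hl hR₁]
  have hRZ : R ≤ cen S := c.VS_le
  have hZle : ∀ g ∈ L, ∀ l ∈ L₁, cj (g * l) (cen S) ≤ V ⊔ V₁ := by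
    intro g hg l hl
    have h1 : cj l (cen S) ≤ V ⊔ V₁ := (c₁.cjZV hl).trans le_sup_right
    have := cj_mono (g := g) h1
    rwa [cj_mul, hX g hg] at this
  -- contradiction with `R ≤ C`
  have hend : ¬ cj h R ≤ cj (a * h) (cen S) := by
    intro h1
    apply c.R_not_le_C
    have h2 : cj h R ≤ C := by
      intro x hx
      exact c.two hh hah m1 (cj_mono hRZ hx) (h1 hx)
    have := cj_mono (g := h⁻¹) h2
    rwa [cj_inv_cj, c.Cn _ (L.inv_mem hh)] at this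
  have e1 : h * (g * l) = (h * g) * l := by group
  have e2 : a * h * (g * l) = (a * h * g) * l := by group
  have hhg : h * g ∈ L := L.mul_mem hh hg
  have hahg : a * h * g ∈ L := L.mul_mem hah hg
  have r1 : cj ((h * g) * l) R = cj h R := by
    rw [hcjR _ hhg l hl, ← cj_mul, hcjgR]
  have r2 : cj ((a * h * g) * l) R = cj (a * h) R := by
    rw [hcjR _ hahg l hl, ← cj_mul, hcjgR]
  set U := cj ((h * g) * l) V with hU
  have hUa : cj a U = cj ((a * h * g) * l) V := by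
    rw [hU, cj_mul]
    congr 1
    group
  have hUD : U ≤ D := hVglD _ hhg l hl
  have hUaD : cj a U ≤ D := by rw [hUa]; exact hVglD _ hahg l hl
  have hDSS : D ≤ S := inf_le_left.trans c.QS
  by_cases hUU : Cm U (cj a U)
  swap
  · rw [hUa] at hUU
    have h3 := (c.cj' ((h * g) * l)).crit_R (c.cj' ((a * h * g) * l))
      (hUD.trans (hDS _ hahg l hl)) ((hVglD _ hahg l hl).trans (hDS _ hhg l hl)) hUU
    rw [c.cj_comm', c.cj_comm'] at h3
    rw [r1, r2] at h3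
    apply hend
    rw [← h3]
    exact cj_mono hRZ
  -- commutation of W1, W2
  have hgen : ∀ k ∈ L, k ∉ M → Cm (cj ((k * g) * l) V) Vr := by
    intro k hk hkM
    by_contra hnc2
    have h3 := hRr _ (L.mul_mem hk hg) l hl hnc2
    rw [← cj_mul, hcjgR] at h3
    exact c.R_not_le hk hkM (by rw [h3]; exact hRZ)
  have m2 : (a * h)⁻¹ * h ∉ M := by
    intro h'
    apply m1
    have := M.inv_mem h'
    have e : ((a * h)⁻¹ * h)⁻¹ = h⁻¹ * (a * h) := by group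
    rwa [e] at this
  have hmemZ : ∀ k : G, ∀ u ∈ cj (k * (g * l)) V, (∀ w ∈ cj k Vr, w * u = u * w) →
      u ∈ cj (k * (g * l)) (cen S) := by
    intro k u hu hw
    rw [← cj_mul] at hu ⊢
    rw [mem_cj] at hu ⊢
    rw [cj_cen]
    apply (c.cj' (g * l)).crit_mem cr (hY g hg l hl) (hr g hg l hl) hnc hu
    intro y hy
    have h4 := hw _ (conj_mem_cj (g := k) hy)
    calc y * (k⁻¹ * u * k) = k⁻¹ * (k * y * k⁻¹ * u) * k := by group
      _ = k⁻¹ * (u * (k * y * k⁻¹)) * k := by rw [h4]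
      _ = _ := by group
  have hXrk : ∀ k ∈ L, Cm (cj k Vr) (V ⊔ V₁) := by
    intro k hk
    have := hXr.symm.cj k
    rwa [hX k hk] at this
  have hBS' : B ≤ cj ((h * g) * l) S := hBD.trans (hDS _ hhg l hl)
  have hBS'' : B ≤ cj ((a * h * g) * l) S := hBD.trans (hDS _ hahg l hl)
  have hcentU : B ⊓ centralizer (U : Set G) = B ⊓ cj ((h * g) * l) Q := (c.cj' ((h * g) * l)).centU hBS'
  have hUX : Cm U (V ⊔ V₁) := by
    have h3 : Cm D (V ⊔ V₁) := by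
      rw [hD, c.D_eq c₁, cm_iff_le]
      exact inf_le_right
    exact h3.mono hUD le_rfl
  have hAX : LargeAb S (B ⊔ (V ⊔ V₁)) := by rw [hBX]; exact hA'
  obtain ⟨j1, j2⟩ := lemmaJ (W1 := cj h Vr) (W2 := cj (a * h) Vr) (q := q) (X := V ⊔ V₁) (U := U) hA.comm
    (inf_le_left : B ≤ A) ha hAX (hX a haL) (hUD.trans hDSS) (hUaD.trans hDSS)
    (c.Vab.cj _) hUU hUX
    (by
      rw [hUa, cm_cj_left, cj_mul]
      have e : h⁻¹ * (a * h * g * l) = (h⁻¹ * (a * h)) * g * l := by group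
      rw [e]
      exact (hgen _ (L.mul_mem (L.inv_mem hh) hah) m1).symm)
    (hXrk h hh)
    (by
      intro u hu hw
      rw [hU, ← e1] at hu
      have := hmemZ h u hu hw
      rw [e1] at this
      exact hZle _ hhg l hl this)
    (by
      rw [hU, cm_cj_left, cj_mul]
      have e : (a * h)⁻¹ * (h * g * l) = ((a * h)⁻¹ * h) * g * l := by group
      rw [e]
      exact (hgen _ (L.mul_mem (L.inv_mem hah) hh) m2).symm)
    (hXrk _ hah)
    (by
      intro u hu hw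
      rw [hUa, ← e2] at hu
      have := hmemZ (a * h) u hu hw
      rw [e2] at this
      exact hZle _ hahg l hl this)
    (by
      have h3 : U ⊓ (V ⊔ V₁) = cj ((h * g) * l) (cen S) := by
        apply le_antisymm
        · rintro x ⟨hx, hxX⟩
          rw [hU, ← e1] at hx
          have := hmemZ h x hx (fun w hw => hXrk h hh w hw x hxX)
          rwa [e1] at this
        · apply le_inf (cj_mono c.ZV) (hZle _ hhg l hl)
      rw [h3, card_cj, card_cj, c.cardV])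
    (by
      rw [hcentU]
      exact ((c.cj' ((h * g) * l)).card_le_q' hBS').1)
  rw [hcentU] at j1
  have hBQ : B ⊔ cj ((h * g) * l) Q = cj ((h * g) * l) S :=
    ((c.cj' ((h * g) * l)).card_le_q' hBS').2 (le_of_eq j1.symm)
  apply hend
  rw [← r1, hR, cj_comm, Subgroup.commutator_le]
  intro u hu s hs
  rw [← hBQ] at hs
  obtain ⟨b, hb, t, ht, rfl⟩ := mem_sup_of_norm
    (fun k hk => (c.cj' ((h * g) * l)).Qn k ((c.cj' ((h * g) * l)).SL (hBS' hk))) hs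
  have e3 : ⁅u, b * t⁆ = ⁅u, b⁆ := by
    rw [commutatorElement_def, commutatorElement_def]
    have h3 : t * u⁻¹ = u⁻¹ * t := ((c.cj' ((h * g) * l)).VQc _ (inv_mem hu) t ht).symm
    calc u * (b * t) * u⁻¹ * (b * t)⁻¹ = u * b * (t * u⁻¹) * t⁻¹ * b⁻¹ := by group
      _ = u * b * u⁻¹ * b⁻¹ := by rw [h3]; group
  rw [e3]
  obtain ⟨u', hu', e, he, hx⟩ := j2 u hu
  rw [hUa] at hu'
  have hbx : (u * u' * e) * b = b * (u * u' * e) := hAX.comm _ hx b (mem_sup_left hb)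
  have heb : e * b = b * e := by
    have h3 : Cm D (V ⊔ V₁) := by
      rw [hD, c.D_eq c₁, cm_iff_le]
      exact inf_le_right
    exact (h3 b (hBD hb) e he).symm
  have hd' : u' * b * u'⁻¹ * b⁻¹ ∈ cj ((a * h * g) * l) R := by
    rw [hR, cj_comm, ← commutatorElement_def]
    exact commutator_mem_commutator hu' (hBS'' hb)
  have hd'' : u' * b * u'⁻¹ * b⁻¹ ∈ cj (a * h) (cen S) := by
    rw [r2] at hd'
    exact cj_mono hRZ hd'
  have h6 : u * b * u⁻¹ * b⁻¹ = (u' * b * u'⁻¹ * b⁻¹)⁻¹ := by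
    set d := u' * b * u'⁻¹ * b⁻¹ with hdd
    have h7 : u * d = d * u := by
      apply hUX u hu d
      exact hZle _ hahg l hl (cj_mono hRZ hd')
    have h8 : u' * b = d * b * u' := by rw [hdd]; group
    have h9 : u * u' * b = b * u * u' := by
      have h10 : (u * u' * b) * e = (b * u * u') * e := by
        calc (u * u' * b) * e = (u * u') * (b * e) := by group
          _ = (u * u') * (e * b) := by rw [heb]
          _ = (u * u' * e) * b := by group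
          _ = b * (u * u' * e) := hbx
          _ = (b * u * u') * e := by group
      exact mul_right_cancel h10
    have h11 : d * (u * b) * u' = (b * u) * u' := by
      calc d * (u * b) * u' = (d * u) * b * u' := by group
        _ = (u * d) * b * u' := by rw [h7]
        _ = u * (d * b * u') := by group
        _ = u * (u' * b) := by rw [h8]
        _ = u * u' * b := by group
        _ = (b * u) * u' := h9
    have h12 : d * (u * b) = b * u := mul_right_cancel h11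
    calc u * b * u⁻¹ * b⁻¹ = d⁻¹ * (d * (u * b)) * u⁻¹ * b⁻¹ := by group
      _ = d⁻¹ * (b * u) * u⁻¹ * b⁻¹ := by rw [h12]
      _ = d⁻¹ := by group
  rw [commutatorElement_def, h6]
  exact inv_mem hd''

end Loc

end Cfsg.Agent.H260.GN
end

-- part: H260/GN4
section
/-!
# Glauberman-Niles, part 4: words; no non-commuting pair at distance at least two
-/

set_option autoImplicit false
set_option linter.unusedSectionVars false
set_option linter.unusedVariables false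
set_option linter.style.haveILetI false

namespace Cfsg.Agent.H260.GN

open Subgroup Push
open scoped commutatorElement

variable {G : Type*} [Group G] {ι : Type*}

/-- products of `n` elements of the `L i`. -/
def Wd (L : ι → Subgroup G) : ℕ → Set G
  | 0 => {1}
  | n + 1 => {w | ∃ i, ∃ l ∈ L i, ∃ w' ∈ Wd L n, w = l * w'}

section words

variable {L : ι → Subgroup G}

theorem wd_zero {w : G} : w ∈ Wd L 0 ↔ w = 1 := Iff.rfl

theorem wd_succ {n : ℕ} {w : G} : w ∈ Wd L (n + 1) ↔ ∃ i, ∃ l ∈ L i, ∃ w' ∈ Wd L n, w = l * w' := Iff.rfl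

theorem wd_cons {n : ℕ} {i : ι} {l w : G} (hl : l ∈ L i) (hw : w ∈ Wd L n) : l * w ∈ Wd L (n + 1) :=
  ⟨i, l, hl, w, hw, rfl⟩

theorem wd_single {i : ι} {l : G} (hl : l ∈ L i) : l ∈ Wd L 1 :=
  ⟨i, l, hl, 1, rfl, (mul_one l).symm⟩

theorem wd_mul {m n : ℕ} {a b : G} (ha : a ∈ Wd L m) (hb : b ∈ Wd L n) : a * b ∈ Wd L (m + n) := by
  induction m generalizing a with
  | zero =>
    rw [wd_zero.mp ha, one_mul, zero_add]
    exact hb
  | succ m ih =>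
    obtain ⟨i, l, hl, w', hw', rfl⟩ := ha
    rw [mul_assoc, show m + 1 + n = (m + n) + 1 by omega]
    exact wd_cons hl (ih hw')

theorem wd_snoc {n : ℕ} {i : ι} {l w : G} (hw : w ∈ Wd L n) (hl : l ∈ L i) : w * l ∈ Wd L (n + 1) :=
  wd_mul hw (wd_single hl)

theorem wd_one (i : ι) (n : ℕ) : (1 : G) ∈ Wd L n := by
  induction n with
  | zero => rfl
  | succ n ih => exact ⟨i, 1, (L i).one_mem, 1, ih, (mul_one 1).symm⟩

theorem wd_le (i : ι) {m n : ℕ} (h : m ≤ n) {w : G} (hw : w ∈ Wd L m) : w ∈ Wd L n := by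
  have := wd_mul hw (wd_one (L := L) i (n - m))
  rwa [mul_one, Nat.add_sub_cancel' h] at this

theorem wd_inv {n : ℕ} {w : G} (hw : w ∈ Wd L n) : w⁻¹ ∈ Wd L n := by
  induction n generalizing w with
  | zero => rw [wd_zero] at hw ⊢; rw [hw, inv_one]
  | succ n ih =>
    obtain ⟨i, l, hl, w', hw', rfl⟩ := hw
    rw [mul_inv_rev]
    exact wd_snoc (ih hw') ((L i).inv_mem hl)

theorem wd_succ_right {n : ℕ} {w : G} (hw : w ∈ Wd L (n + 1)) :
    ∃ w' ∈ Wd L n, ∃ i, ∃ l ∈ L i, w = w' * l := by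
  obtain ⟨i, l, hl, w', hw', e⟩ := wd_inv hw
  refine ⟨w'⁻¹, wd_inv hw', i, l⁻¹, (L i).inv_mem hl, ?_⟩
  rw [← mul_inv_rev, ← e, inv_inv]

theorem wd_symm {n : ℕ} {x y : G} (h : x⁻¹ * y ∈ Wd L n) : y⁻¹ * x ∈ Wd L n := by
  have := wd_inv h
  rwa [mul_inv_rev, inv_inv] at this

theorem wd_trans {m n : ℕ} {x y z : G} (h : x⁻¹ * y ∈ Wd L m) (h' : y⁻¹ * z ∈ Wd L n) :
    x⁻¹ * z ∈ Wd L (m + n) := by
  have := wd_mul h h'
  have e : x⁻¹ * y * (y⁻¹ * z) = x⁻¹ * z := by group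
  rwa [e] at this

end words

/-- all `V i`, `(V j)^w`, `w` a word of length `n`, commute. -/
def CommN (L V : ι → Subgroup G) (n : ℕ) : Prop := ∀ w ∈ Wd L n, ∀ i j, Cm (V i) (cj w (V j))

section fam

variable {p : ℕ} [hp : Fact p.Prime] {S : Subgroup G} {q : ι → ℕ} {L Q V C M : ι → Subgroup G}

theorem CommN.le {m n : ℕ} (h : CommN L V n) (hmn : m ≤ n) : CommN L V m :=
  fun w hw i j => h w (wd_le i hmn hw) i j

theorem CommN.cm {n : ℕ} (h : CommN L V n) {x y : G} (hxy : x⁻¹ * y ∈ Wd L n) (i j : ι) :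
    Cm (cj x (V i)) (cj y (V j)) := by
  have := (h _ hxy i j).cj x
  rw [cj_mul] at this
  have e : x * (x⁻¹ * y) = y := by group
  rwa [e] at this

theorem CommN.cm0 {n : ℕ} (h : CommN L V n) (i j : ι) : Cm (V i) (V j) := by
  have := h 1 (wd_one i n) i j
  rwa [cj_one] at this

variable (loc : ∀ i, Loc p (q i) S (L i) (Q i) (V i) (C i) (M i))
include loc

theorem inQ_aux {n : ℕ} : CommN L V n → (∀ w ∈ Wd L (n + 1), ∀ j, cj w (V j) ≤ S) ∧
    (∀ i, ∀ l ∈ L i, ∀ w ∈ Wd L n, ∀ j, cj (l * w) (V j) ≤ Q i) := by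
  induction n with
  | zero =>
    intro h
    have h1 : ∀ i, ∀ l ∈ L i, ∀ w ∈ Wd L 0, ∀ j, cj (l * w) (V j) ≤ Q i := by
      intro i l hl w hw j
      rw [wd_zero.mp hw, mul_one, cj_le_iff, (loc i).Qn _ ((L i).inv_mem hl)]
      exact (loc i).le_Q (loc j).VS (h.cm0 i j)
    refine ⟨?_, h1⟩
    intro w hw j
    obtain ⟨i, l, hl, w', hw', rfl⟩ := hw
    exact (h1 i l hl w' hw' j).trans (loc i).QS
  | succ n ih =>
    intro h
    have ih' := ih (h.le (Nat.le_succ n))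
    have h1 : ∀ i, ∀ l ∈ L i, ∀ w ∈ Wd L (n + 1), ∀ j, cj (l * w) (V j) ≤ Q i := by
      intro i l hl w hw j
      rw [← cj_mul, cj_le_iff, (loc i).Qn _ ((L i).inv_mem hl)]
      exact (loc i).le_Q (ih'.1 w hw j) (h w hw i j)
    refine ⟨?_, h1⟩
    intro w hw j
    obtain ⟨i, l, hl, w', hw', rfl⟩ := hw
    exact (h1 i l hl w' hw' j).trans (loc i).QS

/-- `V_y ≤ S_x` at distance at most `n+1`. -/
theorem inS {n : ℕ} (h : CommN L V n) {x y : G} (hxy : x⁻¹ * y ∈ Wd L (n + 1)) (j : ι) :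
    cj y (V j) ≤ cj x S := by
  have := cj_mono (g := x) ((inQ_aux loc h).1 _ hxy j)
  rw [cj_mul] at this
  have e : x * (x⁻¹ * y) = y := by group
  rwa [e] at this

theorem cjQ_eq {x u : G} {k : ι} (h : x⁻¹ * u ∈ L k) : cj u (Q k) = cj x (Q k) := by
  have e : u = x * (x⁻¹ * u) := by group
  rw [e, ← cj_mul, (loc k).Qn _ h]

theorem cjV_eq {x u : G} {k : ι} (h : x⁻¹ * u ∈ L k) : cj u (V k) = cj x (V k) := by
  have e : u = x * (x⁻¹ * u) := by group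
  rw [e, ← cj_mul, (loc k).Vn _ h]

theorem cjC_eq {x u : G} {k : ι} (h : x⁻¹ * u ∈ L k) {X : Subgroup G} (hX : X ≤ C k) :
    cj u X = cj x X := by
  have e : u = x * (x⁻¹ * u) := by group
  rw [e, ← cj_mul, (loc k).cj_le_C h hX]

/-- a subgroup in `S_u` commuting with `V_u` lies in `Q_u`. -/
theorem le_cjQ {u : G} {k : ι} {X : Subgroup G} (h1 : X ≤ cj u S) (h2 : Cm (cj u (V k)) X) :
    X ≤ cj u (Q k) := ((loc k).cj' u).le_Q h1 h2

theorem crit_R' {m : ℕ} (h : CommN L V m) {x y : G} (hxy : x⁻¹ * y ∈ Wd L (m + 1)) {i j : ι}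
    (hnc : ¬ Cm (cj x (V i)) (cj y (V j))) : cj y ⁅V j, S⁆ = cj x ⁅V i, S⁆ := by
  have := ((loc i).cj' x).crit_R ((loc j).cj' y) (inS loc h (wd_symm hxy) i) (inS loc h hxy j) hnc
  rwa [(loc i).cj_comm', (loc j).cj_comm'] at this

/-- Lemma M for words. -/
theorem lemmaM' {m : ℕ} (h : CommN L V m) {x u y : G} {k : ι} (hxu : x⁻¹ * u ∈ L k)
    (huy : u⁻¹ * y ∈ Wd L m) {i j : ι} (hnc : ¬ Cm (cj x (V i)) (cj y (V j))) : ⁅V i, S⁆ ≤ C k := by
  have hxy : ∀ l ∈ L k, l * (x⁻¹ * y) ∈ Wd L (m + 1) := by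
    intro l hl
    have := wd_cons ((L k).mul_mem hl hxu) huy
    have e : l * (x⁻¹ * u) * (u⁻¹ * y) = l * (x⁻¹ * y) := by group
    rwa [e] at this
  have hnc' : ¬ Cm (V i) (cj (x⁻¹ * y) (V j)) := by
    intro h'
    apply hnc
    have := h'.cj x
    rw [cj_mul] at this
    have e : x * (x⁻¹ * y) = y := by group
    rwa [e] at this
  apply (loc i).lemmaM (loc k) ((loc j).cj' (x⁻¹ * y)) (h.cm0 i k) _ _ _ hnc'
  · have h1 := h.cm huy k j
    rw [cjV_eq loc hxu] at h1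
    rw [← cm_cj_iff (g := x), cj_mul]
    have e : x * (x⁻¹ * y) = y := by group
    rwa [e]
  · intro l hl
    apply inS loc h
    have := wd_inv (hxy l⁻¹ ((L k).inv_mem hl))
    have e : (l⁻¹ * (x⁻¹ * y))⁻¹ = (x⁻¹ * y)⁻¹ * l := by group
    rwa [e] at this
  · intro l hl
    rw [cj_mul]
    have := inS loc h (x := 1) (y := l * (x⁻¹ * y)) (by simpa using hxy l hl) j
    rwa [cj_one] at this

theorem S_inv_sup (E : Subgroup G) (hE : E = ⨆ k, V k) : ∀ s ∈ S, cj s E = E := by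
  intro s hs
  rw [hE, cj_iSup]
  congr 1
  ext1 k
  exact (loc k).Vn s ((loc k).SL hs)

/-- **No dead ends** at distance at least two. -/
theorem dead_words {k : ℕ} (h : CommN L V (k + 1)) {w : G} (hw : w ∈ Wd L (k + 2)) {i j : ι}
    (hnc : ¬ Cm (V i) (cj w (V j))) : ¬ ∀ g ∈ L i, cj g (⨆ k, V k) = ⨆ k, V k := by
  intro hE
  set E := ⨆ k, V k with hEd
  have hm : (k + 1) + 1 = k + 2 := rfl
  obtain ⟨u, hu, β, b, hb, rfl⟩ := wd_succ_right hw
  obtain ⟨t, ht, α, a, ha, rfl⟩ := wd_succ_right hu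
  set c := loc i with hc
  set V' := cj (t * a * b) (V j) with hV'
  set S' := cj (t * a * b) S with hS'
  set R := ⁅V i, S⁆ with hR
  have c' : Loc p (q j) S' (cj (t * a * b) (L j)) (cj (t * a * b) (Q j)) V' (cj (t * a * b) (C j))
      (cj (t * a * b) (M j)) := (loc j).cj' (t * a * b)
  have hmem : ∀ (x y : G) (n : ℕ), x⁻¹ * y ∈ Wd L n → n ≤ k + 2 → x⁻¹ * y ∈ Wd L ((k + 1) + 1) :=
    fun x y n h1 h2 => wd_le i h2 h1
  have h1w : (1 : G)⁻¹ * (t * a * b) ∈ Wd L (k + 2) := by simpa using hw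
  have hV'S : V' ≤ S := by
    have := inS loc h (x := 1) (y := t * a * b) h1w j
    rwa [cj_one] at this
  have hVS' : ∀ j', V j' ≤ S' := by
    intro j'
    have := inS loc h (x := t * a * b) (y := 1) (wd_symm h1w) j'
    rwa [cj_one] at this
  have hES' : E ≤ S' := iSup_le hVS'
  have hub : (t * a)⁻¹ * (t * a * b) ∈ L β := by
    have e : (t * a)⁻¹ * (t * a * b) = b := by group
    rw [e]
    exact hb
  -- choice of the first letter
  obtain ⟨i₁, l₁, w', hl₁, hw', hww, hkey⟩ : ∃ (i₁ : ι) (l₁ w' : G), l₁ ∈ L i₁ ∧ w' ∈ Wd L (k + 1) ∧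
      t * a * b = l₁ * w' ∧ (k = 0 → t = 1 ∧ α = i₁) := by
    rcases k with _ | k
    · have ht1 : t = 1 := ht
      subst ht1
      exact ⟨α, a, b, ha, wd_single hb, by group, fun _ => ⟨rfl, rfl⟩⟩
    · obtain ⟨i₁, l₁, hl₁, t', ht', rfl⟩ := ht
      refine ⟨i₁, l₁, t' * a * b, hl₁, wd_snoc (wd_snoc ht' ha) hb, by group, fun h => ?_⟩
      omega
  set c₁ := loc i₁ with hc₁
  have h01 : Cm (V i) (V i₁) := h.cm0 i i₁
  have h1' : Cm (V i₁) V' := by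
    have h2 : Cm (V i₁) (cj w' (V j)) := h w' hw' i₁ j
    have := h2.cj l₁
    rwa [cj_mul, ← hww, c₁.Vn l₁ hl₁] at this
  have hl : Cm (cj l₁ (V i)) V' := by
    have h2 : Cm (V i) (cj w' (V j)) := h w' hw' i j
    have := h2.cj l₁
    rwa [cj_mul, ← hww] at this
  have hW : ∀ l ∈ L i₁, Cm (V i) (cj l (V i)) := fun l hl =>
    h l (wd_le i (by omega) (wd_single hl)) i i
  have hnc1 : ¬ Cm (cj 1 (V i)) (cj (t * a * b) (V j)) := by rwa [cj_one]
  have hR₁ : R ≤ C i₁ := by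
    apply lemmaM' loc h (x := 1) (u := l₁) (y := t * a * b) (by simpa using hl₁) _ hnc1
    rw [hww]
    have e : l₁⁻¹ * (l₁ * w') = w' := by group
    rw [e]
    exact hw'
  have hX : ∀ g ∈ L i, cj g (V i ⊔ V i₁) = V i ⊔ V i₁ :=
    c.dead_X c₁ c' (hVS' i) hV'S hnc hE (le_iSup V i₁) hES'
  have hni := c.notInv c₁ h1' hl₁ hl hnc
  have hRZ : R ≤ cen S := c.VS_le
  -- elements of `R^g` centralised by `V'`
  have hRg : ∀ g ∈ L i, (∀ x ∈ cj g R, ∀ y ∈ V', y * x = x * y) → cj g R = R := by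
    intro g hg hx
    apply c.cjR_of_le hg
    intro x hx'
    apply c.crit_mem c' (hVS' i) hV'S hnc _ (hx x hx')
    have := cj_mono (g := g) (hRZ.trans c.ZV)
    rw [c.Vn g hg] at this
    exact this hx'
  have hcjR : ∀ g ∈ L i, ∀ l ∈ L i₁, cj (g * l) R = cj g R := by
    intro g hg l hl
    rw [← cj_mul, c₁.cj_le_C hl hR₁]
  -- Step A
  have hgl : ∀ g ∈ L i, ∀ l ∈ L i₁, ∀ x, ∀ n, x ∈ Wd L n → x⁻¹ * (g * l) ∈ Wd L (n + 2) := by
    intro g hg l hl x n hx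
    have := wd_snoc (wd_snoc (wd_inv hx) hg) hl
    have e : x⁻¹ * g * l = x⁻¹ * (g * l) := by group
    rwa [e] at this
  have htY : ∀ g ∈ L i, ∀ l ∈ L i₁, cj (g * l) (V i) ≤ cj t S := fun g hg l hl =>
    inS loc h (hmem _ _ _ (hgl g hg l hl t k ht) le_rfl) i
  have htV' : V' ≤ cj t S := by
    apply inS loc h (hmem _ _ 2 _ (by omega))
    have e : t⁻¹ * (t * a * b) = a * b := by group
    rw [e]
    exact wd_snoc (wd_single ha) hb
  have hA : ∀ g ∈ L i, ∀ l ∈ L i₁, Cm (cj (g * l) (V i)) (cj t (V α)) := by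
    rcases Nat.eq_zero_or_pos k with hk | hk
    · obtain ⟨ht1, hα⟩ := hkey hk
      subst hα
      intro g hg l hl
      rw [ht1, cj_one, ← cj_mul, cm_cj_left]
      have h2 : cj g⁻¹ (V α) ≤ V i ⊔ V α := by
        have := cj_mono (g := g⁻¹) (le_sup_right : V α ≤ V i ⊔ V α)
        rwa [hX _ ((L i).inv_mem hg)] at this
      have h3 : Cm (cj l (V i)) (V i ⊔ V α) := by
        apply Cm.sup_right
        · exact (hW l hl).symm
        · have := h01.cj l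
          rwa [c₁.Vn l hl] at this
      exact h3.mono le_rfl h2
    · apply c.stepA c₁ ((loc α).cj' t) h01 hW hR₁ hX hni
      · apply Cm.sup_left
        · have := h.cm (x := 1) (y := t) (by simpa using wd_le i (Nat.le_succ k) ht) i α
          rwa [cj_one] at this
        · have := h.cm (x := 1) (y := t) (by simpa using wd_le i (Nat.le_succ k) ht) i₁ α
          rwa [cj_one] at this
      · exact htY
      · exact fun g hg l hl => inS loc h (hmem _ _ _ (wd_symm (hgl g hg l hl t k ht)) le_rfl) α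
      · intro g hg l hl hnc2
        apply hRg g hg
        intro x hx y hy
        have h3 := crit_R' loc h (hmem _ _ _ (wd_symm (hgl g hg l hl t k ht)) le_rfl) hnc2
        rw [← hR, hcjR g hg l hl] at h3
        rw [← h3] at hx
        have h4 : x ∈ cen (cj t S) := by
          rw [← cj_cen]
          exact cj_mono (loc α).VS_le hx
        exact cen_comm h4 (htV' hy)
  have hA' : ∀ g ∈ L i, ∀ l ∈ L i₁, cj (g * l) (V i) ≤ cj (t * a) S := by
    intro g hg l hl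
    have h2 := le_cjQ loc (k := α) (htY g hg l hl) (hA g hg l hl).symm
    rw [← cjQ_eq loc (x := t) (u := t * a) (k := α) (by simpa using ha)] at h2
    exact h2.trans (cj_mono (loc α).QS)
  -- Step B
  have hB : ∀ g ∈ L i, ∀ l ∈ L i₁, Cm (cj (g * l) (V i)) (cj (t * a) (V β)) := by
    intro g hg l hl
    by_contra hnc2
    have hXu : Cm (V i ⊔ V i₁) (cj (t * a) (V β)) := by
      apply Cm.sup_left
      · have := h.cm (x := 1) (y := t * a) (by simpa using hu) i β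
        rwa [cj_one] at this
      · have := h.cm (x := 1) (y := t * a) (by simpa using hu) i₁ β
        rwa [cj_one] at this
    have h2 : cj (t * a) (V β) ≤ cj (g * l) S := by
      rw [← cj_mul g l S, le_cj_iff, cj_mul]
      have h3 : cj (g⁻¹ * (t * a)) (V β) ≤ S := by
        have h4 : (1 : G)⁻¹ * (g⁻¹ * (t * a)) ∈ Wd L (k + 1 + 1) := by
          simpa using wd_cons ((L i).inv_mem hg) hu
        have := inS loc h h4 β
        rwa [cj_one] at this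
      have h5 : cj (g⁻¹ * (t * a)) (V β) ≤ Q i₁ := by
        apply c₁.le_Q h3
        rw [← cj_mul, cm_cj_right, inv_inv]
        apply hXu.mono _ le_rfl
        have := cj_mono (g := g) (le_sup_right : V i₁ ≤ V i ⊔ V i₁)
        rwa [hX g hg] at this
      exact h5.trans (c₁.Q_le_cjS hl)
    have h3 := (c.cj' (g * l)).crit_R ((loc β).cj' (t * a)) (hA' g hg l hl) h2 hnc2
    rw [c.cj_comm', (loc β).cj_comm', ← hR, hcjR g hg l hl] at h3
    have huV' : V' ≤ cj (t * a) S := by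
      apply inS loc h (hmem _ _ 1 _ (by omega))
      have e : (t * a)⁻¹ * (t * a * b) = b := by group
      rw [e]
      exact wd_single hb
    have h4 : cj g R = R := by
      apply hRg g hg
      intro x hx y hy
      rw [← h3] at hx
      have h4 : x ∈ cen (cj (t * a) S) := by
        rw [← cj_cen]
        exact cj_mono (loc β).VS_le hx
      exact cen_comm h4 (huV' hy)
    rw [h4] at h3
    -- `R ≤ C_β^u`
    have h5 : ⁅V j, S⁆ ≤ C β := by
      apply lemmaM' loc h (x := t * a * b) (u := t * a) (y := 1) (i := j) (j := i)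
      · have e : (t * a * b)⁻¹ * (t * a) = b⁻¹ := by group
        rw [e]
        exact (L β).inv_mem hb
      · simpa using wd_inv hu
      · intro h'
        apply hnc1
        exact h'.symm
    have h6 := crit_R' loc h (x := 1) (y := t * a * b) h1w hnc1
    rw [cj_one, cjC_eq loc (x := t * a) (u := t * a * b) (k := β) hub h5, ← hR] at h6
    rw [← h6] at h3
    apply (loc β).R_not_le_C
    rw [cj_le_cj.mp h3.le |>.antisymm (cj_le_cj.mp h3.ge)]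
    exact h5
  have h5 : ∀ g ∈ L i, ∀ l ∈ L i₁, cj (g * l) (V i) ≤ S' := by
    intro g hg l hl
    have h2 := le_cjQ loc (k := β) (hA' g hg l hl) (hB g hg l hl).symm
    rw [← cjQ_eq loc (x := t * a) (u := t * a * b) (k := β) hub] at h2
    exact h2.trans (cj_mono (loc β).QS)
  exact c.dead2 c₁ c' hV'S hnc h01 h1' hW hR₁ hX h5 hl₁ hl

end fam

end Cfsg.Agent.H260.GN
end

-- part: H260/GN5
section
/-!
# Glauberman-Niles, part 5: tracks; live ends at distance at least two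
-/

set_option autoImplicit false
set_option linter.unusedSectionVars false
set_option linter.unusedVariables false
set_option linter.style.haveILetI false

namespace Cfsg.Agent.H260.GN

open Subgroup Push
open scoped commutatorElement

variable {G : Type*} [Group G] {ι : Type*}

theorem exists_path {L : ι → Subgroup G} (n : ℕ) : ∀ w ∈ Wd L n, ∀ i j : ι, ∃ (h : ℕ → G) (τ : ℕ → ι),
    h 0 = 1 ∧ h n = w ∧ τ 0 = i ∧ τ (n + 1) = j ∧ ∀ k < n, (h k)⁻¹ * h (k + 1) ∈ L (τ (k + 1)) := by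
  induction n with
  | zero =>
    intro w hw i j
    refine ⟨fun _ => 1, fun k => if k = 0 then i else j, rfl, (wd_zero.mp hw).symm, by simp, by simp, ?_⟩
    intro k hk
    omega
  | succ n ih =>
    intro w hw i j
    obtain ⟨w', hw', k₀, l, hl, rfl⟩ := wd_succ_right hw
    obtain ⟨h, τ, h1, h2, h3, h4, h5⟩ := ih w' hw' i k₀
    refine ⟨fun k => if k ≤ n then h k else w' * l, fun k => if k ≤ n + 1 then τ k else j, ?_, ?_, ?_, ?_, ?_⟩
    · simp [h1]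
    · simp
    · simp [h3]
    · simp
    · intro k hk
      rcases Nat.lt_or_ge k n with h6 | h6
      · have e1 : k ≤ n := by omega
        have e2 : k + 1 ≤ n := by omega
        have e3 : k + 1 ≤ n + 1 := by omega
        simp only [e1, e2, e3, if_true]
        exact h5 k h6
      · have e1 : k = n := by omega
        subst e1
        have e2 : ¬ k + 1 ≤ k := by omega
        simp only [le_refl, if_true, e2, if_false, h2, h4]
        have : w'⁻¹ * (w' * l) = l := by group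
        rw [this]
        exact hl

/-- a track of critical pairs at distance `n`. -/
structure Track (L V M : ι → Subgroup G) (n N : ℕ) (h : ℕ → G) (τ : ℕ → ι) : Prop where
  step : ∀ k < n + N, (h k)⁻¹ * h (k + 1) ∈ L (τ (k + 1))
  move : ∀ k, n ≤ k → k < n + N → (h k)⁻¹ * h (k + 1) ∉ M (τ (k + 1))
  nc : ∀ k ≤ N, ¬ Cm (cj (h k) (V (τ k))) (cj (h (k + n)) (V (τ (k + n + 1))))

theorem Track.word {L V M : ι → Subgroup G} {n N : ℕ} {h : ℕ → G} {τ : ℕ → ι} (T : Track L V M n N h τ)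
    (k d : ℕ) (hkd : k + d ≤ n + N) : (h k)⁻¹ * h (k + d) ∈ Wd L d := by
  induction d with
  | zero => rw [wd_zero]; simp
  | succ d ih =>
    have h1 := T.step (k + d) (by omega)
    have := wd_snoc (ih (by omega)) h1
    have e : (h k)⁻¹ * h (k + d) * ((h (k + d))⁻¹ * h (k + d + 1)) = (h k)⁻¹ * h (k + (d + 1)) := by
      rw [← add_assoc]; group
    rwa [e] at this

section fam

variable {p : ℕ} [hp : Fact p.Prime] {S : Subgroup G} {q : ι → ℕ} {L Q V C M : ι → Subgroup G}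
variable (loc : ∀ i, Loc p (q i) S (L i) (Q i) (V i) (C i) (M i))
include loc

theorem nc_cj {x y : G} {A B : Subgroup G} : Cm (cj x A) (cj y B) ↔ Cm A (cj (x⁻¹ * y) B) := by
  rw [cm_cj_left, cj_mul]

/-- the extension lemma in words. -/
theorem ext_words {m : ℕ} (h : CommN L V m) {x y : G} {i j : ι}
    (hxy : x⁻¹ * y ∈ Wd L (m + 1)) (hnc : ¬ Cm (cj x (V i)) (cj y (V j))) {l₀ : G}
    (hl₀ : l₀ ∈ L j) (hl₀M : l₀ ∉ M j) {E : Subgroup G} (hVE : V j ≤ E) (hES : ∀ s ∈ S, cj s E = E)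
    (hE : cj l₀ E ≤ cj (y⁻¹ * x) S) : ∀ g ∈ L j, cj g E = E := by
  apply (loc j).extend ((loc i).cj' (y⁻¹ * x)) _ _ _ hl₀ hl₀M hVE hES hE
  · have := inS loc h (x := y⁻¹ * x) (y := 1) (by
      have e : (y⁻¹ * x)⁻¹ * 1 = x⁻¹ * y := by group
      rwa [e]) j
    rwa [cj_one] at this
  · have := inS loc h (x := 1) (y := y⁻¹ * x) (by
      have e : (1 : G)⁻¹ * (y⁻¹ * x) = y⁻¹ * x := by group
      rw [e]
      exact wd_symm hxy) i
    rwa [cj_one] at this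
  · intro h'
    apply hnc
    rw [nc_cj loc] at *
    have := h'.symm.cj (x⁻¹ * y)
    rw [cj_mul] at this
    have e : x⁻¹ * y * (y⁻¹ * x) = 1 := by group
    rwa [e, cj_one] at this

theorem le_of_cm {m : ℕ} (h : CommN L V m) {x u y : G} {k j₀ j : ι} (hxu : x⁻¹ * u ∈ L k)
    (huy : u⁻¹ * y ∈ Wd L m) {l₀ : G} (hl₀ : l₀ ∈ L j)
    (hcm : Cm (cj u (V k)) (cj (y * l₀) (V j₀))) : cj l₀ (V j₀) ≤ cj (y⁻¹ * x) S := by
  have h1 : cj (y * l₀) (V j₀) ≤ cj u S := by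
    apply inS loc h
    rw [← mul_assoc]
    exact wd_snoc huy hl₀
  have h2 := le_cjQ loc h1 hcm
  rw [cjQ_eq loc hxu] at h2
  have h3 := h2.trans (cj_mono (g := x) (loc k).QS)
  rw [← cj_mul, cj_le_iff, cj_mul] at h3
  exact h3

theorem reverse_nc {x y : G} {i j : ι} (hnc : ¬ Cm (cj x (V i)) (cj y (V j))) :
    ¬ Cm (V j) (cj (y⁻¹ * x) (V i)) := by
  intro h
  apply hnc
  rw [← nc_cj loc] at h
  exact h.symm

/-- extending a track by one step. -/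
theorem Track.succ {m N : ℕ} (hc : CommN L V m)
    (hlive : ∀ w ∈ Wd L (m + 1), ∀ i j, ¬ Cm (V i) (cj w (V j)) →
      ¬ ∀ g ∈ L i, cj g (⨆ k, V k) = ⨆ k, V k)
    {h : ℕ → G} {τ : ℕ → ι} (T : Track L V M (m + 1) N h τ) :
    ∃ h' τ', Track L V M (m + 1) (N + 1) h' τ' := by
  set x := h N with hx
  set u := h (N + 1) with hu
  set y := h (N + (m + 1)) with hy
  set j := τ (N + (m + 1) + 1) with hj
  have hnc := T.nc N le_rfl
  have hxu : x⁻¹ * u ∈ L (τ (N + 1)) := T.step N (by omega)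
  have huy : u⁻¹ * y ∈ Wd L m := by
    have := T.word (N + 1) m (by omega)
    have e : N + 1 + m = N + (m + 1) := by omega
    rwa [e] at this
  have hxy : x⁻¹ * y ∈ Wd L (m + 1) := T.word N (m + 1) (by omega)
  obtain ⟨l₀, hl₀, hl₀M⟩ := (loc j).ex
  obtain ⟨j₀, hj₀⟩ : ∃ j₀, ¬ Cm (cj u (V (τ (N + 1)))) (cj (y * l₀) (V j₀)) := by
    by_contra hcon
    push Not at hcon
    apply hlive _ (wd_symm hxy) _ _ (reverse_nc loc hnc)
    apply ext_words loc hc hxy hnc hl₀ hl₀M (le_iSup V j) (S_inv_sup loc _ rfl)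
    rw [cj_iSup]
    exact iSup_le fun k => le_of_cm loc hc hxu huy hl₀ (hcon k)
  have e1 : ∀ k, k ≤ N + (m + 1) → Function.update h (N + (m + 1) + 1) (y * l₀) k = h k := by
    intro k hk
    apply Function.update_of_ne
    omega
  have e2 : ∀ k, k ≤ N + (m + 1) + 1 → Function.update τ (N + (m + 1) + 2) j₀ k = τ k := by
    intro k hk
    apply Function.update_of_ne
    omega
  refine ⟨Function.update h (N + (m + 1) + 1) (y * l₀), Function.update τ (N + (m + 1) + 2) j₀, ?_, ?_, ?_⟩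
  · intro k hk
    rcases Nat.lt_or_ge k (N + (m + 1)) with h1 | h1
    · rw [e1 k (by omega), e1 (k + 1) (by omega), e2 (k + 1) (by omega)]
      exact T.step k (by omega)
    · have : k = N + (m + 1) := by omega
      subst this
      rw [e1 _ le_rfl, Function.update_self, e2 _ le_rfl, ← hy, ← mul_assoc, inv_mul_cancel, one_mul]
      exact hl₀
  · intro k hk1 hk
    rcases Nat.lt_or_ge k (N + (m + 1)) with h1 | h1
    · rw [e1 k (by omega), e1 (k + 1) (by omega), e2 (k + 1) (by omega)]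
      exact T.move k hk1 (by omega)
    · have : k = N + (m + 1) := by omega
      subst this
      rw [e1 _ le_rfl, Function.update_self, e2 _ le_rfl, ← hy, ← mul_assoc, inv_mul_cancel, one_mul]
      exact hl₀M
  · intro k hk
    rcases Nat.lt_or_ge k (N + 1) with h1 | h1
    · rw [e1 k (by omega), e2 k (by omega), e1 (k + (m + 1)) (by omega), e2 (k + (m + 1) + 1) (by omega)]
      exact T.nc k (by omega)
    · have : k = N + 1 := by omega
      subst this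
      rw [e1 _ (by omega), e2 _ (by omega)]
      have e3 : N + 1 + (m + 1) = N + (m + 1) + 1 := by omega
      rw [e3, Function.update_self, Function.update_self]
      exact hj₀

theorem exists_track {m : ℕ} (hc : CommN L V m)
    (hlive : ∀ w ∈ Wd L (m + 1), ∀ i j, ¬ Cm (V i) (cj w (V j)) →
      ¬ ∀ g ∈ L i, cj g (⨆ k, V k) = ⨆ k, V k)
    {w : G} (hw : w ∈ Wd L (m + 1)) {i j : ι} (hnc : ¬ Cm (V i) (cj w (V j))) (N : ℕ) :
    ∃ h τ, Track L V M (m + 1) N h τ := by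
  induction N with
  | zero =>
    obtain ⟨h, τ, h0, h1, h2, h3, h4⟩ := exists_path (m + 1) w hw i j
    refine ⟨h, τ, ?_, ?_, ?_⟩
    · intro k hk
      exact h4 k (by omega)
    · intro k hk1 hk2
      omega
    · intro k hk
      have : k = 0 := by omega
      subst this
      rw [zero_add, h0, h1, h2, h3, cj_one]
      exact hnc
  | succ N ih =>
    obtain ⟨h, τ, T⟩ := ih
    exact Track.succ loc hc hlive T

/-- **Live ends at distance at least two**: contradiction. -/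
theorem live_false {m : ℕ} (hm : 1 ≤ m) (hc : CommN L V m) {h : ℕ → G} {τ : ℕ → ι}
    (T : Track L V M (m + 1) (m + 3) h τ) : False := by
  set n := m + 1 with hn
  -- words
  have hw : ∀ k d, k + d ≤ n + (m + 3) → (h k)⁻¹ * h (k + d) ∈ Wd L d := T.word
  -- criticality
  have hcr : ∀ k ≤ m + 3, cj (h (k + n)) ⁅V (τ (k + n + 1)), S⁆ = cj (h k) ⁅V (τ k), S⁆ := by
    intro k hk
    exact crit_R' loc hc (hw k n (by omega)) (T.nc k hk)
  have hM : ∀ k ≤ m + 3, ⁅V (τ k), S⁆ ≤ C (τ (k + 1)) := by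
    intro k hk
    apply lemmaM' loc hc (T.step k (by omega)) _ (T.nc k hk)
    have := hw (k + 1) m (by omega)
    have e : k + 1 + m = k + n := by omega
    rwa [e] at this
  set D := cj (h n) ⁅V (τ n), S⁆ with hD
  have s1 := T.step n (by omega)
  have s2 := T.step (n + 1) (by omega)
  have mv1 := T.move n le_rfl (by omega)
  have mv2 := T.move (n + 1) (by omega) (by omega)
  have hR1 := hM n (by omega)
  -- D ≤ Z_{h (n+1)}
  have hD1 : D = cj (h (n + 1)) ⁅V (τ n), S⁆ := (cjC_eq loc s1 hR1).symm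
  have hDZ1 : D ≤ cj (h (n + 1)) (cen S) := by
    rw [hD1]
    exact cj_mono (loc (τ n)).VS_le
  -- S_{h (n+2)} centralises D
  have hcrS := ((loc (τ (n + 2))).cj' (h (n + 2))).crit_S ((loc (τ (n + 2 + n + 1))).cj' (h (n + 2 + n)))
    (inS loc hc (wd_symm (hw (n + 2) n (by omega))) _) (inS loc hc (hw (n + 2) n (by omega)) _)
    (T.nc (n + 2) (by omega))
  have hDcomm : Cm (cj (h (n + 2)) S) D := by
    rw [← hcrS]
    apply Cm.sup_left
    · have h1 : cj (h (n + 2 + n)) (V (τ (n + 2 + n + 1))) ≤ cj (h (n + n)) S := by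
        apply inS loc hc
        have := hw (n + n) 2 (by omega)
        have e : n + n + 2 = n + 2 + n := by omega
        rw [e] at this
        exact wd_le (τ 0) (by omega) this
      have h2 : D ≤ cen (cj (h (n + n)) S) := by
        rw [hD, ← hcr n (by omega), ← cj_cen]
        exact cj_mono (loc _).VS_le
      intro x hx y hy
      exact cen_comm (h2 hy) (h1 hx)
    · rw [cjQ_eq loc s2]
      intro x hx y hy
      have h1 := hDZ1 hy
      rw [cj_cen] at h1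
      exact cen_comm h1 (cj_mono (loc _).QS hx)
  have hDZ2 : D ≤ cj (h (n + 2)) (cen S) := by
    rw [cj_cen]
    intro x hx
    refine ⟨?_, mem_centralizer_iff.mpr fun y hy => hDcomm y hy x hx⟩
    have h1 : D ≤ cj (h (n + 1)) (V (τ (n + 2))) := hDZ1.trans (cj_mono (loc _).ZV)
    rw [← cjV_eq loc s2] at h1
    exact cj_mono (loc _).VS (h1 hx)
  have hDC : D ≤ cj (h (n + 1)) (C (τ (n + 2))) := by
    intro x hx
    rw [mem_cj]
    apply (loc (τ (n + 2))).two' s2 mv2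
    · rw [← mem_cj]
      exact hDZ1 hx
    · have := hDZ2 hx
      rw [mem_cj] at this ⊢
      have e : ((h (n + 1))⁻¹ * h (n + 1 + 1))⁻¹ * ((h (n + 1))⁻¹ * x * h (n + 1)) *
          ((h (n + 1))⁻¹ * h (n + 1 + 1)) = (h (n + 2))⁻¹ * x * h (n + 2) := by
        have : n + 1 + 1 = n + 2 := rfl
        rw [this]
        group
      rwa [e]
  by_cases hcase : Cm (cj (h 1) (V (τ 1))) (cj (h (n + 1)) (V (τ n)))
  · -- `L_{τ (n+1)}` normalises `V_{τ (n+1)} V_{τ n}`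
    have hw0 : (h 0)⁻¹ * h n ∈ Wd L (m + 1) := by
      have := hw 0 n (by omega)
      rwa [zero_add] at this
    have hnc0 := T.nc 0 (by omega)
    rw [zero_add] at hnc0
    have hSi : ∀ s ∈ S, cj s (V (τ n) ⊔ V (τ (n + 1))) = V (τ n) ⊔ V (τ (n + 1)) :=
      (loc (τ n)).SV₁ (loc (τ (n + 1)))
    have hinv : ∀ g ∈ L (τ (n + 1)), cj g (V (τ n) ⊔ V (τ (n + 1))) = V (τ n) ⊔ V (τ (n + 1)) := by
      apply ext_words loc hc hw0 hnc0 s1 mv1 le_sup_right hSi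
      rw [cj_sup, (loc (τ (n + 1))).Vn _ s1]
      apply sup_le
      · apply le_of_cm loc hc (x := h 0) (u := h 1) (k := τ 1) (T.step 0 (by omega)) _ s1
        · have e : h n * ((h n)⁻¹ * h (n + 1)) = h (n + 1) := by group
          rw [e]
          exact hcase
        · have := hw 1 m (by omega)
          have e : 1 + m = n := by omega
          rwa [e] at this
      · have := inS loc hc hw0 (τ (n + 1))
        rw [← cj_mul, le_cj_iff, inv_inv]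
        exact this
    -- contradiction
    have hncn := T.nc n (by omega)
    rw [nc_cj loc] at hncn
    apply (loc (τ n)).notInv (loc (τ (n + 1))) (V' := cj ((h n)⁻¹ * h (n + n)) (V (τ (n + n + 1)))) _ s1 _ hncn hinv
    · have h1 : (h (n + 1))⁻¹ * h (n + n) ∈ Wd L m := by
        have := hw (n + 1) m (by omega)
        have e : n + 1 + m = n + n := by omega
        rwa [e] at this
      have h2 := hc.cm h1 (τ (n + 1)) (τ (n + n + 1))
      rw [cjV_eq loc s1, nc_cj loc] at h2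
      exact h2
    · have h1 : (h (n + 1))⁻¹ * h (n + n) ∈ Wd L m := by
        have := hw (n + 1) m (by omega)
        have e : n + 1 + m = n + n := by omega
        rwa [e] at this
      have h2 := hc.cm h1 (τ n) (τ (n + n + 1))
      rw [nc_cj loc] at h2
      rw [nc_cj loc]
      have e : ((h n)⁻¹ * h (n + 1))⁻¹ * ((h n)⁻¹ * h (n + n)) = (h (n + 1))⁻¹ * h (n + n) := by group
      rwa [e]
  · -- the R's agree
    have h1 := crit_R' loc hc (x := h 1) (y := h (n + 1)) (i := τ 1) (j := τ n) (by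
      have := hw 1 n (by omega)
      have e : 1 + n = n + 1 := by omega
      rwa [e] at this) hcase
    have h2 := hcr 1 (by omega)
    have e : 1 + n = n + 1 := by omega
    rw [e, ← h1] at h2
    -- h2 : cj (h (n+1)) ⁅V (τ (n+2)), S⁆ = cj (h (n+1)) ⁅V (τ n), S⁆
    rw [← hD1] at h2
    rw [← h2] at hDC
    exact (loc (τ (n + 2))).R_not_le_C (cj_le_cj.mp hDC)

/-- **No critical pair at distance at least two.** -/
theorem commN_succ {m : ℕ} (hm : 1 ≤ m) (hc : CommN L V m) : CommN L V (m + 1) := by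
  intro w hw i j
  by_contra hnc
  obtain ⟨k, rfl⟩ : ∃ k, m = k + 1 := ⟨m - 1, by omega⟩
  obtain ⟨h, τ, T⟩ := exists_track loc hc (fun w hw i j hnc => dead_words loc hc hw hnc) hw hnc (k + 1 + 3)
  exact live_false loc hm hc T

theorem commN_all (hc : CommN L V 1) : ∀ n, CommN L V n := by
  have : ∀ n, CommN L V (n + 1) := by
    intro n
    induction n with
    | zero => exact hc
    | succ n ih => exact commN_succ loc (by omega) ih
  intro n
  exact (this n).le (Nat.le_succ n)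

end fam

end Cfsg.Agent.H260.GN
end

-- part: H260/GN6
section
/-!
# Glauberman-Niles, part 6: tools for distance one
-/

set_option autoImplicit false
set_option linter.unusedSectionVars false
set_option linter.unusedVariables false
set_option linter.style.haveILetI false

namespace Cfsg.Agent.H260.GN

open Subgroup Push
open scoped commutatorElement

variable {G : Type*} [Group G]

/-- in a `p`-group: `x^m ∈ K`, `m` prime to `p`, gives `x ∈ K`. -/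
theorem mem_of_pow {p m : ℕ} {x : G} {K : Subgroup G} (hm : Nat.Coprime m p) {e : ℕ}
    (hx : x ^ (p ^ e) = 1) (h : x ^ m ∈ K) : x ∈ K := by
  have h1 : Nat.Coprime m (p ^ e) := Nat.Coprime.pow_right e hm
  have h2 := Int.gcd_eq_gcd_ab (m : ℤ) ((p ^ e : ℕ) : ℤ)
  have h3 : ((m : ℤ).gcd ((p ^ e : ℕ) : ℤ) : ℤ) = 1 := by
    rw [Int.gcd_natCast_natCast]
    exact_mod_cast h1
  rw [h3] at h2
  have h4 : x = (x ^ m) ^ (Int.gcdA (m : ℤ) ((p ^ e : ℕ) : ℤ)) := by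
    have h5 : x ^ (1 : ℤ) = x ^ ((m : ℤ) * Int.gcdA (m : ℤ) ((p ^ e : ℕ) : ℤ) +
        ((p ^ e : ℕ) : ℤ) * Int.gcdB (m : ℤ) ((p ^ e : ℕ) : ℤ)) := by rw [← h2]
    rw [zpow_one, zpow_add, zpow_mul, zpow_mul, zpow_natCast, zpow_natCast, hx, one_zpow, mul_one] at h5
    exact h5
  rw [h4]
  exact K.zpow_mem h _

theorem exists_pow_one {p : ℕ} {S : Subgroup G} (hS : IsPGroup p S) {x : G} (hx : x ∈ S) :
    ∃ e, x ^ (p ^ e) = 1 := by
  obtain ⟨e, he⟩ := hS ⟨x, hx⟩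
  exact ⟨e, congrArg Subtype.val he⟩

/-- coprime action. -/
theorem coprime_step {p m : ℕ} {x : G} {A B K : Subgroup G} (hA : IsPGroup p A) (hKB : K ≤ B)
    (hBA : B ≤ A) (hxK : cj x K = K) (hBK : ∀ b ∈ B, cj b K = K)
    (h1 : ∀ a ∈ A, x * a * x⁻¹ * a⁻¹ ∈ B) (h2 : ∀ b ∈ B, x * b * x⁻¹ * b⁻¹ ∈ K) (hm : Nat.Coprime m p)
    (hx : x ^ m = 1) : ∀ a ∈ A, x * a * x⁻¹ * a⁻¹ ∈ K := by
  intro a ha
  set f := x * a * x⁻¹ * a⁻¹ with hf
  have hfB : f ∈ B := h1 a ha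
  have hxk : ∀ k ∈ K, x * k * x⁻¹ ∈ K := by
    intro k hk
    have := conj_mem_cj (g := x) hk
    rwa [hxK] at this
  have hbk : ∀ b ∈ B, ∀ k ∈ K, b * k * b⁻¹ ∈ K := by
    intro b hb k hk
    have := conj_mem_cj (g := b) hk
    rwa [hBK b hb] at this
  have hk1 : x * f * x⁻¹ * f⁻¹ ∈ K := h2 f hfB
  -- `x f^n x⁻¹ f⁻ⁿ ∈ K`
  have h3 : ∀ n : ℕ, x * f ^ n * x⁻¹ * (f ^ n)⁻¹ ∈ K := fun n => h2 _ (B.pow_mem hfB n)
  have h4 : ∀ n : ℕ, x ^ n * a * (x ^ n)⁻¹ * a⁻¹ * (f ^ n)⁻¹ ∈ K := by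
    intro n
    induction n with
    | zero => simp
    | succ n ih =>
      have e : x ^ (n + 1) * a * (x ^ (n + 1))⁻¹ * a⁻¹ * (f ^ (n + 1))⁻¹ =
          (x * (x ^ n * a * (x ^ n)⁻¹ * a⁻¹ * (f ^ n)⁻¹) * x⁻¹) *
            (x * f ^ n * x⁻¹ * (f ^ n)⁻¹) := by
        have e2 : (f ^ (n + 1))⁻¹ = f⁻¹ * (f ^ n)⁻¹ := by rw [pow_succ]; group
        have e3 : f⁻¹ = a * x * a⁻¹ * x⁻¹ := by rw [hf]; group
        rw [e2, e3, pow_succ']
        group
      rw [e]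
      exact K.mul_mem (hxk _ ih) (h3 n)
  have h5 := h4 m
  rw [hx] at h5
  have h6 : (f ^ m)⁻¹ ∈ K := by simpa using h5
  have h7 : f ^ m ∈ K := by
    have := K.inv_mem h6
    rwa [inv_inv] at this
  obtain ⟨e, he⟩ := exists_pow_one hA (hBA hfB)
  exact mem_of_pow hm he h7

/-- the subgroup generated by the `p'`-elements of `N`. -/
def Op (p : ℕ) (N : Subgroup G) : Subgroup G := closure {x | x ∈ N ∧ ∃ m, Nat.Coprime m p ∧ x ^ m = 1}

theorem Op_le {p : ℕ} {N : Subgroup G} : Op p N ≤ N := by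
  unfold Op
  rw [closure_le]
  exact fun x hx => hx.1

theorem Op_cj {p : ℕ} {N : Subgroup G} {g : G} (h : cj g N = N) : cj g (Op p N) = Op p N := by
  have key : ∀ g, cj g N = N → cj g (Op p N) ≤ Op p N := by
    intro g h
    rw [cj_le_iff]
    unfold Op
    rw [closure_le]
    rintro x ⟨hx, m, hm, hxm⟩
    rw [SetLike.mem_coe, mem_cj, inv_inv]
    apply Subgroup.subset_closure
    refine ⟨?_, m, hm, ?_⟩
    · have := conj_mem_cj (g := g) hx
      rwa [h] at this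
    · rw [conj_pow, hxm]; group
  apply le_antisymm (key g h)
  rw [le_cj_iff]
  exact key _ (cj_inv_eq h)

namespace Loc

variable {p q : ℕ} [hp : Fact p.Prime] {S L Q V C M : Subgroup G}
variable (c : Loc p q S L Q V C M)
include c

theorem pgQ : IsPGroup p Q := c.pg.to_le c.QS

/-- `L = S Op(N)` if `L = N Q`. -/
theorem le_S_Op {N : Subgroup G} (hNL : N ≤ L) (hN : ∀ g ∈ L, cj g N = N) (hNQ : N ⊔ Q = L) :
    L ≤ S ⊔ Op p N := by
  apply sylAct c.fin c.idx c.SL le_rfl (Op_le.trans hNL) (fun g hg => Op_cj (hN g hg))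
  intro g hg
  rw [← hNQ] at hg
  obtain ⟨y, hy, t, ht, rfl⟩ := mem_sup_of_norm' (fun k hk => hN k (c.QL hk)) hg
  obtain ⟨e, he⟩ := exists_pow_one c.pgQ ht
  have h1 : ∀ n : ℕ, (y * t) ^ n * (t ^ n)⁻¹ ∈ N := by
    intro n
    induction n with
    | zero => simp
    | succ n ih =>
      have e1 : (y * t) ^ (n + 1) * (t ^ (n + 1))⁻¹ =
          ((y * t) ^ n * (t ^ n)⁻¹) * (t ^ n * y * (t ^ n)⁻¹) := by
        rw [pow_succ, pow_succ]
        group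
      rw [e1]
      apply N.mul_mem ih
      have := conj_mem_cj (g := t ^ n) hy
      rwa [hN _ (L.pow_mem (c.QL ht) n)] at this
  have h2 := h1 (p ^ e)
  rw [he, inv_one, mul_one] at h2
  set w := (y * t) ^ p ^ e with hw
  have hwL : w ∈ L := hNL h2
  haveI := c.fin
  -- the order of w
  have hfin : IsOfFinOrder w := by
    rw [isOfFinOrder_iff_pow_eq_one]
    refine ⟨Nat.card L, Nat.card_pos, ?_⟩
    have : (⟨w, hwL⟩ : L) ^ Nat.card L = 1 := pow_card_eq_one'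
    exact congrArg Subtype.val this
  have hpos := hfin.orderOf_pos
  obtain ⟨a, m, hm, ham⟩ := Nat.exists_eq_pow_mul_and_not_dvd hpos.ne' p hp.out.ne_one
  refine ⟨e + a, ?_⟩
  rw [pow_add, pow_mul, ← hw]
  apply Subgroup.subset_closure
  refine ⟨N.pow_mem h2 _, m, ?_, ?_⟩
  · exact ((Nat.Prime.coprime_iff_not_dvd hp.out).mpr hm).symm
  · rw [← pow_mul, ← ham, pow_orderOf_eq_one]

/-- the elements of `L` trivial on `V/C` have an `m`-th power in `Q`, `m` prime to `p`. -/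
theorem exists_m : ∃ m, Nat.Coprime m p ∧ ∀ k ∈ L, (∀ v ∈ V, k * v * k⁻¹ * v⁻¹ ∈ C) → k ^ m ∈ Q := by
  haveI := c.fin
  haveI := c.finS
  haveI := c.finQ
  set U := tr L V C c.Cn with hU
  have hUL : U ≤ L := fun x hx => hx.1
  haveI : Finite U := fin_le hUL
  have hUn : ∀ g ∈ L, cj g U = U := tr_n c.Vn
  have hQU : Q ≤ U := by
    intro x hx
    refine ⟨c.QL hx, fun v hv => ?_⟩
    rw [← c.VQc v hv x hx]
    have : v * x * x⁻¹ * v⁻¹ = 1 := by group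
    rw [this]
    exact C.one_mem
  have hSU : S ⊓ U = Q := by
    apply le_antisymm
    · rintro x ⟨hx, hxU⟩
      by_contra hxQ
      obtain ⟨v, hv, hvZ⟩ := c.ZneV
      exact hvZ (c.cmc x hx hxQ v hv (hxU.2 v hv))
    · exact le_inf c.QS hQU
  have h1 := card_mul_norm (H := U) (K := S) (fun k hk => hUn k (c.SL hk))
  rw [hSU] at h1
  have hle : S ⊔ U ≤ L := sup_le c.SL hUL
  haveI : Finite (S ⊔ U : Subgroup G) := fin_le hle
  have h2 : Nat.card S * S.relIndex (S ⊔ U) = Nat.card (S ⊔ U : Subgroup G) := card_mul_relIndex le_sup_left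
  have h3 : Nat.card Q * Q.relIndex U = Nat.card U := card_mul_relIndex hQU
  have h4 : S.relIndex (S ⊔ U) = Q.relIndex U := by
    rw [← h2, ← h3] at h1
    have h5 : (Nat.card S * Nat.card Q) * S.relIndex (S ⊔ U) = (Nat.card S * Nat.card Q) * Q.relIndex U := by
      calc _ = Nat.card S * S.relIndex (S ⊔ U) * Nat.card Q := by ring
        _ = _ := h1
        _ = _ := by ring
    exact Nat.eq_of_mul_eq_mul_left (Nat.mul_pos Nat.card_pos Nat.card_pos) h5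
  refine ⟨Q.relIndex U, ?_, ?_⟩
  · apply Nat.Coprime.symm
    rw [Nat.Prime.coprime_iff_not_dvd hp.out, ← h4]
    intro h
    apply c.idx
    rw [← relIndex_mul_relIndex S (S ⊔ U) L le_sup_left hle]
    exact h.mul_right _
  · intro k hk hkV
    have hkU : k ∈ U := ⟨hk, hkV⟩
    have hn : (Q.subgroupOf U).Normal := by
      constructor
      intro x hx g
      rw [mem_subgroupOf] at hx ⊢
      have := conj_mem_cj (g := (g : G)) hx
      rwa [c.Qn g (hUL g.2)] at this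
    have := Subgroup.pow_index_mem (Q.subgroupOf U) ⟨k, hkU⟩
    rw [mem_subgroupOf] at this
    exact this

/-- **Lemma triv**. -/
theorem triv {k x : G} (hk : k ∈ L) (hkV : ∀ v ∈ V, k * v * k⁻¹ * v⁻¹ ∈ C)
    (h1 : k * x * k⁻¹ * x⁻¹ ∈ V) (h2 : ∀ s ∈ Q, s * x * s⁻¹ * x⁻¹ ∈ V → s * x * s⁻¹ * x⁻¹ ∈ C) :
    k * x * k⁻¹ * x⁻¹ ∈ C := by
  obtain ⟨m, hm, hmk⟩ := c.exists_m
  set v := k * x * k⁻¹ * x⁻¹ with hv
  have h3 : ∀ n : ℕ, k ^ n * x * (k ^ n)⁻¹ * x⁻¹ * (v ^ n)⁻¹ ∈ C := by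
    intro n
    induction n with
    | zero => simp
    | succ n ih =>
      have e2 : (v ^ (n + 1))⁻¹ = v⁻¹ * (v ^ n)⁻¹ := by rw [pow_succ]; group
      have e3 : v⁻¹ = x * k * x⁻¹ * k⁻¹ := by rw [hv]; group
      have e : k ^ (n + 1) * x * (k ^ (n + 1))⁻¹ * x⁻¹ * (v ^ (n + 1))⁻¹ =
          (k * (k ^ n * x * (k ^ n)⁻¹ * x⁻¹ * (v ^ n)⁻¹) * k⁻¹) * (k * v ^ n * k⁻¹ * (v ^ n)⁻¹) := by
        rw [e2, e3, pow_succ']
        group
      rw [e]
      apply C.mul_mem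
      · exact c.cj_mem hk c.Cn ih
      · exact hkV _ (V.pow_mem h1 n)
  have h4 := h3 m
  have h5 : k ^ m * x * (k ^ m)⁻¹ * x⁻¹ ∈ V := by
    have e : k ^ m * x * (k ^ m)⁻¹ * x⁻¹ = (k ^ m * x * (k ^ m)⁻¹ * x⁻¹ * (v ^ m)⁻¹) * v ^ m := by group
    rw [e]
    exact V.mul_mem (c.CV h4) (V.pow_mem h1 m)
  have h6 := h2 _ (hmk k hk hkV) h5
  have h7 : v ^ m ∈ C := by
    have e : v ^ m = (k ^ m * x * (k ^ m)⁻¹ * x⁻¹ * (v ^ m)⁻¹)⁻¹ * (k ^ m * x * (k ^ m)⁻¹ * x⁻¹) := by group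
    rw [e]
    exact C.mul_mem (C.inv_mem h4) h6
  apply mem_of_pow (e := 1) hm _ h7
  rw [pow_one]
  exact c.elV v h1

theorem cm_inv' {v s : G} (hv : v ∈ V) (hs : s ∈ S) : cm v⁻¹ s = (cm v s)⁻¹ := by
  have h9 := c.cm_mul' (V.inv_mem hv) hv hs
  rw [inv_mul_cancel] at h9
  have h10 : cm 1 s = 1 := by simp [cm]
  rw [h10] at h9
  exact eq_inv_of_mul_eq_one_left h9.symm

/-- **Swap**: `n = xyx` interchanges `Z` and `Z^g` and `n²` inverts `V/C`. -/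
theorem swap {V' : Subgroup G} (hV' : V' ⊔ Q = S) {g : G} (hg : g ∈ L) (hgM : g ∉ M) {x : G}
    (hx : x ∈ S) (hxQ : x ∉ Q) :
    ∃ y ∈ cj g V', cj (x * y * x) (cen S) = cj g (cen S) ∧ cj (x * y * x) (cj g (cen S)) = cen S ∧
      ∀ v ∈ V, (x * y * x) ^ 2 * v * ((x * y * x) ^ 2)⁻¹ * v ∈ C := by
  have hxL := c.SL hx
  -- a noncentral element of `Z^g`
  obtain ⟨z', hz', hz'C⟩ := SetLike.not_le_iff_exists.mp c.Z_ne_C
  set w₀ := g * z' * g⁻¹ with hw₀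
  have hw₀g : w₀ ∈ cj g (cen S) := conj_mem_cj hz'
  have hw₀C : w₀ ∉ C := by
    intro h
    apply hz'C
    have := c.cj_mem (L.inv_mem hg) c.Cn h
    rw [hw₀] at this
    have e : g⁻¹ * (g * z' * g⁻¹) * g⁻¹⁻¹ = z' := by group
    rwa [e] at this
  have hw₀V : w₀ ∈ V := c.cjZV hg hw₀g
  have hw₀Z : w₀ ∉ cen S := fun h => hw₀C (c.two' hg hgM h hw₀g)
  set z₀ := cm w₀ x with hz₀
  have hz₀Z : z₀ ∈ cen S := c.quad w₀ hw₀V x hx
  have hz₀C : z₀ ∉ C := fun h => hw₀Z (c.cmc x hx hxQ w₀ hw₀V h)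
  have hz₀g : z₀ ∉ cj g (cen S) := fun h => hz₀C (c.two' hg hgM hz₀Z h)
  have cg := c.cj' g
  obtain ⟨s, hs, d, hd, hsd⟩ := cg.surj (v := z₀) (z := w₀⁻¹) (by rw [c.Vn g hg]; exact c.ZV hz₀Z)
    (by rw [← cj_cen]; exact hz₀g) (by rw [← cj_cen]; exact inv_mem hw₀g)
  rw [c.Cn g hg] at hd
  have hs' : s ∈ cj g V' ⊔ Q := by
    rw [← hV', cj_sup, c.Qn g hg] at hs
    exact hs
  have hV'S : V' ≤ S := by rw [← hV']; exact le_sup_left
  obtain ⟨y, hy, t, ht, rfl⟩ := mem_sup_of_norm (fun k hk => by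
    have hkL : k ∈ L := by
      have := cj_mono (g := g) (hV'S.trans c.SL) hk
      rwa [cj_of_mem hg] at this
    exact c.Qn k hkL) hs'
  have hyS : y ∈ cj g S := cj_mono hV'S hy
  have hyL : y ∈ L := by
    have := cj_mono (g := g) c.SL hyS
    rwa [cj_of_mem hg] at this
  have htz : cm z₀ (y * t) = cm z₀ y := by
    unfold cm
    have h1 : t * z₀ = z₀ * t := (c.VQc z₀ (c.ZV hz₀Z) t ht).symm
    calc y * t * z₀ * (y * t)⁻¹ * z₀⁻¹ = y * (t * z₀) * t⁻¹ * y⁻¹ * z₀⁻¹ := by group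
      _ = y * (z₀ * t) * t⁻¹ * y⁻¹ * z₀⁻¹ := by rw [h1]
      _ = y * z₀ * y⁻¹ * z₀⁻¹ := by group
  rw [htz] at hsd
  set n := x * y * x with hn
  have hnL : n ∈ L := L.mul_mem (L.mul_mem hxL hyL) hxL
  have hab : ∀ a ∈ V, ∀ b ∈ V, a * b = b * a := c.Vab
  -- basic action
  have ax : ∀ v ∈ V, x * v * x⁻¹ = cm v x * v := by intro v hv; unfold cm; group
  have ay : ∀ v : G, y * v * y⁻¹ = cm v y * v := by intro v; unfold cm; group
  have axZ : ∀ z ∈ cen S, x * z * x⁻¹ = z := by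
    intro z hz
    rw [cen_comm hz hx]; group
  have ayZ : ∀ z ∈ cj g (cen S), y * z * y⁻¹ = z := by
    intro z hz
    rw [cj_cen] at hz
    rw [cen_comm hz hyS]; group
  have hcmy : ∀ v ∈ V, cm v y ∈ cj g (cen S) := by
    intro v hv
    rw [cj_cen]
    exact cg.quad v (by rw [c.Vn g hg]; exact hv) y hyS
  have aC : ∀ γ ∈ C, ∀ k ∈ L, k * γ * k⁻¹ = γ := by
    intro γ hγ k hk
    rw [← c.CL γ hγ k hk]; group
  have nconj : ∀ v, n * v * n⁻¹ = x * (y * (x * v * x⁻¹) * y⁻¹) * x⁻¹ := by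
    intro v; rw [hn]; group
  have cmul : ∀ (k a b : G), k * (a * b) * k⁻¹ = (k * a * k⁻¹) * (k * b * k⁻¹) := by
    intro k a b; group
  -- n w₀ n⁻¹ = z₀ d⁻¹
  have hyz₀ : y * z₀ * y⁻¹ = w₀⁻¹ * d⁻¹ * z₀ := by
    rw [ay z₀]
    have : cm z₀ y = w₀⁻¹ * d⁻¹ := by rw [← hsd]; group
    rw [this]
  have hdV : d ∈ V := c.CV hd
  have e1 : n * w₀ * n⁻¹ = z₀ * d⁻¹ := by
    rw [nconj, ax w₀ hw₀V, cmul y, ayZ w₀ hw₀g, ← hz₀, hyz₀]
    have e2 : w₀⁻¹ * d⁻¹ * z₀ * w₀ = z₀ * d⁻¹ := by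
      have h1 : z₀ * w₀ = w₀ * z₀ := hab _ (c.ZV hz₀Z) _ hw₀V
      have h2 : d⁻¹ * w₀ = w₀ * d⁻¹ := hab _ (V.inv_mem hdV) _ hw₀V
      have h3 : d⁻¹ * z₀ = z₀ * d⁻¹ := hab _ (V.inv_mem hdV) _ (c.ZV hz₀Z)
      calc w₀⁻¹ * d⁻¹ * z₀ * w₀ = w₀⁻¹ * d⁻¹ * (z₀ * w₀) := by group
        _ = w₀⁻¹ * (d⁻¹ * w₀) * z₀ := by rw [h1]; group
        _ = d⁻¹ * z₀ := by rw [h2]; group
        _ = _ := h3
    rw [e2, axZ]
    exact mul_mem hz₀Z (c.CZ (inv_mem hd))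
  have e2 : n * z₀ * n⁻¹ = w₀⁻¹ * d⁻¹ := by
    rw [nconj, axZ z₀ hz₀Z, hyz₀, cmul x, cmul x, axZ z₀ hz₀Z, aC _ (C.inv_mem hd) x hxL]
    have h1 : x * w₀⁻¹ * x⁻¹ = w₀⁻¹ * z₀⁻¹ := by
      have : x * w₀⁻¹ * x⁻¹ = (x * w₀ * x⁻¹)⁻¹ := by group
      rw [this, ax w₀ hw₀V, mul_inv_rev]
    rw [h1]
    have h3 : d⁻¹ * z₀ = z₀ * d⁻¹ := hab _ (V.inv_mem hdV) _ (c.ZV hz₀Z)
    calc w₀⁻¹ * z₀⁻¹ * d⁻¹ * z₀ = w₀⁻¹ * z₀⁻¹ * (d⁻¹ * z₀) := by group
      _ = _ := by rw [h3]; group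
  have hngM : n * g ∈ M := by
    by_contra hcon
    have h1 : z₀ * d⁻¹ ∈ C := by
      apply c.two' (L.mul_mem hnL hg) hcon (mul_mem hz₀Z (c.CZ (inv_mem hd)))
      rw [← e1, ← cj_mul]
      exact conj_mem_cj hw₀g
    apply hz₀C
    have := C.mul_mem h1 hd
    rwa [inv_mul_cancel_right] at this
  have k2 : cj n (cj g (cen S)) = cen S := by rw [cj_mul]; exact c.MZ _ hngM
  have hngM' : n⁻¹ * g ∈ M := by
    by_contra hcon
    have h1 : w₀⁻¹ * d⁻¹ ∈ C := by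
      apply c.two hnL hg hcon
      · rw [← e2]
        exact conj_mem_cj hz₀Z
      · exact mul_mem (inv_mem hw₀g) (c.C_cj hg (inv_mem hd))
    apply hw₀C
    have := C.inv_mem (C.mul_mem h1 hd)
    rw [inv_mul_cancel_right, inv_inv] at this
    exact this
  have k1 : cj n (cen S) = cj g (cen S) := by
    have := c.MZ _ hngM'
    rw [← cj_mul, cj_eq_iff, inv_inv] at this
    exact this.symm
  -- action on Z^g: n w n⁻¹ = cm w x * γ with γ ∈ C and n (cm w x) n⁻¹ = γ w⁻¹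
  have hA : ∀ w ∈ cj g (cen S), ∃ γ ∈ C, n * w * n⁻¹ = cm w x * γ ∧
      n * cm w x * n⁻¹ = γ * w⁻¹ := by
    intro w hw
    have hwV := c.cjZV hg hw
    set α := cm w x with hα
    have hαZ : α ∈ cen S := c.quad w hwV x hx
    set β := cm α y with hβ
    have hβg : β ∈ cj g (cen S) := hcmy α (c.ZV hαZ)
    have hβV := c.cjZV hg hβg
    set β' := cm β x with hβ'
    have hβ'Z : β' ∈ cen S := c.quad β hβV x hx
    have hαV := c.ZV hαZ
    have hβ'V := c.ZV hβ'Z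
    have e3 : n * w * n⁻¹ = β' * (β * w) * (α * α) := by
      rw [nconj, ax w hwV, cmul y, ayZ w hw, ay α, cmul x, cmul x, ax w hwV, axZ α hαZ, ax β hβV]
      have h1 : β * α = α * β := hab _ hβV _ hαV
      have h2 : w * (α * α) = (α * α) * w := hab _ hwV _ (V.mul_mem hαV hαV)
      calc β' * β * α * (α * w) = β' * β * ((α * α) * w) := by group
        _ = β' * β * (w * (α * α)) := by rw [h2]
        _ = _ := by group
    have h4 : n * w * n⁻¹ ∈ cen S := by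
      rw [← k2]
      exact conj_mem_cj hw
    have h5 : β * w ∈ C := by
      apply c.two' hg hgM _ (mul_mem hβg hw)
      have : β * w = β'⁻¹ * (n * w * n⁻¹) * (α * α)⁻¹ := by rw [e3]; group
      rw [this]
      exact mul_mem (mul_mem (inv_mem hβ'Z) h4) (inv_mem (mul_mem hαZ hαZ))
    set γ := β * w with hγ
    have hβe : β = γ * w⁻¹ := by rw [hγ]; group
    have hβ'e : β' = α⁻¹ := by
      rw [hβ', hβe, c.cm_mul' (c.CV h5) (V.inv_mem hwV) hx, c.cm_inv' hwV hx]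
      have : cm γ x = 1 := by
        unfold cm
        rw [aC γ h5 x hxL]; group
      rw [this, one_mul]
    have hγV := c.CV h5
    refine ⟨γ, h5, ?_, ?_⟩
    · rw [e3, hβ'e]
      have h6 : γ * (α * α) = (α * α) * γ := hab _ hγV _ (V.mul_mem hαV hαV)
      rw [mul_assoc, h6]
      group
    · rw [nconj, axZ α hαZ, ay α, cmul x, axZ α hαZ, ax β hβV, ← hβ', hβ'e]
      have h6 : β * α = α * β := hab _ hβV _ hαV
      calc α⁻¹ * β * α = α⁻¹ * (β * α) := by group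
        _ = β := by rw [h6]; group
        _ = _ := hβe
  have nsq : ∀ v, n ^ 2 * v * (n ^ 2)⁻¹ = n * (n * v * n⁻¹) * n⁻¹ := by
    intro v; rw [pow_two]; group
  have hinv1 : ∀ w ∈ cj g (cen S), n ^ 2 * w * (n ^ 2)⁻¹ * w ∈ C := by
    intro w hw
    obtain ⟨γ, hγ, h1, h2⟩ := hA w hw
    rw [nsq, h1, cmul n, h2, aC γ hγ n hnL]
    have h3 : w⁻¹ * γ = γ * w⁻¹ := hab _ (V.inv_mem (c.cjZV hg hw)) _ (c.CV hγ)
    have : γ * w⁻¹ * γ * w = γ * γ := by
      calc γ * w⁻¹ * γ * w = γ * (w⁻¹ * γ) * w := by group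
        _ = _ := by rw [h3]; group
    rw [this]
    exact C.mul_mem hγ hγ
  have hinv2 : ∀ z ∈ cen S, n ^ 2 * z * (n ^ 2)⁻¹ * z ∈ C := by
    intro z hz
    have hzV := c.ZV hz
    set δ := cm z y with hδ
    have hδg : δ ∈ cj g (cen S) := hcmy z hzV
    have hδV := c.cjZV hg hδg
    set δ' := cm δ x with hδ'
    have hδ'Z : δ' ∈ cen S := c.quad δ hδV x hx
    have hδ'V := c.ZV hδ'Z
    have e3 : n * z * n⁻¹ = (δ' * z) * δ := by
      rw [nconj, axZ z hz, ay z, cmul x, axZ z hz, ax δ hδV]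
      have h1 : δ * z = z * δ := hab _ hδV _ hzV
      rw [← hδ', mul_assoc, h1]
      group
    have h4 : n * z * n⁻¹ ∈ cj g (cen S) := by
      rw [← k1]
      exact conj_mem_cj hz
    have h5 : δ' * z ∈ C := by
      apply c.two' hg hgM (mul_mem hδ'Z hz)
      have : δ' * z = (n * z * n⁻¹) * δ⁻¹ := by rw [e3]; group
      rw [this]
      exact mul_mem h4 (inv_mem hδg)
    obtain ⟨γ, hγ, h1, h2⟩ := hA δ hδg
    rw [nsq, e3, cmul n, aC _ h5 n hnL, h1, ← hδ']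
    have h6 : γ * z = z * γ := hab _ (c.CV hγ) _ hzV
    have : δ' * z * (δ' * γ) * z = (δ' * z) * (δ' * z) * γ := by
      calc δ' * z * (δ' * γ) * z = δ' * z * δ' * (γ * z) := by group
        _ = _ := by rw [h6]; group
    rw [this]
    exact C.mul_mem (C.mul_mem h5 h5) hγ
  refine ⟨y, hy, k1, k2, ?_⟩
  intro v hv
  obtain ⟨z, hz, w, hw, rfl⟩ := c.dec hg hgM hv
  have h1 := hinv2 z hz
  have h2 := hinv1 w hw
  have hn2 : n ^ 2 ∈ L := L.pow_mem hnL 2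
  have h3 : (n ^ 2 * w * (n ^ 2)⁻¹) * z = z * (n ^ 2 * w * (n ^ 2)⁻¹) :=
    hab _ (c.cjV_mem hn2 (c.cjZV hg hw)) _ (c.ZV hz)
  have e : n ^ 2 * (z * w) * (n ^ 2)⁻¹ * (z * w) =
      (n ^ 2 * z * (n ^ 2)⁻¹ * z) * (n ^ 2 * w * (n ^ 2)⁻¹ * w) := by
    calc n ^ 2 * (z * w) * (n ^ 2)⁻¹ * (z * w) =
        (n ^ 2 * z * (n ^ 2)⁻¹) * ((n ^ 2 * w * (n ^ 2)⁻¹) * z) * w := by group
      _ = (n ^ 2 * z * (n ^ 2)⁻¹) * (z * (n ^ 2 * w * (n ^ 2)⁻¹)) * w := by rw [h3]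
      _ = _ := by group
  rw [e]
  exact C.mul_mem h1 h2

end Loc

end Cfsg.Agent.H260.GN
end

-- part: H260/GN7
section
/-!
# Glauberman-Niles, part 7: dead ends at distance one
-/

set_option autoImplicit false
set_option linter.unusedSectionVars false
set_option linter.unusedVariables false
set_option linter.style.haveILetI false

namespace Cfsg.Agent.H260.GN

open Subgroup Push
open scoped commutatorElement

variable {G : Type*} [Group G]

/-- a critical pair at distance one whose first end is dead. -/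
structure DP (p q q₁ q' : ℕ)
    (E S L Q V C M L₁ Q₁ V₁ C₁ M₁ S' L' Q' V' C' M' : Subgroup G) : Prop where
  c : Loc p q S L Q V C M
  c₁ : Loc p q₁ S L₁ Q₁ V₁ C₁ M₁
  c' : Loc p q' S' L' Q' V' C' M'
  hE : ∀ g ∈ L, cj g E = E
  ES : E ≤ S
  VE : V ≤ E
  V₁E : V₁ ≤ E
  Eab : Cm E E
  Eq : ∀ e ∈ E, ∀ s ∈ S, cm e s ∈ cen S
  ES' : E ≤ S'
  V'S : V' ≤ S
  nc : ¬ Cm V V'
  h1' : Cm V₁ V'
  Q₁S' : Q₁ ≤ S'
  Z'V₁ : cen S' ≤ V₁
  R₁ : ⁅V, S⁆ ≤ C₁

namespace DP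

variable {p q q₁ q' : ℕ} [hp : Fact p.Prime]
variable {E S L Q V C M L₁ Q₁ V₁ C₁ M₁ S' L' Q' V' C' M' : Subgroup G}
variable (d : DP p q q₁ q' E S L Q V C M L₁ Q₁ V₁ C₁ M₁ S' L' Q' V' C' M')
include d

theorem VS' : V ≤ S' := d.VE.trans d.ES'

theorem h01 : Cm V V₁ := d.Eab.mono d.VE d.V₁E

theorem VQ₁ : V ≤ Q₁ := d.c₁.le_Q d.c.VS d.h01.symm

theorem EQ₁ : E ≤ Q₁ := d.c₁.le_Q d.ES (d.Eab.mono d.V₁E le_rfl)

theorem V'Q₁ : V' ≤ Q₁ := d.c₁.le_Q d.V'S d.h1'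

theorem V₁Q' : V₁ ≤ Q' := d.c'.le_Q (d.V₁E.trans d.ES') d.h1'.symm

theorem ZQ' : cen S ≤ Q' := d.c₁.ZV.trans d.V₁Q'

theorem hS : V' ⊔ Q = S := d.c.crit_S d.c' d.VS' d.V'S d.nc

theorem hS' : V ⊔ Q' = S' := (d.c.crit d.c' d.VS' d.V'S d.nc).2.2.1

theorem hR : ⁅V', S'⁆ = ⁅V, S⁆ := d.c.crit_R d.c' d.VS' d.V'S d.nc

theorem cen' {z : G} (hz : z ∈ cen S) {s : G} (hs : s ∈ S) : s * z = z * s := cen_comm hz hs

/-- `F = C_Q(E)`. -/
theorem F_inv : ∀ g ∈ L, cj g (Q ⊓ centralizer (E : Set G)) = Q ⊓ centralizer (E : Set G) := by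
  intro g hg
  rw [cj_inf, d.c.Qn g hg, cj_centralizer, d.hE g hg]

theorem F_le : Q ⊓ centralizer (E : Set G) ≤ Q₁ := by
  apply d.c₁.le_Q (inf_le_left.trans d.c.QS)
  rintro y hy x ⟨-, hx⟩
  exact mem_centralizer_iff.mp hx y (d.V₁E hy)

theorem V_le_F : V ≤ Q ⊓ centralizer (E : Set G) := by
  apply le_inf d.c.VQ
  rw [← cm_iff_le]
  exact d.Eab.mono d.VE le_rfl

/-- commutators of elements of `S` centralise `E`. -/
theorem comm_cent {s t : G} (hs : s ∈ S) (ht : t ∈ S) : s * t * s⁻¹ * t⁻¹ ∈ centralizer (E : Set G) := by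
  rw [mem_centralizer_iff]
  intro e he
  have h1 := d.Eq e he s hs
  have h2 := d.Eq e he t ht
  set z := cm e s with hz
  set w := cm e t with hw
  have e1 : s * e = z * e * s := by rw [hz]; unfold cm; group
  have e2 : t * e = w * e * t := by rw [hw]; unfold cm; group
  have f1 : s * z = z * s := d.cen' h1 hs
  have f2 : s * w = w * s := d.cen' h2 hs
  have f3 : t * z = z * t := d.cen' h1 ht
  have f4 : t * w = w * t := d.cen' h2 ht
  have f5 : z * w = w * z := d.cen' h2 (d.c.ZS h1)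
  have g1 : (s * t) * e = z * w * e * (s * t) := by
    calc (s * t) * e = s * (t * e) := by group
      _ = s * (w * e * t) := by rw [e2]
      _ = (s * w) * e * t := by group
      _ = w * (s * e) * t := by rw [f2]; group
      _ = w * (z * e * s) * t := by rw [e1]
      _ = (w * z) * e * (s * t) := by group
      _ = _ := by rw [← f5]
  have g2 : (t * s) * e = z * w * e * (t * s) := by
    calc (t * s) * e = t * (s * e) := by group
      _ = t * (z * e * s) := by rw [e1]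
      _ = (t * z) * e * s := by group
      _ = z * (t * e) * s := by rw [f3]; group
      _ = z * (w * e * t) * s := by rw [e2]
      _ = _ := by group
  have g3 : (z * w)⁻¹ * (t * s) = (t * s) * (z * w)⁻¹ := by
    have h5 : (t * s) * (z * w) = (z * w) * (t * s) := by
      calc (t * s) * (z * w) = t * (s * z) * w := by group
        _ = (t * z) * (s * w) := by rw [f1]; group
        _ = z * (t * w) * s := by rw [f3, f2]; group
        _ = _ := by rw [f4]; group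
    rw [eq_mul_inv_iff_mul_eq, mul_assoc, h5, inv_mul_cancel_left]
  -- (ts)⁻¹ e = (z w)⁻¹ e (ts)⁻¹
  have g4 : (t * s)⁻¹ * e = (z * w)⁻¹ * e * (t * s)⁻¹ := by
    rw [inv_mul_eq_iff_eq_mul]
    calc e = (z * w)⁻¹ * (z * w * e * (t * s)) * (t * s)⁻¹ := by group
      _ = (z * w)⁻¹ * ((t * s) * e) * (t * s)⁻¹ := by rw [g2]
      _ = ((z * w)⁻¹ * (t * s)) * e * (t * s)⁻¹ := by group
      _ = _ := by rw [g3]; group
  have g5 : (s * t) * (z * w)⁻¹ = (z * w)⁻¹ * (s * t) := by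
    have h5 : (s * t) * (z * w) = (z * w) * (s * t) := by
      calc (s * t) * (z * w) = s * (t * z) * w := by group
        _ = (s * z) * (t * w) := by rw [f3]; group
        _ = z * (s * w) * t := by rw [f1, f4]; group
        _ = _ := by rw [f2]; group
    rw [mul_inv_eq_iff_eq_mul, mul_assoc, h5, inv_mul_cancel_left]
  symm
  have ee : s * t * s⁻¹ * t⁻¹ = (s * t) * (t * s)⁻¹ := by group
  rw [ee]
  calc (s * t) * (t * s)⁻¹ * e = (s * t) * ((t * s)⁻¹ * e) := by group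
    _ = ((s * t) * (z * w)⁻¹) * e * (t * s)⁻¹ := by rw [g4]; group
    _ = (z * w)⁻¹ * ((s * t) * e) * (t * s)⁻¹ := by rw [g5]; group
    _ = e * ((s * t) * (t * s)⁻¹) := by rw [g1]; group

theorem N_le : cl L V' ≤ L := by
  apply cl_le
  intro l hl
  have := cj_mono (g := l) (d.V'S.trans d.c.SL)
  rwa [cj_of_mem hl] at this

theorem NQ : cl L V' ⊔ Q = L := by
  apply le_antisymm (sup_le d.N_le d.c.QL)
  obtain ⟨g, hg, hgM⟩ := d.c.ex
  have h := d.c.gen g hg hgM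
  refine h.ge.trans ?_
  apply sup_le
  · exact d.hS.ge.trans (sup_le_sup_right le_cl' Q)
  · have : cj g S = cj g V' ⊔ Q := by
      rw [← d.hS, cj_sup, d.c.Qn g hg]
    rw [this]
    exact sup_le_sup_right (le_cl hg) Q

/-- `N` acts trivially on `Q/F` and `F/V`. -/
theorem N_tr : (∀ x ∈ cl L V', ∀ t ∈ Q, x * t * x⁻¹ * t⁻¹ ∈ Q ⊓ centralizer (E : Set G)) ∧
    ∀ x ∈ cl L V', ∀ t ∈ Q ⊓ centralizer (E : Set G), x * t * x⁻¹ * t⁻¹ ∈ V := by
  have k1 : V' ≤ tr L Q (Q ⊓ centralizer (E : Set G)) d.F_inv := by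
    intro b hb
    have hbL := d.c.SL (d.V'S hb)
    refine ⟨hbL, fun t ht => ⟨?_, d.comm_cent (d.V'S hb) (d.c.QS ht)⟩⟩
    exact Q.mul_mem (d.c.cj_mem hbL d.c.Qn ht) (Q.inv_mem ht)
  have k2 : V' ≤ tr L (Q ⊓ centralizer (E : Set G)) V d.c.Vn := by
    intro b hb
    have hbL := d.c.SL (d.V'S hb)
    refine ⟨hbL, fun t ht => ?_⟩
    apply d.c.ZV
    apply d.c.VS_le
    rw [← d.hR, ← commutatorElement_def]
    exact commutator_mem_commutator hb (d.Q₁S' (d.F_le ht))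
  have m1 : cl L V' ≤ tr L Q (Q ⊓ centralizer (E : Set G)) d.F_inv := by
    apply cl_le
    intro l hl
    have := cj_mono (g := l) k1
    rwa [tr_n d.c.Qn l hl] at this
  have m2 : cl L V' ≤ tr L (Q ⊓ centralizer (E : Set G)) V d.c.Vn := by
    apply cl_le
    intro l hl
    have := cj_mono (g := l) k2
    rwa [tr_n d.F_inv l hl] at this
  exact ⟨fun x hx => (m1 hx).2, fun x hx => (m2 hx).2⟩

/-- `p'`-elements of `N` act trivially on `Q/V`. -/
theorem N_tr' {x : G} (hx : x ∈ cl L V') {m : ℕ} (hm : Nat.Coprime m p) (hxm : x ^ m = 1) :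
    ∀ t ∈ Q, x * t * x⁻¹ * t⁻¹ ∈ V := by
  obtain ⟨h1, h2⟩ := d.N_tr
  apply coprime_step d.c.pgQ d.V_le_F inf_le_left (d.c.Vn x (d.N_le hx))
    (fun b hb => d.c.Vn b (d.c.QL hb.1)) (h1 x hx) (h2 x hx) hm hxm

/-- `Φ(Q)` is centralised by the `p'`-elements of `N`. -/
theorem phi_cent {x : G} (hx : x ∈ cl L V') {m : ℕ} (hm : Nat.Coprime m p) (hxm : x ^ m = 1) :
    ∀ y ∈ phi p Q, y * x = x * y := by
  have h0 := d.N_tr' hx hm hxm
  have h1 : phi p Q ≤ centralizer ({x} : Set G) := by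
    unfold phi
    rw [closure_le]
    have hcj : ∀ s ∈ Q, ∃ v ∈ V, x * s * x⁻¹ = v * s := by
      intro s hs
      exact ⟨_, h0 s hs, by group⟩
    rintro _ (⟨s, hs, t, ht, rfl⟩ | ⟨s, hs, rfl⟩)
    · rw [SetLike.mem_coe, mem_centralizer_singleton_iff]
      obtain ⟨v, hv, hvs⟩ := hcj s hs
      obtain ⟨w, hw, hwt⟩ := hcj t ht
      have e1 : x * ⁅s, t⁆ * x⁻¹ = ⁅x * s * x⁻¹, x * t * x⁻¹⁆ := by
        rw [commutatorElement_def, commutatorElement_def]; group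
      have f1 : s * v = v * s := (d.c.VQc v hv s hs).symm
      have f2 : s * w = w * s := (d.c.VQc w hw s hs).symm
      have f3 : t * v = v * t := (d.c.VQc v hv t ht).symm
      have f4 : t * w = w * t := (d.c.VQc w hw t ht).symm
      have f5 : v * w = w * v := d.c.Vab v hv w hw
      have e2 : ⁅v * s, w * t⁆ = ⁅s, t⁆ := by
        rw [commutatorElement_def, commutatorElement_def]
        have g1 : v * s * (w * t) = (v * w) * (s * t) := by
          calc v * s * (w * t) = v * (s * w) * t := by group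
            _ = _ := by rw [f2]; group
        have g2 : (w * t) * (v * s) = (v * w) * (t * s) := by
          calc (w * t) * (v * s) = w * (t * v) * s := by group
            _ = (w * v) * (t * s) := by rw [f3]; group
            _ = _ := by rw [← f5]
        calc v * s * (w * t) * (v * s)⁻¹ * (w * t)⁻¹ = (v * s * (w * t)) * ((w * t) * (v * s))⁻¹ := by group
          _ = (v * w) * (s * t) * ((v * w) * (t * s))⁻¹ := by rw [g1, g2]
          _ = (v * w) * (s * t * s⁻¹ * t⁻¹) * (v * w)⁻¹ := by group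
          _ = s * t * s⁻¹ * t⁻¹ := by
            have h3 : (v * w) * (s * t * s⁻¹ * t⁻¹) = (s * t * s⁻¹ * t⁻¹) * (v * w) := by
              apply d.c.VQc _ (V.mul_mem hv hw)
              exact Q.mul_mem (Q.mul_mem (Q.mul_mem hs ht) (Q.inv_mem hs)) (Q.inv_mem ht)
            rw [h3]; group
      rw [hvs, hwt, e2] at e1
      calc ⁅s, t⁆ * x = (x * ⁅s, t⁆ * x⁻¹) * x := by rw [e1]
        _ = x * ⁅s, t⁆ := by group
    · rw [SetLike.mem_coe, mem_centralizer_singleton_iff]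
      obtain ⟨v, hv, hvs⟩ := hcj s hs
      have f1 : Commute v s := d.c.VQc v hv s hs
      have e1 : x * s ^ p * x⁻¹ = s ^ p := by
        rw [← conj_pow, hvs, f1.mul_pow, d.c.elV v hv, one_mul]
      calc s ^ p * x = (x * s ^ p * x⁻¹) * x := by rw [e1]
        _ = x * s ^ p := by group
  intro y hy
  exact mem_centralizer_singleton_iff.mp (h1 hy)

theorem phi_Z : phi p Q ⊓ cen S ≤ C := by
  rintro y ⟨hy, hyZ⟩
  have h1 := d.c.le_S_Op d.N_le cl_inv d.NQ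
  apply d.c.mem_C hyZ
  intro g hg
  have h2 : S ⊔ Op p (cl L V') ≤ centralizer ({y} : Set G) := by
    apply sup_le
    · intro s hs
      rw [mem_centralizer_singleton_iff]
      exact d.cen' hyZ hs
    · unfold Op
      rw [closure_le]
      rintro x ⟨hx, m, hm, hxm⟩
      rw [SetLike.mem_coe, mem_centralizer_singleton_iff]
      exact (d.phi_cent hx hm hxm y hy).symm
  exact mem_centralizer_singleton_iff.mp (h2 (h1 hg))

theorem phi_inv : ∀ g ∈ L, cj g (phi p Q) = phi p Q := by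
  intro g hg
  rw [phi_cj, d.c.Qn g hg]

theorem exists_b : ∃ b ∈ V', b ∉ Q := by
  by_contra h
  push Not at h
  exact d.nc (d.c.VQc.mono le_rfl h)

theorem phi_V : phi p Q ⊓ V ≤ C := by
  rintro y ⟨hy, hyV⟩
  obtain ⟨b, hb, hbQ⟩ := d.exists_b
  have hbS := d.V'S hb
  have h1 : cm y b ∈ C := by
    apply d.phi_Z
    refine ⟨?_, d.c.quad y hyV b hbS⟩
    unfold cm
    exact (phi p Q).mul_mem (d.c.cj_mem (d.c.SL hbS) d.phi_inv hy) ((phi p Q).inv_mem hy)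
  exact d.phi_Z ⟨hy, d.c.cmc b hbS hbQ y hyV h1⟩

/-- the claim on `[t,b]`. -/
theorem claim_aux {t b : G} (ht : t ∈ Q) (hb : b ∈ V') (hbQ : b ∉ Q)
    (h : cm ⁅t, b⁆ b ∈ cen S → cm ⁅t, b⁆ b ∈ C) : ⁅t, b⁆ ∈ Q' := by
  have hbS := d.V'S hb
  have hbL := d.c.SL hbS
  set f := ⁅t, b⁆ with hf
  have hfQ : f ∈ Q := by
    rw [hf, commutatorElement_def]
    have e : t * b * t⁻¹ * b⁻¹ = t * (b * t⁻¹ * b⁻¹) := by group
    rw [e]
    exact Q.mul_mem ht (d.c.cj_mem hbL d.c.Qn (Q.inv_mem ht))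
  have hfF : f ∈ Q ⊓ centralizer (E : Set G) := ⟨hfQ, by
    rw [hf, commutatorElement_def]; exact d.comm_cent (d.c.QS ht) hbS⟩
  have hfS' : f ∈ S' := d.Q₁S' (d.F_le hfF)
  rw [← d.hS'] at hfS'
  obtain ⟨v, hv, k, hk, hvk⟩ := mem_sup_of_norm (fun k hk => d.c'.Qn k (d.c'.SL (d.VS' hk))) hfS'
  have hkQ : k ∈ Q := by
    have e : k = v⁻¹ * f := by rw [← hvk]; group
    rw [e]
    exact Q.mul_mem (Q.inv_mem (d.c.VQ hv)) hfQ
  have hbk : b * k = k * b := d.c'.VQc b hb k hk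
  have hvk' : v * k = k * v := d.c.VQc v hv k hkQ
  have h1 : cm f b = cm v b := by
    unfold cm
    rw [← hvk]
    calc b * (v * k) * b⁻¹ * (v * k)⁻¹ = b * v * (k * b⁻¹) * k⁻¹ * v⁻¹ := by group
      _ = b * v * (b⁻¹ * k) * k⁻¹ * v⁻¹ := by
        have : k * b⁻¹ = b⁻¹ * k := by
          rw [eq_inv_mul_iff_mul_eq, ← mul_assoc, hbk]; group
        rw [this]
      _ = _ := by group
  have h2 : cm f b ∈ cen S := by
    rw [h1]
    exact d.c.quad v hv b hbS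
  have h3 := h h2
  rw [h1] at h3
  have h4 := d.c.cmc b hbS hbQ v hv h3
  rw [← hvk]
  exact Q'.mul_mem (d.ZQ' h4) hk

/-- an element of `N` of order prime to `p` inverting `V/C`. -/
theorem exists_z : ∃ z ∈ cl L V', ∃ m, Nat.Coprime m p ∧ z ^ m = 1 ∧
    (Odd p → ∀ v ∈ V, z * v * z⁻¹ * v ∈ C) := by
  obtain ⟨g, hg, hgM⟩ := d.c.ex
  obtain ⟨x, hx, hxQ⟩ := d.exists_b
  obtain ⟨y, hy, h1, h2, h3⟩ := d.c.swap d.hS hg hgM (d.V'S hx) hxQ
  set n := x * y * x with hn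
  have hxN : x ∈ cl L V' := le_cl' hx
  have hyN : y ∈ cl L V' := le_cl hg hy
  have hnN : n ∈ cl L V' := mul_mem (mul_mem hxN hyN) hxN
  set w := n ^ 2 with hw
  have hwN : w ∈ cl L V' := (cl L V').pow_mem hnN 2
  have hwL : w ∈ L := d.N_le hwN
  haveI := d.c.fin
  have hfin : IsOfFinOrder w := by
    rw [isOfFinOrder_iff_pow_eq_one]
    refine ⟨Nat.card L, Nat.card_pos, ?_⟩
    have : (⟨w, hwL⟩ : L) ^ Nat.card L = 1 := pow_card_eq_one'
    exact congrArg Subtype.val this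
  have hpos := hfin.orderOf_pos
  obtain ⟨a, m, hm, ham⟩ := Nat.exists_eq_pow_mul_and_not_dvd hpos.ne' p hp.out.ne_one
  refine ⟨w ^ (p ^ a), (cl L V').pow_mem hwN _, m, ((Nat.Prime.coprime_iff_not_dvd hp.out).mpr hm).symm,
    ?_, ?_⟩
  · rw [← pow_mul, ← ham, pow_orderOf_eq_one]
  · intro hodd v hv
    have key : ∀ k : ℕ, (Even k → w ^ k * v * (w ^ k)⁻¹ * v⁻¹ ∈ C) ∧
        (Odd k → w ^ k * v * (w ^ k)⁻¹ * v ∈ C) := by
      intro k
      induction k with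
      | zero => simp
      | succ k ih =>
        have hu : w ^ k * v * (w ^ k)⁻¹ ∈ V := d.c.cjV_mem (L.pow_mem hwL k) hv
        have h4 := h3 _ hu
        have e : w ^ (k + 1) * v * (w ^ (k + 1))⁻¹ = w * (w ^ k * v * (w ^ k)⁻¹) * w⁻¹ := by
          rw [pow_succ']; group
        set u := w ^ k * v * (w ^ k)⁻¹ with hud
        constructor
        · intro hk
          have hk' : Odd k := by
            rcases Nat.even_or_odd k with h5 | h5
            · exfalso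
              rw [Nat.even_add_one] at hk
              exact hk h5
            · exact h5
          have h5 := ih.2 hk'
          rw [e]
          have e4 : w * u * w⁻¹ * v⁻¹ = (w * u * w⁻¹ * u) * (u⁻¹ * v⁻¹) := by group
          rw [e4]
          apply C.mul_mem h4
          have e5 : u⁻¹ * v⁻¹ = (u * v)⁻¹ := by
            have : u * v = v * u := d.c.Vab u hu v hv
            rw [this]; group
          rw [e5]
          exact C.inv_mem h5
        · intro hk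
          have hk' : Even k := by
            rcases Nat.even_or_odd k with h5 | h5
            · exact h5
            · exfalso
              rw [Nat.odd_add_one] at hk
              exact hk h5
          have h5 := ih.1 hk'
          rw [e]
          have e6 : w * u * w⁻¹ * v = (w * u * w⁻¹ * u) * (u⁻¹ * v) := by group
          rw [e6]
          apply C.mul_mem h4
          have e5 : u⁻¹ * v = (u * v⁻¹)⁻¹ := by
            have : u * v⁻¹ = v⁻¹ * u := d.c.Vab u hu _ (V.inv_mem hv)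
            rw [this]; group
          rw [e5]
          exact C.inv_mem h5
    exact (key (p ^ a)).2 hodd.pow

theorem claim_odd (hodd : Odd p) {t b : G} (ht : t ∈ Q) (hb : b ∈ V') (hbQ : b ∉ Q) :
    ⁅t, b⁆ ∈ Q' := by
  have hbS := d.V'S hb
  have hbL := d.c.SL hbS
  obtain ⟨z, hzN, m, hm, hzm, hinv⟩ := d.exists_z
  have hinv := hinv hodd
  have hzL := d.N_le hzN
  have hzQ := d.N_tr' hzN hm hzm
  apply d.claim_aux ht hb hbQ
  set f := ⁅t, b⁆ with hf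
  intro hyZ
  set y := cm f b with hy
  have hfQ : f ∈ Q := by
    rw [hf, commutatorElement_def]
    have e : t * b * t⁻¹ * b⁻¹ = t * (b * t⁻¹ * b⁻¹) := by group
    rw [e]
    exact Q.mul_mem ht (d.c.cj_mem hbL d.c.Qn (Q.inv_mem ht))
  set k := b⁻¹ * (z * b * z⁻¹) with hk
  have hkL : k ∈ L := L.mul_mem (L.inv_mem hbL) (L.mul_mem (L.mul_mem hzL hbL) (L.inv_mem hzL))
  have aC : ∀ γ ∈ C, ∀ k ∈ L, k * γ = γ * k := fun γ hγ k hk => (d.c.CL γ hγ k hk).symm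
  -- k acts trivially on V / C
  have hkV : ∀ v ∈ V, k * v * k⁻¹ * v⁻¹ ∈ C := by
    intro v hv
    have hv₁ : z⁻¹ * v * z ∈ V := by
      have := d.c.cjV_mem (L.inv_mem hzL) hv
      rwa [inv_inv] at this
    set v₁ := z⁻¹ * v * z with hv₁d
    have h1 := hinv v₁ hv₁
    have e1 : z * v₁ * z⁻¹ = v := by rw [hv₁d]; group
    rw [e1] at h1
    have hu : b * v₁ * b⁻¹ ∈ V := d.c.cjV_mem hbL hv₁
    have h2 := hinv _ hu
    set u := b * v₁ * b⁻¹ with hud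
    have e2 : k * v * k⁻¹ = b⁻¹ * (z * u * z⁻¹) * b := by rw [hk, hud, hv₁d]; group
    set γ₁ := z * u * z⁻¹ * u with hγ₁
    set γ₂ := v * v₁ with hγ₂
    have e3 : z * u * z⁻¹ = γ₁ * u⁻¹ := by rw [hγ₁]; group
    have e4 : u⁻¹ = b * γ₂⁻¹ * v * b⁻¹ := by
      rw [hud, hγ₂]; group
    rw [e2, e3, e4]
    have g1 : b⁻¹ * γ₁ = γ₁ * b⁻¹ := aC _ h2 _ (L.inv_mem hbL)
    have e5 : b⁻¹ * (γ₁ * (b * γ₂⁻¹ * v * b⁻¹)) * b * v⁻¹ = γ₁ * γ₂⁻¹ := by
      calc b⁻¹ * (γ₁ * (b * γ₂⁻¹ * v * b⁻¹)) * b * v⁻¹ = (b⁻¹ * γ₁) * b * γ₂⁻¹ := by group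
        _ = _ := by rw [g1]; group
    rw [e5]
    exact C.mul_mem h2 (C.inv_mem h1)
  -- k acts trivially on Q / V
  have hkQ : ∀ x ∈ Q, k * x * k⁻¹ * x⁻¹ ∈ V := by
    have hz1 : z ∈ tr L Q V d.c.Vn := ⟨hzL, hzQ⟩
    have h2 : b⁻¹ * z * b ∈ tr L Q V d.c.Vn := by
      have := conj_mem_cj (g := b⁻¹) hz1
      rwa [tr_n d.c.Qn _ (L.inv_mem hbL), inv_inv] at this
    have h3 : k ∈ tr L Q V d.c.Vn := by
      have e : k = (b⁻¹ * z * b) * z⁻¹ := by rw [hk]; group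
      rw [e]
      exact mul_mem h2 (inv_mem hz1)
    exact h3.2
  have hkC : ∀ x ∈ Q, k * x * k⁻¹ * x⁻¹ ∈ C := by
    intro x hx
    apply d.c.triv hkL hkV (hkQ x hx)
    intro s hs hsV
    apply d.phi_V
    refine ⟨?_, hsV⟩
    have : s * x * s⁻¹ * x⁻¹ = ⁅s, x⁆ := by rw [commutatorElement_def]
    rw [this]
    exact comm_mem_phi hs hx
  have hkx : ∀ x ∈ Q, ∃ γ ∈ C, k * x = γ * x * k := by
    intro x hx
    exact ⟨_, hkC x hx, by group⟩
  -- z f z⁻¹ = ζ f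
  have hzf : ∃ ζ ∈ cen S, z * f * z⁻¹ = ζ * f := by
    have hv₁ := hzQ t ht
    set v₁ := z * t * z⁻¹ * t⁻¹ with hv₁d
    obtain ⟨γa, hγa, ha⟩ := hkx t⁻¹ (Q.inv_mem ht)
    obtain ⟨γb, hγb, hb'⟩ := hkx v₁⁻¹ (Q.inv_mem (d.c.VQ hv₁))
    have hζ : cm v₁ b ∈ cen S := d.c.quad v₁ hv₁ b hbS
    refine ⟨γa * γb * (cm v₁ b)⁻¹, mul_mem (mul_mem (d.c.CZ hγa) (d.c.CZ hγb)) (inv_mem hζ), ?_⟩
    have e1 : z * t * z⁻¹ = v₁ * t := by rw [hv₁d]; group
    have e2 : z * b * z⁻¹ = b * k := by rw [hk]; group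
    have e3 : z * f * z⁻¹ = v₁ * t * (b * (k * t⁻¹)) * v₁⁻¹ * k⁻¹ * b⁻¹ := by
      have : z * f * z⁻¹ = (z * t * z⁻¹) * (z * b * z⁻¹) * (z * t * z⁻¹)⁻¹ * (z * b * z⁻¹)⁻¹ := by
        rw [hf, commutatorElement_def]; group
      rw [this, e1, e2]; group
    have f1 : v₁ * f = f * v₁ := d.c.VQc v₁ hv₁ f hfQ
    have gL : ∀ γ ∈ C, ∀ x ∈ L, x * γ = γ * x := aC
    have htL := d.c.QL ht
    have hv₁L := d.c.VL hv₁
    rw [e3, ha]
    have s1 : v₁ * t * (b * (γa * t⁻¹ * k)) * v₁⁻¹ * k⁻¹ * b⁻¹ =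
        (v₁ * t * b * γa) * t⁻¹ * (k * v₁⁻¹) * k⁻¹ * b⁻¹ := by group
    rw [s1, hb', aC γa hγa (v₁ * t * b) (L.mul_mem (L.mul_mem hv₁L htL) hbL)]
    have s2 : γa * (v₁ * t * b) * t⁻¹ * (γb * v₁⁻¹ * k) * k⁻¹ * b⁻¹ =
        γa * (v₁ * t * b * t⁻¹ * γb) * v₁⁻¹ * b⁻¹ := by group
    rw [s2, aC γb hγb (v₁ * t * b * t⁻¹) (L.mul_mem (L.mul_mem (L.mul_mem hv₁L htL) hbL) (L.inv_mem htL))]
    have s3 : γa * (γb * (v₁ * t * b * t⁻¹)) * v₁⁻¹ * b⁻¹ = γa * γb * (v₁ * f) * (b * v₁⁻¹ * b⁻¹) := by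
      rw [hf, commutatorElement_def]; group
    rw [s3, f1]
    have s4 : b * v₁⁻¹ * b⁻¹ = v₁⁻¹ * (cm v₁ b)⁻¹ := by unfold cm; group
    rw [s4]
    have s5 : f * (cm v₁ b)⁻¹ = (cm v₁ b)⁻¹ * f := d.cen' (inv_mem hζ) (d.c.QS hfQ)
    calc γa * γb * (f * v₁) * (v₁⁻¹ * (cm v₁ b)⁻¹) = γa * γb * (f * (cm v₁ b)⁻¹) := by group
      _ = _ := by rw [s5]; group
  obtain ⟨ζ, hζ, hzf⟩ := hzf
  -- z y z⁻¹ = γ y
  have hzy : ∃ γ ∈ C, z * y * z⁻¹ = γ * y := by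
    obtain ⟨γ₃, hγ₃, h3⟩ := hkx ζ (d.c.ZQ hζ)
    obtain ⟨γ₄, hγ₄, h4⟩ := hkx f hfQ
    refine ⟨γ₃ * γ₄, C.mul_mem hγ₃ hγ₄, ?_⟩
    have e2 : z * b * z⁻¹ = b * k := by rw [hk]; group
    have e3 : z * y * z⁻¹ = b * (k * ζ) * f * k⁻¹ * b⁻¹ * f⁻¹ * ζ⁻¹ := by
      have : z * y * z⁻¹ = (z * b * z⁻¹) * (z * f * z⁻¹) * (z * b * z⁻¹)⁻¹ * (z * f * z⁻¹)⁻¹ := by
        rw [hy]; unfold cm; group
      rw [this, e2, hzf]; group
    have hfL := d.c.QL hfQ
    have hζL := d.c.ZS.trans d.c.SL hζ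
    rw [e3, h3]
    have s1 : b * (γ₃ * ζ * k) * f * k⁻¹ * b⁻¹ * f⁻¹ * ζ⁻¹ = (b * γ₃) * ζ * (k * f) * k⁻¹ * b⁻¹ * f⁻¹ * ζ⁻¹ := by
      group
    rw [s1, h4, aC γ₃ hγ₃ b hbL]
    have s2 : γ₃ * b * ζ * (γ₄ * f * k) * k⁻¹ * b⁻¹ * f⁻¹ * ζ⁻¹ =
        γ₃ * (b * ζ * γ₄) * f * b⁻¹ * f⁻¹ * ζ⁻¹ := by group
    rw [s2, aC γ₄ hγ₄ (b * ζ) (L.mul_mem hbL hζL)]
    have s3 : b * ζ = ζ * b := d.cen' hζ hbS
    have s4 : γ₃ * (γ₄ * (b * ζ)) * f * b⁻¹ * f⁻¹ * ζ⁻¹ = γ₃ * γ₄ * (ζ * y * ζ⁻¹) := by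
      rw [s3, hy]; unfold cm; group
    rw [s4]
    have s5 : ζ * y = y * ζ := d.cen' hyZ (d.c.ZS hζ)
    rw [s5]; group
  obtain ⟨γ, hγ, hzy⟩ := hzy
  have h1 := hinv y (d.c.ZV hyZ)
  rw [hzy] at h1
  have h2 : y ^ 2 ∈ C := by
    have e : y ^ 2 = γ⁻¹ * (γ * y * y) := by rw [pow_two]; group
    rw [e]
    exact C.mul_mem (C.inv_mem hγ) h1
  apply mem_of_pow (p := p) (e := 1) _ _ h2
  · exact (Nat.coprime_two_left).mpr hodd
  · rw [pow_one]
    exact d.c.el y hyZ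

/-- `[Q, V'] ≤ Q'`. -/
theorem claim {t b : G} (ht : t ∈ Q) (hb : b ∈ V') : ⁅t, b⁆ ∈ Q' := by
  have hbS := d.V'S hb
  by_cases hbQ : b ∈ Q
  · have h1 : b ∈ cen S' := by
      rw [← (d.c.crit d.c' d.VS' d.V'S d.nc).2.2.2.1]
      exact ⟨hb, hbQ⟩
    have h2 := d.Z'V₁ h1
    have h3 : ⁅t, b⁆ = cm b t := by unfold cm; rw [commutatorElement_def]
    rw [h3]
    exact d.ZQ' (d.c₁.quad b h2 t (d.c.QS ht))
  rcases hp.out.eq_two_or_odd' with h2 | hodd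
  · apply d.claim_aux ht hb hbQ
    intro hyZ
    have hbL := d.c.SL hbS
    have hb2 : b ^ 2 = 1 := by
      have := d.c'.elV b hb
      rwa [h2] at this
    have hbb : b⁻¹ = b := by
      rw [inv_eq_iff_mul_eq_one, ← pow_two]
      exact hb2
    have hfQ : ⁅t, b⁆ ∈ Q := by
      rw [commutatorElement_def]
      have e : t * b * t⁻¹ * b⁻¹ = t * (b * t⁻¹ * b⁻¹) := by group
      rw [e]
      exact Q.mul_mem ht (d.c.cj_mem hbL d.c.Qn (Q.inv_mem ht))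
    have e1 : cm ⁅t, b⁆ b = (⁅t, b⁆⁻¹) ^ p := by
      have h3 : b * ⁅t, b⁆ * b⁻¹ = ⁅t, b⁆⁻¹ := by
        rw [commutatorElement_def]
        have e3 : b * (t * b * t⁻¹ * b⁻¹) * b⁻¹ = b * t * b * t⁻¹ * (b ^ 2)⁻¹ := by
          rw [pow_two]; group
        have e4 : (t * b * t⁻¹ * b⁻¹)⁻¹ = b * t * b⁻¹ * t⁻¹ := by group
        rw [e3, e4, hb2, hbb]; group
      unfold cm
      rw [h3, h2, pow_two]
    apply d.phi_Z
    refine ⟨?_, hyZ⟩
    rw [e1]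
    exact pow_mem_phi (Q.inv_mem hfQ)
  · exact d.claim_odd hodd ht hb hbQ

/-- **Dead ends at distance one**: contradiction. -/
theorem dead1 {l₁ : G} (hl₁ : l₁ ∈ L₁) (hl : Cm (cj l₁ V) V') : False := by
  haveI := d.c.finS
  set R := ⁅V, S⁆ with hRd
  set W := cl L₁ V with hWd
  have hRZ : R ≤ cen S := d.c.VS_le
  have hWQ₁ : W ≤ Q₁ := by
    apply cl_le
    intro l hl
    have := cj_mono (g := l) d.VQ₁
    rwa [d.c₁.Qn l hl] at this
  have hWS : W ≤ S := hWQ₁.trans d.c₁.QS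
  have hVW : V ≤ W := le_cl'
  have hcjR : ∀ x ∈ S, cj x R = R := by
    intro x hx
    apply cj_of_cm
    intro y hy
    exact d.cen' (hRZ hy) hx
  have hQW : ∀ x ∈ Q₁, ∀ w ∈ W, x * w * x⁻¹ * w⁻¹ ∈ R := by
    intro x hx
    apply cs_iSup (N := W) (fun y hy => hcjR y (hWS hy)) (fun l => le_cl l.2)
    intro l y hy
    rw [mem_cj] at hy
    have hl := l.2
    have hx' : (l : G)⁻¹ * x * l ∈ Q₁ := by
      rw [← mem_cj, d.c₁.Qn _ hl]
      exact hx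
    have h1 : cm ((l : G)⁻¹ * y * l) ((l : G)⁻¹ * x * l) ∈ R := d.c.cm_mem_R hy (d.c₁.QS hx')
    have e : x * y * x⁻¹ * y⁻¹ = l * (cm ((l : G)⁻¹ * y * l) ((l : G)⁻¹ * x * l)) * (l : G)⁻¹ := by
      unfold cm; group
    rw [e]
    have := conj_mem_cj (g := (l : G)) h1
    rwa [d.c₁.cj_le_C hl d.R₁] at this
  -- T*
  have hB : ∀ g ∈ Q₁, cj g (R ⊓ C) = R ⊓ C := by
    intro g hg
    apply cj_of_cm
    intro y hy
    exact d.cen' (hRZ hy.1) (d.c₁.QS hg)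
  set T := tr Q₁ Q₁ (R ⊓ C) hB with hT
  have hTn : ∀ g ∈ L₁, cj g T = T := by
    intro g hg
    exact tr_cj (d.c₁.Qn g hg) (d.c₁.Qn g hg) (d.c₁.cj_le_C hg (inf_le_left.trans d.R₁))
  have hZT : cen S ≤ T := by
    intro z hz
    refine ⟨d.c₁.ZQ hz, fun y hy => ?_⟩
    have h3 : y * z = z * y := d.cen' hz (d.c₁.QS hy)
    rw [← h3]
    have : y * z * z⁻¹ * y⁻¹ = 1 := by group
    rw [this]
    exact one_mem _
  -- elements of W in Φ(Q)
  have hWphi : ∀ y ∈ W, y ∈ phi p Q → y ∈ T := by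
    intro y hy hyp
    refine ⟨hWQ₁ hy, fun x hx => ?_⟩
    have h1 : y * x * y⁻¹ * x⁻¹ ∈ R := by
      have := hQW x hx y hy
      have e : y * x * y⁻¹ * x⁻¹ = (x * y * x⁻¹ * y⁻¹)⁻¹ := by group
      rw [e]
      exact R.inv_mem this
    refine ⟨h1, d.phi_Z ⟨?_, hRZ h1⟩⟩
    have e : y * x * y⁻¹ * x⁻¹ = y * (x * y⁻¹ * x⁻¹) := by group
    rw [e]
    exact (phi p Q).mul_mem hyp (d.c.cj_mem (d.c.SL (d.c₁.QS hx)) d.phi_inv ((phi p Q).inv_mem hyp))
  have hSW' : ∀ s ∈ S, ∀ w ∈ W, s * w * s⁻¹ * w⁻¹ ∈ W := by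
    intro s hs w hw
    apply W.mul_mem _ (W.inv_mem hw)
    exact d.c₁.cj_mem (d.c₁.SL hs) cl_inv hw
  -- [Q, W] ≤ T
  have hQWT : ∀ t ∈ Q, ∀ w ∈ W, t * w * t⁻¹ * w⁻¹ ∈ T := by
    by_cases hWQ : W ≤ Q
    · intro t ht w hw
      apply hWphi _ (hSW' t (d.c.QS ht) w hw)
      have : t * w * t⁻¹ * w⁻¹ = ⁅t, w⁆ := by rw [commutatorElement_def]
      rw [this]
      exact comm_mem_phi ht (hWQ hw)
    · obtain ⟨l, hl', hlQ⟩ : ∃ l ∈ L₁, ¬ cj l V ≤ Q := by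
        by_contra hcon
        push Not at hcon
        exact hWQ (cl_le hcon)
      have hV₂Q₁ : cj l V ≤ Q₁ := (le_cl hl').trans hWQ₁
      have hV₂S : cj l V ≤ S := hV₂Q₁.trans d.c₁.QS
      have hnc2 : ¬ Cm V (cj l V) := fun h => hlQ (d.c.le_Q hV₂S h)
      have d₂ : DP p q q₁ q E S L Q V C M L₁ Q₁ V₁ C₁ M₁ (cj l S) (cj l L) (cj l Q) (cj l V) (cj l C)
          (cj l M) :=
        { c := d.c, c₁ := d.c₁, c' := d.c.cj' l, hE := d.hE, ES := d.ES, VE := d.VE, V₁E := d.V₁E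
          Eab := d.Eab, Eq := d.Eq, ES' := d.EQ₁.trans (d.c₁.Q_le_cjS hl'), V'S := hV₂S, nc := hnc2
          h1' := by
            have := d.h01.symm.cj l
            rwa [d.c₁.Vn l hl'] at this
          Q₁S' := d.c₁.Q_le_cjS hl'
          Z'V₁ := by
            rw [← cj_cen]
            exact d.c₁.cjZV hl'
          R₁ := d.R₁ }
      -- decomposition of Q₁
      have hdec : ∀ x ∈ Q₁, ∃ b ∈ cj l V, ∃ v ∈ V, ∃ k, k ∈ Q ∧ k ∈ cj l Q ∧ b * (v * k) = x := by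
        intro x hx
        have hx' := d.c₁.QS hx
        rw [← d₂.hS] at hx'
        obtain ⟨b, hb, x', hx'', rfl⟩ := mem_sup_of_norm (fun k hk => d.c.Qn k (d.c.SL (hV₂S hk))) hx'
        have hx'Q₁ : x' ∈ Q₁ := by
          have e : x' = b⁻¹ * (b * x') := by group
          rw [e]
          exact Q₁.mul_mem (Q₁.inv_mem (hV₂Q₁ hb)) hx
        have hx'S₂ : x' ∈ cj l S := d.c₁.Q_le_cjS hl' hx'Q₁
        rw [← d₂.hS'] at hx'S₂
        obtain ⟨v, hv, k, hk, rfl⟩ := mem_sup_of_norm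
          (fun k hk => d₂.c'.Qn k (d₂.c'.SL (d₂.VS' hk))) hx'S₂
        refine ⟨b, hb, v, hv, k, ?_, hk, rfl⟩
        have e : k = v⁻¹ * (v * k) := by group
        rw [e]
        exact Q.mul_mem (Q.inv_mem (d.c.VQ hv)) hx''
      intro t ht w hw
      have htS := d.c.QS ht
      obtain ⟨b, hb, v, hv, k, hkQ, hkQ₂, rfl⟩ := hdec w (hWQ₁ hw)
      have hbW : b ∈ W := le_cl hl' hb
      have hkW : k ∈ W := by
        have e : k = v⁻¹ * (b⁻¹ * (b * (v * k))) := by group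
        rw [e]
        exact W.mul_mem (W.inv_mem (hVW hv)) (W.mul_mem (W.inv_mem hbW) hw)
      -- [t,b] ∈ T
      have h1 : ⁅t, b⁆ ∈ T := by
        have hf2 : ⁅t, b⁆ ∈ cj l Q := d₂.claim ht hb
        have hfW : ⁅t, b⁆ ∈ W := by
          rw [commutatorElement_def]
          exact hSW' t htS b hbW
        have hfQ : ⁅t, b⁆ ∈ Q := by
          rw [commutatorElement_def]
          have e : t * b * t⁻¹ * b⁻¹ = t * (b * t⁻¹ * b⁻¹) := by group
          rw [e]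
          exact Q.mul_mem ht (d.c.cj_mem (d.c.SL (hV₂S hb)) d.c.Qn (Q.inv_mem ht))
        set f := ⁅t, b⁆ with hf
        refine ⟨hWQ₁ hfW, fun x hx => ?_⟩
        have h2 : f * x * f⁻¹ * x⁻¹ ∈ R := by
          have := hQW x hx f hfW
          have e : f * x * f⁻¹ * x⁻¹ = (x * f * x⁻¹ * f⁻¹)⁻¹ := by group
          rw [e]
          exact R.inv_mem this
        refine ⟨h2, d.phi_Z ⟨?_, hRZ h2⟩⟩
        obtain ⟨b', hb', v', hv', k', hk'Q, hk'Q₂, rfl⟩ := hdec x hx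
        have g1 : b' * f = f * b' := d₂.c'.VQc b' hb' f hf2
        have g2 : v' * f = f * v' := d.c.VQc v' hv' f hfQ
        set z := f * (b' * (v' * k')) * f⁻¹ * (b' * (v' * k'))⁻¹ with hz
        have g3 : z = (b' * v') * ⁅f, k'⁆ * (b' * v')⁻¹ := by
          rw [hz, commutatorElement_def]
          have g4 : f * (b' * v') = (b' * v') * f := by
            calc f * (b' * v') = (f * b') * v' := by group
              _ = b' * (f * v') := by rw [← g1]; group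
              _ = _ := by rw [← g2]; group
          calc f * (b' * (v' * k')) * f⁻¹ * (b' * (v' * k'))⁻¹ =
              (f * (b' * v')) * k' * f⁻¹ * k'⁻¹ * (b' * v')⁻¹ := by group
            _ = _ := by rw [g4]; group
        have hb'v'S : b' * v' ∈ S := S.mul_mem (hV₂S hb') (d.c.VS hv')
        have g5 : z = ⁅f, k'⁆ := by
          have g6 : (b' * v') * z = z * (b' * v') := d.cen' (hRZ h2) hb'v'S
          have g7 : ⁅f, k'⁆ = (b' * v')⁻¹ * z * (b' * v') := by rw [g3]; group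
          rw [g7, mul_assoc, ← g6]; group
        rw [g5]
        exact comm_mem_phi hfQ hk'Q
      have h2 : ⁅t, k⁆ ∈ T := by
        apply hWphi
        · rw [commutatorElement_def]
          exact hSW' t htS k hkW
        · exact comm_mem_phi ht hkQ
      have htv : t * v = v * t := (d.c.VQc v hv t ht).symm
      have e : t * (b * (v * k)) * t⁻¹ * (b * (v * k))⁻¹ =
          ⁅t, b⁆ * ((b * v) * ⁅t, k⁆ * (b * v)⁻¹) := by
        rw [commutatorElement_def, commutatorElement_def]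
        calc t * (b * (v * k)) * t⁻¹ * (b * (v * k))⁻¹ =
            (t * b * t⁻¹ * b⁻¹) * b * (t * v) * k * t⁻¹ * k⁻¹ * v⁻¹ * b⁻¹ := by group
          _ = _ := by rw [htv]; group
      rw [e]
      apply T.mul_mem h1
      have hbvL : b * v ∈ L₁ := L₁.mul_mem (d.c₁.SL (hV₂S hb)) (d.c₁.SL (d.c.VS hv))
      exact d.c₁.cj_mem hbvL hTn h2
  -- S acts trivially on W / T
  have hSW : ∀ s ∈ S, ∀ w ∈ W, s * w * s⁻¹ * w⁻¹ ∈ T := by
    have hsub : S ≤ tr L₁ W T hTn := by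
      refine d.hS.ge.trans (sup_le ?_ ?_)
      · intro b hb
        refine ⟨d.c₁.SL (d.V'S hb), fun w hw => ?_⟩
        exact hZT (hRZ (hQW b (d.V'Q₁ hb) w hw))
      · intro t ht
        exact ⟨d.c₁.SL (d.c.QS ht), fun w hw => hQWT t ht w hw⟩
    exact fun s hs => (hsub hs).2
  have hall := d.c₁.tr_all cl_inv hTn hSW
  -- conclusion
  obtain ⟨v, hv, hvZ⟩ := d.c.ZneV
  apply hvZ
  obtain ⟨b, hb, hbQ⟩ := d.exists_b
  have hbS := d.V'S hb
  apply d.c.cmc b hbS hbQ v hv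
  have hx := hall l₁ hl₁ v (hVW hv)
  set x := l₁ * v * l₁⁻¹ * v⁻¹ with hxd
  have h3 := hx.2 b (d.V'Q₁ hb)
  have h4 : (x * v) * b = b * (x * v) := by
    have e : x * v = l₁ * v * l₁⁻¹ := by rw [hxd]; group
    rw [e]
    exact hl _ (conj_mem_cj hv) b hb
  set z := x * b * x⁻¹ * b⁻¹ with hz
  have h5 : cm v b = z := by
    have h6 : x * cm v b = cm v b * x := d.cen' (d.c.quad v hv b hbS) (d.c₁.QS hx.1)
    have e : z = x * (cm v b) * x⁻¹ := by
      have h7 : b * x = x * (v * b * v⁻¹ * b⁻¹) * b * x⁻¹ * x := by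
        calc b * x = b * (x * v) * v⁻¹ := by group
          _ = (x * v) * b * v⁻¹ := by rw [← h4]
          _ = _ := by group
      have h8 : x⁻¹ * b⁻¹ = (b * x)⁻¹ := by group
      calc z = x * b * (x⁻¹ * b⁻¹) := by rw [hz]; group
        _ = x * b * (x * (v * b * v⁻¹ * b⁻¹) * b * x⁻¹ * x)⁻¹ := by rw [h8, h7]
        _ = x * (cm v b) * x⁻¹ := by unfold cm; group
    rw [e, h6]
    group
  rw [h5]
  exact h3.2

end DP

end Cfsg.Agent.H260.GN
end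

-- part: H260/GN8
section
/-!
# Glauberman-Niles, part 8: paths of length three at distance one
-/

set_option autoImplicit false
set_option linter.unusedSectionVars false
set_option linter.unusedVariables false
set_option linter.style.haveILetI false

namespace Cfsg.Agent.H260.GN

open Subgroup Push
open scoped commutatorElement

variable {G : Type*} [Group G]

/-- a vertex, seen from an edge `S`. -/
structure Vx (p : ℕ) (S : Subgroup G) where
  q : ℕ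
  L : Subgroup G
  Q : Subgroup G
  V : Subgroup G
  C : Subgroup G
  M : Subgroup G
  loc : Loc p q S L Q V C M

/-- a path `a - b - c - d` with `[V_a,V_c] ≠ 1 ≠ [V_b,V_d]`, seen from the edge `S = {b,c}`. -/
structure P4 {p : ℕ} {Sa S Sd : Subgroup G} (a : Vx p Sa) (b c : Vx p S) (d : Vx p Sd) : Prop where
  QbSa : b.Q ≤ Sa
  QcSd : c.Q ≤ Sd
  VaS : a.V ≤ S
  VdS : d.V ≤ S
  cab : Cm a.V b.V
  cbc : Cm b.V c.V
  ccd : Cm c.V d.V
  nac : ¬ Cm a.V c.V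
  nbd : ¬ Cm b.V d.V

namespace P4

variable {p : ℕ} [hp : Fact p.Prime] {Sa S Sd : Subgroup G} {a : Vx p Sa} {b c : Vx p S} {d : Vx p Sd}

theorem symm (h : P4 a b c d) : P4 d c b a :=
  ⟨h.QcSd, h.QbSa, h.VdS, h.VaS, h.ccd.symm, h.cbc.symm, h.cab.symm, fun h' => h.nbd h'.symm,
    fun h' => h.nac h'.symm⟩

variable (h : P4 a b c d)
include h

theorem VcQb : c.V ≤ b.Q := b.loc.le_Q c.loc.VS h.cbc

theorem VbQc : b.V ≤ c.Q := c.loc.le_Q b.loc.VS h.cbc.symm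

theorem VaQb : a.V ≤ b.Q := b.loc.le_Q h.VaS h.cab.symm

theorem VdQc : d.V ≤ c.Q := c.loc.le_Q h.VdS h.ccd

theorem critac : a.q = c.q ∧ c.V ⊔ a.Q = Sa ∧ a.V ⊔ c.Q = S ∧ c.V ⊓ a.Q = cen S ∧
    a.V ⊓ c.Q = cen Sa ∧ ⁅a.V, c.V⁆ = ⁅a.V, Sa⁆ ∧ ⁅c.V, S⁆ = ⁅a.V, Sa⁆ :=
  a.loc.crit c.loc h.VaS (h.VcQb.trans h.QbSa) h.nac

theorem critbd : b.q = d.q ∧ d.V ⊔ b.Q = S ∧ b.V ⊔ d.Q = Sd ∧ d.V ⊓ b.Q = cen Sd ∧
    b.V ⊓ d.Q = cen S ∧ ⁅b.V, d.V⁆ = ⁅b.V, S⁆ ∧ ⁅d.V, Sd⁆ = ⁅b.V, S⁆ :=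
  b.loc.crit d.loc (h.VbQc.trans h.QcSd) h.VdS h.nbd

/-- `x ∈ Q_b ∩ Q_c` is `v_b v_c k`, `k` in all four `Q`'s. -/
theorem decbc {x : G} (hb : x ∈ b.Q) (hc : x ∈ c.Q) :
    ∃ v ∈ b.V, ∃ w ∈ c.V, ∃ k, k ∈ a.Q ∧ k ∈ b.Q ∧ k ∈ c.Q ∧ k ∈ d.Q ∧ v * (w * k) = x := by
  have h1 := h.QcSd hc
  rw [← h.critbd.2.2.1] at h1
  obtain ⟨v, hv, x', hx', rfl⟩ := mem_sup_of_norm
    (fun k hk => d.loc.Qn k (d.loc.SL (h.QcSd (h.VbQc hk)))) h1
  have hx'b : x' ∈ b.Q := by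
    have e : x' = v⁻¹ * (v * x') := by group
    rw [e]
    exact mul_mem (inv_mem (b.loc.VQ hv)) hb
  have hx'c : x' ∈ c.Q := by
    have e : x' = v⁻¹ * (v * x') := by group
    rw [e]
    exact mul_mem (inv_mem (h.VbQc hv)) hc
  have h2 := h.QbSa hx'b
  rw [← h.critac.2.1] at h2
  obtain ⟨w, hw, k, hk, rfl⟩ := mem_sup_of_norm
    (fun k hk => a.loc.Qn k (a.loc.SL (h.QbSa (h.VcQb hk)))) h2
  have ek : k = w⁻¹ * (w * k) := by group
  have hwd : w ∈ d.Q := d.loc.le_Q (c.loc.VQ.trans h.QcSd) h.ccd.symm hw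
  refine ⟨v, hv, w, hw, k, hk, ?_, ?_, ?_, rfl⟩
  · rw [ek]
    exact mul_mem (inv_mem (h.VcQb hw)) hx'b
  · rw [ek]
    exact mul_mem (inv_mem (c.loc.VQ hw)) hx'c
  · rw [ek]
    exact mul_mem (inv_mem hwd) hx'

/-- `x ∈ Q_b` is `v_a v_b v_c k`. -/
theorem decb {x : G} (hb : x ∈ b.Q) :
    ∃ u ∈ a.V, ∃ v ∈ b.V, ∃ w ∈ c.V, ∃ k, k ∈ a.Q ∧ k ∈ b.Q ∧ k ∈ c.Q ∧ k ∈ d.Q ∧
      u * (v * (w * k)) = x := by
  have h1 := b.loc.QS hb
  rw [← h.critac.2.2.1] at h1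
  obtain ⟨u, hu, x', hx', rfl⟩ := mem_sup_of_norm
    (fun k hk => c.loc.Qn k (c.loc.SL (h.VaS hk))) h1
  have hx'b : x' ∈ b.Q := by
    have e : x' = u⁻¹ * (u * x') := by group
    rw [e]
    exact mul_mem (inv_mem (h.VaQb hu)) hb
  obtain ⟨v, hv, w, hw, k, h1, h2, h3, h4, h5⟩ := h.decbc hx'b hx'
  exact ⟨u, hu, v, hv, w, hw, k, h1, h2, h3, h4, by rw [h5]⟩

/-- `x ∈ S` is `v_d v_a v_b v_c k`. -/
theorem decS {x : G} (hx : x ∈ S) :
    ∃ r ∈ d.V, ∃ u ∈ a.V, ∃ v ∈ b.V, ∃ w ∈ c.V, ∃ k, k ∈ a.Q ∧ k ∈ b.Q ∧ k ∈ c.Q ∧ k ∈ d.Q ∧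
      r * (u * (v * (w * k))) = x := by
  rw [← h.critbd.2.1] at hx
  obtain ⟨r, hr, x', hx', rfl⟩ := mem_sup_of_norm
    (fun k hk => b.loc.Qn k (b.loc.SL (h.VdS hk))) hx
  obtain ⟨u, hu, v, hv, w, hw, k, h1, h2, h3, h4, h5⟩ := h.decb hx'
  exact ⟨r, hr, u, hu, v, hv, w, hw, k, h1, h2, h3, h4, by rw [h5]⟩

/-- the intersection of `⟨V_a,V_b,V_c,V_d⟩` with the `Q`'s is central. -/
theorem cenD {k : G} (h1 : k ∈ a.Q) (h2 : k ∈ b.Q) (h3 : k ∈ c.Q) (h4 : k ∈ d.Q)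
    (hk : k ∈ a.V ⊔ b.V ⊔ (c.V ⊔ d.V)) : k ∈ cen S := by
  have hD : Cm (a.V ⊔ b.V ⊔ (c.V ⊔ d.V)) (a.Q ⊓ b.Q ⊓ (c.Q ⊓ d.Q)) := by
    apply Cm.sup_left
    · apply Cm.sup_left
      · exact a.loc.VQc.mono le_rfl (inf_le_left.trans inf_le_left)
      · exact b.loc.VQc.mono le_rfl (inf_le_left.trans inf_le_right)
    · apply Cm.sup_left
      · exact c.loc.VQc.mono le_rfl (inf_le_right.trans inf_le_left)
      · exact d.loc.VQc.mono le_rfl (inf_le_right.trans inf_le_right)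
  refine ⟨b.loc.QS h2, mem_centralizer_iff.mpr ?_⟩
  intro x hx
  obtain ⟨r, hr, u, hu, v, hv, w, hw, m, m1, m2, m3, m4, rfl⟩ := h.decS hx
  have g1 : r * k = k * r := d.loc.VQc r hr k h4
  have g2 : u * k = k * u := a.loc.VQc u hu k h1
  have g3 : v * k = k * v := b.loc.VQc v hv k h2
  have g4 : w * k = k * w := c.loc.VQc w hw k h3
  have g5 : m * k = k * m := (hD k hk m ⟨⟨m1, m2⟩, ⟨m3, m4⟩⟩).symm
  exact (((show Commute r k from g1).mul_left ((show Commute u k from g2).mul_left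
    ((show Commute v k from g3).mul_left ((show Commute w k from g4).mul_left
      (show Commute m k from g5))))))

/-- `[V_a, V_d] ≤ V_b V_c`. -/
theorem comm_mem {t y : G} (ht : t ∈ a.V) (hy : y ∈ d.V) : ∃ v ∈ b.V, ∃ w ∈ c.V, ⁅t, y⁆ = v * w := by
  have h1 : ⁅t, y⁆ ∈ b.Q := by
    rw [commutatorElement_def]
    have e : t * y * t⁻¹ * y⁻¹ = t * (y * t⁻¹ * y⁻¹) := by group
    rw [e]
    exact mul_mem (h.VaQb ht) (b.loc.cj_mem (b.loc.SL (h.VdS hy)) b.loc.Qn (inv_mem (h.VaQb ht)))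
  have h2 : ⁅t, y⁆ ∈ c.Q := by
    rw [commutatorElement_def]
    exact mul_mem (c.loc.cj_mem (c.loc.SL (h.VaS ht)) c.loc.Qn (h.VdQc hy)) (inv_mem (h.VdQc hy))
  obtain ⟨v, hv, w, hw, k, m1, m2, m3, m4, hvw⟩ := h.decbc h1 h2
  have hk : k ∈ cen S := by
    apply h.cenD m1 m2 m3 m4
    have e : k = w⁻¹ * (v⁻¹ * ⁅t, y⁆) := by rw [← hvw]; group
    rw [e]
    apply mul_mem (inv_mem (mem_sup_right (mem_sup_left hw)))
    apply mul_mem (inv_mem (mem_sup_left (mem_sup_right hv)))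
    rw [commutatorElement_def]
    have ht' : t ∈ a.V ⊔ b.V ⊔ (c.V ⊔ d.V) := mem_sup_left (mem_sup_left ht)
    have hy' : y ∈ a.V ⊔ b.V ⊔ (c.V ⊔ d.V) := mem_sup_right (mem_sup_right hy)
    exact mul_mem (mul_mem (mul_mem ht' hy') (inv_mem ht')) (inv_mem hy')
  exact ⟨v, hv, w * k, mul_mem hw (c.loc.ZV hk), hvw.symm⟩

/-- moving at `c`: `[V_a,V_d] ≰ V_c`. -/
theorem noc {g : G} (hg : g ∈ c.L) (hgM : g ∉ c.M) (hSd : Sd = cj g S)
    (hcm : Cm b.V (cj g⁻¹ d.V)) : ¬ ∀ t ∈ a.V, ∀ y ∈ d.V, ⁅t, y⁆ ∈ c.V := by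
  intro hall
  haveI := d.loc.finS
  have hVc : c.V ≤ Sd := c.loc.VQ.trans h.QcSd
  haveI : Finite (c.V ⊔ d.V : Subgroup G) := fin_le (sup_le hVc d.loc.VS)
  have hSdL : Sd ≤ c.L := by
    rw [hSd]
    have := cj_mono (g := g) c.loc.SL
    rwa [cj_of_mem hg] at this
  have k1 : ∀ s ∈ Sd, cj s (c.V ⊔ d.V) = c.V ⊔ d.V := by
    intro s hs
    exact cj_sup_eq (c.loc.Vn s (hSdL hs)) (d.loc.Vn s (d.loc.SL hs))
  have k2 : ∀ t ∈ a.V, cj t (c.V ⊔ d.V) = c.V ⊔ d.V := by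
    intro t ht
    apply cj_eq_of_le
    rw [cj_sup, c.loc.Vn t (c.loc.SL (h.VaS ht))]
    apply sup_le le_sup_left
    intro y hy
    rw [mem_cj] at hy
    have e : y = ⁅t, t⁻¹ * y * t⁆ * (t⁻¹ * y * t) := by rw [commutatorElement_def]; group
    rw [e]
    exact mul_mem (mem_sup_left (hall t ht _ hy)) (mem_sup_right hy)
  have k3 : ∀ l ∈ c.L, cj l (c.V ⊔ d.V) = c.V ⊔ d.V := by
    rw [← c.loc.gen g hg hgM, ← hSd]
    apply norm_sup _ k1
    have k5 := norm_sup k2 (fun k hk => k1 k (h.QcSd hk))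
    exact fun s hs => k5 s (h.critac.2.2.1.ge hs)
  have k4 := k3 g⁻¹ (inv_mem hg)
  rw [cj_sup, c.loc.Vn _ (inv_mem hg)] at k4
  apply h.nbd
  have : Cm b.V (c.V ⊔ cj g⁻¹ d.V) := h.cbc.sup_right hcm
  rw [k4] at this
  exact this.mono le_rfl le_sup_right

/-- `cen S_d ≤ V_c` in the moving situation. -/
theorem cenSd {g : G} (hg : g ∈ c.L) (hSd : Sd = cj g S) : cen Sd ≤ c.V := by
  rw [hSd, ← cj_cen]
  exact c.loc.cjZV hg

/-- **`p = 2`**: contradiction. -/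
theorem false_two (h2 : p = 2) {g : G} (hg : g ∈ c.L) (hgM : g ∉ c.M) (hSd : Sd = cj g S)
    (hcm : Cm b.V (cj g⁻¹ d.V)) : False := by
  apply h.noc hg hgM hSd hcm
  intro t ht y hy
  have htL := c.loc.SL (h.VaS ht)
  by_cases hyQ : y ∈ b.Q
  · have h3 : y ∈ cen Sd := by
      rw [← h.critbd.2.2.2.1]
      exact ⟨hy, hyQ⟩
    have h4 := h.cenSd hg hSd h3
    rw [commutatorElement_def]
    exact mul_mem (c.loc.cjV_mem htL h4) (inv_mem h4)
  obtain ⟨v, hv, w, hw, hvw⟩ := h.comm_mem ht hy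
  have hy2 : y ^ 2 = 1 := by
    have := d.loc.elV y hy
    rwa [h2] at this
  have hyy : y⁻¹ = y := by
    rw [inv_eq_iff_mul_eq_one, ← pow_two]
    exact hy2
  have hw2 : w * w = 1 := by
    have := c.loc.elV w hw
    rwa [h2, pow_two] at this
  have hv2 : v * v = 1 := by
    have := b.loc.elV v hv
    rwa [h2, pow_two] at this
  have h3 : y * ⁅t, y⁆ * y⁻¹ = ⁅t, y⁆⁻¹ := by
    rw [commutatorElement_def]
    have e3 : y * (t * y * t⁻¹ * y⁻¹) * y⁻¹ = y * t * y * t⁻¹ * (y ^ 2)⁻¹ := by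
      rw [pow_two]; group
    have e4 : (t * y * t⁻¹ * y⁻¹)⁻¹ = y * t * y⁻¹ * t⁻¹ := by group
    rw [e3, e4, hy2, hyy]; group
  have hyw : y * w = w * y := (h.ccd w hw y hy).symm
  have hvw' : v * w = w * v := h.cbc v hv w hw
  rw [hvw] at h3
  have h4 : y * v * y⁻¹ = v := by
    have e1 : y * (v * w) * y⁻¹ = (y * v * y⁻¹) * w := by
      have : w * y⁻¹ = y⁻¹ * w := by
        rw [eq_inv_mul_iff_mul_eq, ← mul_assoc, hyw]; group
      calc y * (v * w) * y⁻¹ = y * v * (w * y⁻¹) := by group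
        _ = _ := by rw [this]; group
    rw [e1] at h3
    have e2 : y * v * y⁻¹ = (v * w)⁻¹ * w⁻¹ := by rw [← h3]; group
    rw [e2]
    have hwi : w⁻¹ = w := by rw [inv_eq_iff_mul_eq_one]; exact hw2
    have hvi : v⁻¹ = v := by rw [inv_eq_iff_mul_eq_one]; exact hv2
    rw [mul_inv_rev, hwi, hvi, mul_assoc, hvw', ← mul_assoc, hw2, one_mul]
  have h5 : v ∈ cen S := by
    apply b.loc.fix (h.VdS hy) hyQ hv
    calc y * v = (y * v * y⁻¹) * y := by group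
      _ = _ := by rw [h4]
  rw [hvw]
  exact mul_mem (c.loc.ZV h5) hw

end P4

end Cfsg.Agent.H260.GN
end

-- part: H260/GNCalc
section
/-!
# Glauberman-Niles: the computation with the Weyl element on `X/C`
-/

set_option autoImplicit false
set_option linter.unusedSectionVars false
set_option linter.unusedVariables false
set_option linter.style.haveILetI false

namespace Cfsg.Agent.H260.GN

open Subgroup Push

theorem calc_lemma {A : Type*} [AddCommGroup A] (x y : A →+ A) (Am Ap Zm Zp : AddSubgroup A)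
    (hdis : ∀ a ∈ Am, a ∈ Ap → a = 0) (hZm : Zm ≤ Am) (hZp : Zp ≤ Ap)
    (hx : ∀ w ∈ Ap, x w = w) (hy : ∀ t ∈ Am, y t = t)
    (h2 : ∀ t ∈ Am, ∃ c ∈ Zm, ∃ e ∈ Ap, x t = t + c + e)
    (h3 : ∀ z ∈ Zm, ∃ e ∈ Ap, x z = z + e)
    (h4 : ∀ w ∈ Ap, ∃ f ∈ Am, ∃ d ∈ Zp, y w = w + f + d)
    (h5 : ∀ z ∈ Zp, ∃ f ∈ Zm, y z = z + f)
    (h8 : ∀ z ∈ Zm, x z = z → z = 0)
    (hn1 : ∀ t ∈ Am, x (y (x t)) ∈ Ap) (hn2 : ∀ w ∈ Ap, x (y (x w)) ∈ Am)
    (hinv : ∀ z ∈ Zm, x (y (x (x (y (x z))))) = -z)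
    {t c e : A} (ht : t ∈ Am) (hc : c ∈ Zm) (he : e ∈ Ap) (hxt : x t = t + c + e) :
    x (y (x (x (y (x (x (y (x (x (y (x t))))))))))) = t + (6 : ℕ) • c := by
  have uAp : ∀ a ∈ Am, ∀ w ∈ Ap, a + w ∈ Ap → a = 0 := by
    intro a ha w hw h
    apply hdis a ha
    have := Ap.sub_mem h hw
    rwa [add_sub_cancel_right] at this
  have uAm : ∀ a ∈ Am, ∀ w ∈ Ap, a + w ∈ Am → w = 0 := by
    intro a ha w hw h
    apply hdis w _ hw
    have := Am.sub_mem h ha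
    rwa [add_sub_cancel_left] at this
  have hcA := hZm hc
  obtain ⟨e₁, he₁, hxc⟩ := h3 c hc
  obtain ⟨f, hf, d, hd, hye⟩ := h4 e he
  have hdA := hZp hd
  obtain ⟨c₂, hc₂, e₂, he₂, hxf⟩ := h2 f hf
  obtain ⟨e₃, he₃, hxc₂⟩ := h3 c₂ hc₂
  have hc₂A := hZm hc₂
  have nt : x (y (x t)) = (t + c + c + f + c₂) + (e + e₁ + e + e₂ + d) := by
    rw [hxt]
    simp only [map_add, hy t ht, hy c hcA, hye, hxt, hxc, hx e he, hxf, hx d hdA]
    abel
  have r1 : t + c + c + f + c₂ = 0 := by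
    apply uAp _ _ (e + e₁ + e + e₂ + d)
    · exact Ap.add_mem (Ap.add_mem (Ap.add_mem (Ap.add_mem he he₁) he) he₂) hdA
    · rw [← nt]
      exact hn1 t ht
    · exact Am.add_mem (Am.add_mem (Am.add_mem (Am.add_mem ht hcA) hcA) hf) hc₂A
  have r2 : f = -(t + c + c + c₂) := by
    rw [eq_neg_iff_add_eq_zero, ← r1]; abel
  have hxf' : x f = -((t + c + c + c + c₂) + (e + e₁ + e₁ + e₃)) := by
    rw [r2, map_neg, map_add, map_add, map_add, hxt, hxc, hxc₂]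
    abel
  have r3 : (c + c₂) + (e + e₁ + e₁ + e₃ + e₂) = 0 := by
    have h1 : f + c₂ + e₂ = -((t + c + c + c + c₂) + (e + e₁ + e₁ + e₃)) := by rw [← hxf, hxf']
    rw [r2] at h1
    have h2 : -(t + c + c + c₂) + c₂ + e₂ + ((t + c + c + c + c₂) + (e + e₁ + e₁ + e₃)) = 0 := by
      rw [h1]; abel
    rw [← h2]
    abel
  have hE : e + e₁ + e₁ + e₃ + e₂ ∈ Ap :=
    Ap.add_mem (Ap.add_mem (Ap.add_mem (Ap.add_mem he he₁) he₁) he₃) he₂
  have r4 : c + c₂ = 0 := by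
    apply uAp _ (Am.add_mem hcA hc₂A) _ hE
    rw [r3]
    exact Ap.zero_mem
  have r5 : c₂ = -c := (neg_eq_of_add_eq_zero_right r4).symm
  have r6 : e₃ = -e₁ := by
    have h1 : x c₂ = -(c + e₁) := by rw [r5, map_neg, hxc]
    rw [hxc₂, r5] at h1
    have h2 : -c + e₃ = -c + -e₁ := by rw [h1]; abel
    exact add_left_cancel h2
  have r7 : e₂ = -(e + e₁) := by
    have h1 : e + e₁ + e₁ + e₃ + e₂ = 0 := by
      rw [r4, zero_add] at r3
      exact r3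
    rw [r6] at h1
    rw [eq_neg_iff_add_eq_zero, ← h1]
    abel
  have r8 : f = -(t + c) := by rw [r2, r5]; abel
  -- d = e₁
  have r9 : d = e₁ := by
    have h1 : x (y (x e)) = (f + c₂) + (e + e₂ + d) := by
      rw [hx e he, hye, map_add, map_add, hx e he, hxf, hx d hdA]
      abel
    have h2 : e + e₂ + d = 0 := by
      apply uAm _ (Am.add_mem hf hc₂A) _ (Ap.add_mem (Ap.add_mem he he₂) hdA)
      rw [← h1]
      exact hn2 e he
    rw [r7] at h2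
    have h3 : -e₁ + d = 0 := by rw [← h2]; abel
    have h4 : d = -(-e₁) := (neg_eq_of_add_eq_zero_right h3).symm
    rw [h4, neg_neg]
  obtain ⟨f', hf', hyd⟩ := h5 d hd
  obtain ⟨e₄, he₄, hxf4⟩ := h3 f' hf'
  have hf'A := hZm hf'
  have r10 : e₄ = -d := by
    have h1 : x (y (x d)) = f' + (d + e₄) := by
      rw [hx d hdA, hyd, map_add, hx d hdA, hxf4]
      abel
    have h2 : d + e₄ = 0 := by
      apply uAm _ hf'A _ (Ap.add_mem hdA he₄)
      rw [← h1]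
      exact hn2 d hdA
    exact (neg_eq_of_add_eq_zero_right h2).symm
  have r11 : f' = -c := by
    have h1 : x (f' + c) = f' + c := by
      rw [map_add, hxf4, hxc, r10, r9]
      abel
    have h2 := h8 _ (Zm.add_mem hf' hc) h1
    rw [eq_neg_iff_add_eq_zero]
    exact h2
  have nt' : x (y (x t)) = e + d := by
    rw [nt, r1, zero_add, r7, r9]
    abel
  have nnt : x (y (x (x (y (x t))))) = -(t + c + c + c) := by
    rw [nt']
    simp only [map_add, hx e he, hx d hdA, hye, hyd, hxf, hxf4]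
    rw [r8, r5, r7, r10, r11, r9]
    abel
  have hcc : x (y (x (x (y (x c))))) = -c := hinv c hc
  have e3 : ∀ a b : A, x (y (x (x (y (x (a + b)))))) =
      x (y (x (x (y (x a))))) + x (y (x (x (y (x b))))) := by
    intro a b
    simp only [map_add]
  have e4 : ∀ a : A, x (y (x (x (y (x (-a)))))) = -x (y (x (x (y (x a))))) := by
    intro a
    simp only [map_neg]
  rw [nnt, e4, e3, e3, e3, nnt, hcc]
  have : (6 : ℕ) • c = c + c + c + c + c + c := by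
    simp only [succ_nsmul, zero_nsmul, zero_add]
  rw [this]
  abel

variable {G : Type*} [Group G]

theorem live_calc {L X Cz : Subgroup G} (hXn : ∀ g ∈ L, cj g X = X) (hCX : Cz ≤ X)
    (hC : Cm Cz L) (hXL : X ≤ L) (hXX : ∀ a ∈ X, ∀ b ∈ X, a * b * a⁻¹ * b⁻¹ ∈ Cz) {x y : G}
    (hxL : x ∈ L) (hyL : y ∈ L) {Am Ap Zm Zp : Subgroup G} (hAm : Am ≤ X) (hAp : Ap ≤ X)
    (hCm : Cz ≤ Zm) (hCp : Cz ≤ Zp) (hdis : Am ⊓ Ap ≤ Cz) (hZm : Zm ≤ Am) (hZp : Zp ≤ Ap)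
    (hx : ∀ w ∈ Ap, x * w * x⁻¹ * w⁻¹ ∈ Cz) (hy : ∀ t ∈ Am, y * t * y⁻¹ * t⁻¹ ∈ Cz)
    (h2 : ∀ t ∈ Am, ∃ c ∈ Zm, ∃ e ∈ Ap, x * t * x⁻¹ * (t * c * e)⁻¹ ∈ Cz)
    (h3 : ∀ z ∈ Zm, ∃ e ∈ Ap, x * z * x⁻¹ * (z * e)⁻¹ ∈ Cz)
    (h4 : ∀ w ∈ Ap, ∃ f ∈ Am, ∃ d ∈ Zp, y * w * y⁻¹ * (w * f * d)⁻¹ ∈ Cz)
    (h5 : ∀ z ∈ Zp, ∃ f ∈ Zm, y * z * y⁻¹ * (z * f)⁻¹ ∈ Cz)
    (h8 : ∀ z ∈ Zm, x * z * x⁻¹ * z⁻¹ ∈ Cz → z ∈ Cz)
    (hn1 : ∀ t ∈ Am, (x * y * x) * t * (x * y * x)⁻¹ ∈ Ap)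
    (hn2 : ∀ w ∈ Ap, (x * y * x) * w * (x * y * x)⁻¹ ∈ Am)
    (hinv : ∀ z ∈ Zm, (x * y * x) ^ 2 * z * ((x * y * x) ^ 2)⁻¹ * z ∈ Cz)
    {t c e : G} (ht : t ∈ Am) (hc : c ∈ Zm) (he : e ∈ Ap)
    (hxt : x * t * x⁻¹ * (t * c * e)⁻¹ ∈ Cz) :
    (x * y * x) ^ 4 * t * ((x * y * x) ^ 4)⁻¹ * (t * c ^ 6)⁻¹ ∈ Cz := by
  set N : Subgroup X := Cz.subgroupOf X with hN
  haveI hNn : N.Normal := by
    constructor
    intro a ha b
    rw [hN, mem_subgroupOf] at ha ⊢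
    have h1 : (a : G) * (b : G) = b * a := hC _ ha _ (hXL b.2)
    have : ((b * a * b⁻¹ : X) : G) = a := by
      rw [coe_mul, coe_mul, coe_inv, ← h1]; group
    rw [this]
    exact ha
  letI instC : CommGroup (X ⧸ N) :=
    { (inferInstance : Group (X ⧸ N)) with
      mul_comm := by
        intro a b
        obtain ⟨a, rfl⟩ := QuotientGroup.mk_surjective a
        obtain ⟨b, rfl⟩ := QuotientGroup.mk_surjective b
        change (QuotientGroup.mk (a * b) : X ⧸ N) = QuotientGroup.mk (b * a)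
        rw [QuotientGroup.eq, hN, mem_subgroupOf]
        have h1 := hXX (b⁻¹ : G) (inv_mem b.2) (a⁻¹ : G) (inv_mem a.2)
        have e : (((a * b)⁻¹ * (b * a) : X) : G) = (b : G)⁻¹ * (a : G)⁻¹ * (b : G)⁻¹⁻¹ * (a : G)⁻¹⁻¹ := by
          simp only [coe_mul, coe_inv, mul_inv_rev]
          group
        rw [e]
        exact h1 }
  -- action
  let cX : ∀ k ∈ L, X →* X := fun k hk =>
    { toFun := fun v => ⟨k * v * k⁻¹, by
        have := conj_mem_cj (g := k) v.2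
        rwa [hXn k hk] at this⟩
      map_one' := by apply Subtype.ext; simp
      map_mul' := fun v w => by
        apply Subtype.ext
        change k * (v * w) * k⁻¹ = (k * v * k⁻¹) * (k * w * k⁻¹)
        group }
  have hcX : ∀ k (hk : k ∈ L), N ≤ N.comap (cX k hk) := by
    intro k hk a ha
    rw [Subgroup.mem_comap, hN, mem_subgroupOf]
    rw [hN, mem_subgroupOf] at ha
    have h1 : (a : G) * k = k * a := hC _ ha _ hk
    have : ((cX k hk a : X) : G) = a := by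
      change k * a * k⁻¹ = a
      rw [← h1]; group
    rw [this]
    exact ha
  let act : ∀ k ∈ L, Additive (X ⧸ N) →+ Additive (X ⧸ N) := fun k hk =>
    MonoidHom.toAdditive (QuotientGroup.map N N (cX k hk) (hcX k hk))
  let cls : ∀ v ∈ X, Additive (X ⧸ N) := fun v hv => Additive.ofMul (QuotientGroup.mk ⟨v, hv⟩)
  have act_cls : ∀ k (hk : k ∈ L) v (hv : v ∈ X) (hv' : k * v * k⁻¹ ∈ X),
      act k hk (cls v hv) = cls (k * v * k⁻¹) hv' := fun k hk v hv hv' => rfl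
  have cls_add : ∀ v (hv : v ∈ X) w (hw : w ∈ X) (hvw : v * w ∈ X),
      cls (v * w) hvw = cls v hv + cls w hw := fun v hv w hw hvw => rfl
  have cls_eq : ∀ v (hv : v ∈ X) w (hw : w ∈ X), cls v hv = cls w hw ↔ v * w⁻¹ ∈ Cz := by
    intro v hv w hw
    have h1 : cls v hv = cls w hw ↔
        (QuotientGroup.mk (⟨v, hv⟩ : X) : X ⧸ N) = QuotientGroup.mk ⟨w, hw⟩ := Iff.rfl
    rw [h1, QuotientGroup.eq, hN, mem_subgroupOf]
    change v⁻¹ * w ∈ Cz ↔ v * w⁻¹ ∈ Cz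
    constructor
    · intro h
      have h2 : v⁻¹ * w * w = w * (v⁻¹ * w) := hC _ h _ (hXL hw)
      have e : v * w⁻¹ = (v⁻¹ * w)⁻¹ := by
        have h3 : v⁻¹ * w = w * v⁻¹ := by
          have : v⁻¹ * w * w * w⁻¹ = w * (v⁻¹ * w) * w⁻¹ := by rw [h2]
          calc v⁻¹ * w = v⁻¹ * w * w * w⁻¹ := by group
            _ = w * (v⁻¹ * w) * w⁻¹ := this
            _ = w * v⁻¹ := by group
        rw [h3]; group
      rw [e]
      exact inv_mem h
    · intro h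
      have h2 : v * w⁻¹ * w⁻¹ = w⁻¹ * (v * w⁻¹) := hC _ h _ (inv_mem (hXL hw))
      have e : v⁻¹ * w = (v * w⁻¹)⁻¹ := by
        have h3 : v * w⁻¹ = w⁻¹ * v := by
          calc v * w⁻¹ = v * w⁻¹ * w⁻¹ * w := by group
            _ = w⁻¹ * (v * w⁻¹) * w := by rw [h2]
            _ = w⁻¹ * v := by group
        rw [h3]; group
      rw [e]
      exact inv_mem h
  have cls_zero : ∀ v (hv : v ∈ X), cls v hv = 0 ↔ v ∈ Cz := by
    intro v hv
    have h1 : (0 : Additive (X ⧸ N)) = cls 1 X.one_mem := rfl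
    rw [h1, cls_eq, inv_one, mul_one]
  let sub : Subgroup G → AddSubgroup (Additive (X ⧸ N)) := fun H =>
    Subgroup.toAddSubgroup ((H.subgroupOf X).map (QuotientGroup.mk' N))
  have mem_sub : ∀ (H : Subgroup G) a, a ∈ sub H ↔ ∃ v, ∃ (_ : v ∈ H) (hv : v ∈ X), cls v hv = a := by
    intro H a
    constructor
    · rintro ⟨v, hv, e⟩
      exact ⟨v, hv, v.2, e⟩
    · rintro ⟨v, hv, hvX, e⟩
      exact ⟨⟨v, hvX⟩, hv, e⟩
  have cls_mem : ∀ (H : Subgroup G), Cz ≤ H → ∀ v (hv : v ∈ X), cls v hv ∈ sub H → v ∈ H := by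
    intro H hCH v hv h
    obtain ⟨w, hw, hwX, e⟩ := (mem_sub H _).mp h
    rw [cls_eq] at e
    have : v = (w * v⁻¹)⁻¹ * w := by group
    rw [this]
    exact mul_mem (inv_mem (hCH e)) hw
  have mem_cls : ∀ (H : Subgroup G) v (hv : v ∈ X), v ∈ H → cls v hv ∈ sub H :=
    fun H v hv h => (mem_sub H _).mpr ⟨v, h, hv, rfl⟩
  have hcong : ∀ k (hk : k ∈ L) v (hv : v ∈ X) w (hw : w ∈ X), k * v * k⁻¹ * w⁻¹ ∈ Cz →
      act k hk (cls v hv) = cls w hw := by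
    intro k hk v hv w hw h
    have hv' : k * v * k⁻¹ ∈ X := by
      have := conj_mem_cj (g := k) hv
      rwa [hXn k hk] at this
    rw [act_cls k hk v hv hv', cls_eq]
    exact h
  have hCAm : Cz ≤ Am := hCm.trans hZm
  have hCAp : Cz ≤ Ap := hCp.trans hZp
  have hmul3 : ∀ v (hv : v ∈ X) w (hw : w ∈ X) u (hu : u ∈ X),
      cls v hv + cls w hw + cls u hu = cls (v * w * u) (mul_mem (mul_mem hv hw) hu) :=
    fun v hv w hw u hu => rfl
  have hnact : ∀ v (hv : v ∈ X) (hv' : (x * y * x) * v * (x * y * x)⁻¹ ∈ X),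
      act x hxL (act y hyL (act x hxL (cls v hv))) = cls ((x * y * x) * v * (x * y * x)⁻¹) hv' := by
    intro v hv hv'
    have g1 : x * v * x⁻¹ ∈ X := by
      have := conj_mem_cj (g := x) hv
      rwa [hXn x hxL] at this
    have g2 : y * (x * v * x⁻¹) * y⁻¹ ∈ X := by
      have := conj_mem_cj (g := y) g1
      rwa [hXn y hyL] at this
    have g3 : x * (y * (x * v * x⁻¹) * y⁻¹) * x⁻¹ ∈ X := by
      have := conj_mem_cj (g := x) g2
      rwa [hXn x hxL] at this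
    rw [act_cls x hxL v hv g1, act_cls y hyL _ g1 g2, act_cls x hxL _ g2 g3, cls_eq]
    have : x * (y * (x * v * x⁻¹) * y⁻¹) * x⁻¹ * (x * y * x * v * (x * y * x)⁻¹)⁻¹ = 1 := by group
    rw [this]
    exact one_mem _
  have hnL : x * y * x ∈ L := mul_mem (mul_mem hxL hyL) hxL
  have hnX : ∀ v ∈ X, (x * y * x) * v * (x * y * x)⁻¹ ∈ X := by
    intro v hv
    have := conj_mem_cj (g := x * y * x) hv
    rwa [hXn _ hnL] at this
  have htX := hAm ht
  have hcX' := hAm (hZm hc)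
  have heX := hAp he
  have key := calc_lemma (act x hxL) (act y hyL) (sub Am) (sub Ap) (sub Zm) (sub Zp)
    (by
      intro a ha ha'
      obtain ⟨v, hv, hvX, rfl⟩ := (mem_sub _ _).mp ha
      rw [cls_zero]
      exact hdis ⟨hv, cls_mem Ap hCAp v hvX ha'⟩)
    (by
      intro a ha
      obtain ⟨v, hv, hvX, rfl⟩ := (mem_sub _ _).mp ha
      exact mem_cls _ _ _ (hZm hv))
    (by
      intro a ha
      obtain ⟨v, hv, hvX, rfl⟩ := (mem_sub _ _).mp ha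
      exact mem_cls _ _ _ (hZp hv))
    (by
      intro a ha
      obtain ⟨v, hv, hvX, rfl⟩ := (mem_sub _ _).mp ha
      exact hcong x hxL v hvX v hvX (hx v hv))
    (by
      intro a ha
      obtain ⟨v, hv, hvX, rfl⟩ := (mem_sub _ _).mp ha
      exact hcong y hyL v hvX v hvX (hy v hv))
    (by
      intro a ha
      obtain ⟨v, hv, hvX, rfl⟩ := (mem_sub _ _).mp ha
      obtain ⟨c, hc, e, he, h⟩ := h2 v hv
      refine ⟨cls c (hAm (hZm hc)), mem_cls _ _ _ hc, cls e (hAp he), mem_cls _ _ _ he, ?_⟩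
      rw [hmul3]
      exact hcong x hxL v hvX _ _ h)
    (by
      intro a ha
      obtain ⟨v, hv, hvX, rfl⟩ := (mem_sub _ _).mp ha
      obtain ⟨e, he, h⟩ := h3 v hv
      refine ⟨cls e (hAp he), mem_cls _ _ _ he, ?_⟩
      rw [← cls_add v hvX e (hAp he) (mul_mem hvX (hAp he))]
      exact hcong x hxL v hvX _ _ h)
    (by
      intro a ha
      obtain ⟨v, hv, hvX, rfl⟩ := (mem_sub _ _).mp ha
      obtain ⟨f, hf, d, hd, h⟩ := h4 v hv
      refine ⟨cls f (hAm hf), mem_cls _ _ _ hf, cls d (hAp (hZp hd)), mem_cls _ _ _ hd, ?_⟩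
      rw [hmul3]
      exact hcong y hyL v hvX _ _ h)
    (by
      intro a ha
      obtain ⟨v, hv, hvX, rfl⟩ := (mem_sub _ _).mp ha
      obtain ⟨f, hf, h⟩ := h5 v hv
      refine ⟨cls f (hAm (hZm hf)), mem_cls _ _ _ hf, ?_⟩
      rw [← cls_add v hvX f (hAm (hZm hf)) (mul_mem hvX (hAm (hZm hf)))]
      exact hcong y hyL v hvX _ _ h)
    (by
      intro a ha hxa
      obtain ⟨v, hv, hvX, rfl⟩ := (mem_sub _ _).mp ha
      have hv' : x * v * x⁻¹ ∈ X := by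
        have := conj_mem_cj (g := x) hvX
        rwa [hXn x hxL] at this
      rw [act_cls x hxL v hvX hv', cls_eq] at hxa
      rw [cls_zero]
      exact h8 v hv hxa)
    (by
      intro a ha
      obtain ⟨v, hv, hvX, rfl⟩ := (mem_sub _ _).mp ha
      rw [hnact v hvX (hnX v hvX)]
      exact mem_cls _ _ _ (hn1 v hv))
    (by
      intro a ha
      obtain ⟨v, hv, hvX, rfl⟩ := (mem_sub _ _).mp ha
      rw [hnact v hvX (hnX v hvX)]
      exact mem_cls _ _ _ (hn2 v hv))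
    (by
      intro a ha
      obtain ⟨v, hv, hvX, rfl⟩ := (mem_sub _ _).mp ha
      rw [hnact v hvX (hnX v hvX), hnact _ (hnX v hvX) (hnX _ (hnX v hvX)), eq_neg_iff_add_eq_zero,
        ← cls_add _ _ v hvX (mul_mem (hnX _ (hnX v hvX)) hvX), cls_zero]
      have e : x * y * x * (x * y * x * v * (x * y * x)⁻¹) * (x * y * x)⁻¹ * v =
          (x * y * x) ^ 2 * v * ((x * y * x) ^ 2)⁻¹ * v := by
        rw [pow_two]; group
      rw [e]
      exact hinv v hv)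
    (mem_cls Am t htX ht) (mem_cls Zm c hcX' hc) (mem_cls Ap e heX he)
    (by
      rw [hmul3]
      exact hcong x hxL t htX _ _ hxt)
  rw [hnact t htX (hnX t htX), hnact _ (hnX t htX) (hnX _ (hnX t htX)),
    hnact _ (hnX _ (hnX t htX)) (hnX _ (hnX _ (hnX t htX))),
    hnact _ (hnX _ (hnX _ (hnX t htX))) (hnX _ (hnX _ (hnX _ (hnX t htX))))] at key
  have h6 : (6 : ℕ) • cls c hcX' = cls (c ^ 6) (pow_mem hcX' 6) := rfl
  rw [h6, ← cls_add t htX _ (pow_mem hcX' 6) (mul_mem htX (pow_mem hcX' 6)), cls_eq] at key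
  have e : x * y * x * (x * y * x * (x * y * x * (x * y * x * t * (x * y * x)⁻¹) * (x * y * x)⁻¹) *
      (x * y * x)⁻¹) * (x * y * x)⁻¹ = (x * y * x) ^ 4 * t * ((x * y * x) ^ 4)⁻¹ := by
    have : (x * y * x) ^ 4 = (x * y * x) * ((x * y * x) * ((x * y * x) * (x * y * x))) := by
      rw [pow_succ, pow_succ, pow_succ, pow_one]; group
    rw [this]; group
  rw [e] at key
  exact key

end Cfsg.Agent.H260.GN
end

-- part: H260/GN9
section
/-!
# Glauberman-Niles, part 9: paths of length four at distance one, `p ≥ 5`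
-/

set_option autoImplicit false
set_option linter.unusedSectionVars false
set_option linter.unusedVariables false
set_option linter.style.haveILetI false

namespace Cfsg.Agent.H260.GN

open Subgroup Push
open scoped commutatorElement

variable {G : Type*} [Group G]

theorem cs_sup {g : G} {N B : Subgroup G} (hB : ∀ x ∈ N, cj x B = B) {A A' : Subgroup G}
    (hA : A ≤ N) (hA' : A' ≤ N) (h : ∀ x ∈ A, g * x * g⁻¹ * x⁻¹ ∈ B)
    (h' : ∀ x ∈ A', g * x * g⁻¹ * x⁻¹ ∈ B) : ∀ x ∈ A ⊔ A', g * x * g⁻¹ * x⁻¹ ∈ B := by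
  have : A ⊔ A' ≤ cs g N B hB := sup_le (fun x hx => ⟨hA hx, h x hx⟩) (fun x hx => ⟨hA' hx, h' x hx⟩)
  exact fun x hx => (this hx).2

/-- the `g ∈ M` with `[g,x] ∈ B`. -/
def tr1 (M : Subgroup G) (x : G) (B : Subgroup G) (hB : ∀ g ∈ M, cj g B = B) : Subgroup G where
  carrier := {g | g ∈ M ∧ g * x * g⁻¹ * x⁻¹ ∈ B}
  one_mem' := ⟨M.one_mem, by simp⟩
  mul_mem' := by
    rintro g h ⟨hg, hg'⟩ ⟨hh, hh'⟩
    refine ⟨M.mul_mem hg hh, ?_⟩
    have e : g * h * x * (g * h)⁻¹ * x⁻¹ = (g * (h * x * h⁻¹ * x⁻¹) * g⁻¹) * (g * x * g⁻¹ * x⁻¹) := by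
      group
    rw [e]
    apply B.mul_mem _ hg'
    have := conj_mem_cj (g := g) hh'
    rwa [hB g hg] at this
  inv_mem' := by
    rintro g ⟨hg, hg'⟩
    refine ⟨M.inv_mem hg, ?_⟩
    have e : g⁻¹ * x * g⁻¹⁻¹ * x⁻¹ = g⁻¹ * (g * x * g⁻¹ * x⁻¹)⁻¹ * g⁻¹⁻¹ := by group
    rw [e]
    have := conj_mem_cj (g := g⁻¹) (B.inv_mem hg')
    rwa [hB _ (M.inv_mem hg)] at this

namespace Loc

variable {p q : ℕ} [hp : Fact p.Prime] {S L Q V C M : Subgroup G}
variable (c : Loc p q S L Q V C M)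
include c

/-- an `L`-invariant subgroup containing an element of `S - Q` supplements `S`. -/
theorem dich' {K : Subgroup G} (hK : ∀ g ∈ L, cj g K = K) {b : G} (hbK : b ∈ K) (hb : b ∈ S)
    (hbQ : b ∉ Q) : L ≤ K ⊔ S := by
  obtain ⟨g, hg, hgM⟩ := c.ex
  set k := g⁻¹ * b * g with hk
  have hkM : k ∉ M := c.ti g hg hgM b hb hbQ
  have hkL : k ∈ L := L.mul_mem (L.mul_mem (L.inv_mem hg) (c.SL hb)) hg
  have hkK : k ∈ K := by
    rw [hk, ← mem_cj, hK g hg]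
    exact hbK
  rw [← c.gen k hkL hkM]
  apply sup_le le_sup_right
  intro x hx
  rw [mem_cj] at hx
  have e : x = (k * ((k⁻¹ * x * k) * k⁻¹ * (k⁻¹ * x * k)⁻¹)) * (k⁻¹ * x * k) := by group
  rw [e]
  refine mul_mem (mem_sup_left (mul_mem hkK ?_)) (mem_sup_right hx)
  have := conj_mem_cj (g := k⁻¹ * x * k) (inv_mem hkK)
  rwa [hK _ (c.SL hx)] at this

end Loc

/-- a path `a₂ - a₁ - c - b₁ - b₂` moving at `c`. -/
structure P5 {p : ℕ} {S₂ T S S' : Subgroup G} (a₂ : Vx p S₂) (a₁ cl : Vx p T) (cr b₁ : Vx p S)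
    (b₂ : Vx p S') (g : G) : Prop where
  h1 : P4 a₂ a₁ cl b₁
  h2 : P4 a₁ cr b₁ b₂
  hL : cl.L = cr.L
  hQ : cl.Q = cr.Q
  hV : cl.V = cr.V
  hC : cl.C = cr.C
  hg : g ∈ cr.L
  hgM : g ∉ cr.M
  hgM' : g⁻¹ ∉ cl.M
  hT : T = cj g S
  adj : Cm b₁.V (cj g⁻¹ a₁.V)
  hM : ⁅b₁.V, S⁆ ≤ cr.C

namespace P5

variable {p : ℕ} [hp : Fact p.Prime] {S₂ T S S' : Subgroup G} {a₂ : Vx p S₂} {a₁ cl : Vx p T}
  {cr b₁ : Vx p S} {b₂ : Vx p S'} {g : G}

theorem symm (h : P5 a₂ a₁ cl cr b₁ b₂ g) : P5 b₂ b₁ cr cl a₁ a₂ g⁻¹ where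
  h1 := h.h2.symm
  h2 := h.h1.symm
  hL := h.hL.symm
  hQ := h.hQ.symm
  hV := h.hV.symm
  hC := h.hC.symm
  hg := by rw [h.hL]; exact inv_mem h.hg
  hgM := h.hgM'
  hgM' := by rw [inv_inv]; exact h.hgM
  hT := by rw [h.hT, cj_inv_cj]
  adj := by
    rw [inv_inv]
    have := h.adj.symm
    rwa [cm_cj_left, inv_inv] at this
  hM := by
    have h1 : ⁅b₁.V, S⁆ = ⁅a₁.V, T⁆ := h.h1.critbd.2.2.2.2.2.2
    rw [← h1, h.hC]
    exact h.hM

variable (h : P5 a₂ a₁ cl cr b₁ b₂ g)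
include h

theorem cenT : cj g (cen S) = cen T := by rw [cj_cen, ← h.hT]

theorem V0 : cr.V = cen S ⊔ cen T := by rw [← h.cenT, cr.loc.supZ h.hg h.hgM]

theorem V0X : cr.V ≤ a₁.V ⊔ b₁.V := by
  rw [h.V0]
  exact sup_le (b₁.loc.ZV.trans le_sup_right) (a₁.loc.ZV.trans le_sup_left)

theorem XQ : a₁.V ⊔ b₁.V ≤ cr.Q := sup_le h.h2.VaQb h.h2.VcQb

theorem XL : a₁.V ⊔ b₁.V ≤ cr.L := h.XQ.trans cr.loc.QL

theorem XS : a₁.V ⊔ b₁.V ≤ S := h.XQ.trans cr.loc.QS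

theorem TL : T ≤ cr.L := by
  rw [h.hT]
  have := cj_mono (g := g) cr.loc.SL
  rwa [cj_of_mem h.hg] at this

theorem cC {γ k : G} (hγ : γ ∈ cr.C) (hk : k ∈ cr.L) : k * γ * k⁻¹ = γ := by
  rw [← cr.loc.CL γ hγ k hk]; group

theorem tS {s w : G} (hs : s ∈ S) (hw : w ∈ b₁.V) : s * w * s⁻¹ * w⁻¹ ∈ cr.C := by
  apply h.hM
  exact b₁.loc.cm_mem_R hw hs

theorem tT {s w : G} (hs : s ∈ T) (hw : w ∈ a₁.V) : s * w * s⁻¹ * w⁻¹ ∈ cr.C := by
  rw [← h.hC]
  exact h.symm.tS hs hw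

theorem X_inv_S : ∀ s ∈ S, cj s (a₁.V ⊔ b₁.V) = a₁.V ⊔ b₁.V := by
  haveI := cr.loc.finS
  haveI : Finite (a₁.V ⊔ b₁.V : Subgroup G) := fin_le h.XS
  have k1 : ∀ y ∈ b₂.V, cj y (a₁.V ⊔ b₁.V) = a₁.V ⊔ b₁.V := by
    intro y hy
    apply cj_eq_of_le
    rw [cj_sup, b₁.loc.Vn y (b₁.loc.SL (h.h2.VdS hy))]
    apply sup_le _ le_sup_right
    intro x hx
    rw [mem_cj] at hx
    obtain ⟨v, hv, w, hw, hvw⟩ := h.h2.comm_mem hx hy
    have e : x = ⁅y⁻¹ * x * y, y⁆⁻¹ * (y⁻¹ * x * y) := by rw [commutatorElement_def]; group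
    rw [e]
    refine mul_mem (inv_mem ?_) (mem_sup_left hx)
    rw [hvw]
    exact mul_mem (h.V0X hv) (mem_sup_right hw)
  have k2 : ∀ x ∈ cr.Q, cj x (a₁.V ⊔ b₁.V) = a₁.V ⊔ b₁.V := by
    intro x hx
    exact cj_sup_eq (a₁.loc.Vn x (a₁.loc.SL (h.h2.QbSa hx))) (b₁.loc.Vn x (b₁.loc.SL (cr.loc.QS hx)))
  have k3 := norm_sup k1 k2
  exact fun s hs => k3 s (h.h2.critbd.2.1.ge hs)

theorem L_le : cr.L ≤ S ⊔ T := by
  have := cr.loc.gen g h.hg h.hgM
  rw [← h.hT] at this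
  exact this.ge

theorem X_inv : ∀ l ∈ cr.L, cj l (a₁.V ⊔ b₁.V) = a₁.V ⊔ b₁.V := by
  have k1 := h.X_inv_S
  have k2 := h.symm.X_inv_S
  rw [sup_comm] at k2
  have k3 := norm_sup k1 k2
  exact fun l hl => k3 l (h.L_le hl)

theorem QX {x y : G} (hx : x ∈ cr.Q) (hy : y ∈ a₁.V ⊔ b₁.V) : x * y * x⁻¹ * y⁻¹ ∈ cr.C := by
  apply cs_sup (N := a₁.V ⊔ b₁.V) (B := cr.C) (fun z hz => cr.loc.Cn z (h.XL hz)) le_sup_left le_sup_right _ _ y hy
  · exact fun w hw => h.tT (h.h2.QbSa hx) hw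
  · exact fun w hw => h.tS (cr.loc.QS hx) hw

/-- `[S, V_{a₁}] ≤ V V_{b₁}`. -/
theorem SV {b t : G} (hb : b ∈ S) (ht : t ∈ a₁.V) : b * t * b⁻¹ * t⁻¹ ∈ cr.V ⊔ b₁.V := by
  have hb' := h.h2.critbd.2.1.ge hb
  obtain ⟨y, hy, x, hx, rfl⟩ := mem_sup_of_norm (fun k hk => cr.loc.Qn k (cr.loc.SL (h.h2.VdS hk))) hb'
  have h3 := h.QX hx (mem_sup_left ht : t ∈ a₁.V ⊔ b₁.V)
  have hyL := cr.loc.SL (h.h2.VdS hy)
  have e : y * x * t * (y * x)⁻¹ * t⁻¹ = (y * (x * t * x⁻¹ * t⁻¹) * y⁻¹) * (y * t * y⁻¹ * t⁻¹) := by group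
  rw [e, h.cC h3 hyL]
  apply mul_mem (mem_sup_left (cr.loc.CV h3))
  obtain ⟨v, hv, w, hw, hvw⟩ := h.h2.comm_mem ht hy
  have e2 : y * t * y⁻¹ * t⁻¹ = ⁅t, y⁆⁻¹ := by rw [commutatorElement_def]; group
  rw [e2, hvw]
  exact inv_mem (mul_mem (mem_sup_left hv) (mem_sup_right hw))

theorem VX : Cm cr.V (a₁.V ⊔ b₁.V) := h.h2.cab.symm.sup_right h.h2.cbc

theorem b1T : b₁.V ≤ T := h.h2.VcQb.trans h.h2.QbSa

/-- the symmetric form argument. -/
theorem step1 {b t : G} (hb : b ∈ S) (ht : t ∈ a₁.V) (htT : t ∉ cen T)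
    (h3 : b * t * b⁻¹ * t⁻¹ ∈ cr.V) : ∀ t' ∈ a₁.V, b * t' * b⁻¹ * t'⁻¹ ∈ cr.V := by
  intro t' ht'
  obtain ⟨v, hv, w, hw, hvw⟩ := h.h2.cbc.mem_sup (h.SV hb ht')
  set v₁ := b * t * b⁻¹ * t⁻¹ with hv₁
  have htX : t ∈ a₁.V ⊔ b₁.V := mem_sup_left ht
  have ht'X : t' ∈ a₁.V ⊔ b₁.V := mem_sup_left ht'
  have hwX : w ∈ a₁.V ⊔ b₁.V := mem_sup_right hw
  have e1 : b * t * b⁻¹ = v₁ * t := by rw [hv₁]; group
  have e2 : b * t' * b⁻¹ = v * w * t' := by rw [hvw]; group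
  have htt' : t * t' = t' * t := a₁.loc.Vab t ht t' ht'
  have e3 : (v₁ * t) * (v * w * t') = (v * w * t') * (v₁ * t) := by
    rw [← e1, ← e2]
    calc b * t * b⁻¹ * (b * t' * b⁻¹) = b * (t * t') * b⁻¹ := by group
      _ = b * (t' * t) * b⁻¹ := by rw [htt']
      _ = _ := by group
  have g1 : t * v = v * t := (h.VX v hv t htX).symm
  have g2 : w * v₁ = v₁ * w := (h.VX v₁ h3 w hwX).symm
  have g3 : t' * v₁ = v₁ * t' := (h.VX v₁ h3 t' ht'X).symm
  have g4 : v * v₁ = v₁ * v := cr.loc.Vab v hv v₁ h3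
  have e4 : (v₁ * v) * (t * w) * t' = (v₁ * v) * (w * t) * t' := by
    calc (v₁ * v) * (t * w) * t' = v₁ * (v * t) * w * t' := by group
      _ = v₁ * (t * v) * w * t' := by rw [g1]
      _ = (v₁ * t) * (v * w * t') := by group
      _ = (v * w * t') * (v₁ * t) := e3
      _ = v * w * (t' * v₁) * t := by group
      _ = v * (w * v₁) * t' * t := by rw [g3]; group
      _ = (v * v₁) * w * (t' * t) := by rw [g2]; group
      _ = _ := by rw [g4, ← htt']; group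
  have e5 : t * w = w * t := mul_left_cancel (mul_right_cancel e4)
  have hwQ : w ∈ a₁.Q := by
    by_contra hwQ
    exact htT (a₁.loc.fix (h.b1T hw) hwQ ht e5.symm)
  have hwZ : w ∈ cen S := by
    rw [← h.h2.critac.2.2.2.1]
    exact ⟨hw, hwQ⟩
  rw [← hvw]
  exact mul_mem hv (cr.loc.ZV hwZ)

/-- **N1**. -/
theorem N1 {b t : G} (hb : b ∈ S) (hbQ : b ∉ cr.Q) (ht : t ∈ a₁.V)
    (h3 : b * t * b⁻¹ * t⁻¹ ∈ cr.V) : t ∈ cen T := by
  by_contra htT
  have hall := h.step1 hb ht htT h3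
  have hVN : ∀ z ∈ a₁.V ⊔ b₁.V, cj z cr.V = cr.V := fun z hz => cr.loc.Vn z (h.XL hz)
  set K := tr cr.L (a₁.V ⊔ b₁.V) cr.V cr.loc.Vn with hK
  have hKn : ∀ g ∈ cr.L, cj g K = K := tr_n h.X_inv
  have hbK : b ∈ K := by
    refine ⟨cr.loc.SL hb, ?_⟩
    apply cs_sup (N := a₁.V ⊔ b₁.V) hVN le_sup_left le_sup_right hall
    exact fun w hw => cr.loc.CV (h.tS hb hw)
  have hLK := cr.loc.dich' hKn hbK hb hbQ
  have hfin : ∀ s ∈ S, ∀ t ∈ a₁.V, s * t * s⁻¹ * t⁻¹ ∈ cr.V := by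
    intro s hs t ht
    obtain ⟨k, hk, s₀, hs₀, hks⟩ := mem_sup_of_norm' (fun k hk => hKn k (cr.loc.SL hk)) (hLK h.hg)
    have hkL : k ∈ cr.L := hk.1
    have hr : k * s * k⁻¹ ∈ T := by
      rw [h.hT, mem_cj, ← hks]
      have e : (k * s₀)⁻¹ * (k * s * k⁻¹) * (k * s₀) = s₀⁻¹ * s * s₀ := by group
      rw [e]
      exact mul_mem (mul_mem (inv_mem hs₀) hs) hs₀
    set r := k * s * k⁻¹ with hr'
    have hrt := h.tT hr ht
    have hk1 := hk.2 t (mem_sup_left ht)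
    have hk2 := (inv_mem hk : k⁻¹ ∈ K).2 t (mem_sup_left ht)
    have hrL : r ∈ cr.L := h.TL hr
    have m1 : k⁻¹ ∈ tr1 cr.L t cr.V cr.loc.Vn := ⟨inv_mem hkL, hk2⟩
    have m2 : r ∈ tr1 cr.L t cr.V cr.loc.Vn := ⟨hrL, cr.loc.CV hrt⟩
    have m3 : k ∈ tr1 cr.L t cr.V cr.loc.Vn := ⟨hkL, hk1⟩
    have m4 := mul_mem (mul_mem m1 m2) m3
    have e : k⁻¹ * r * k = s := by rw [hr']; group
    rw [e] at m4
    exact m4.2
  apply h.h2.symm.noc h.hg h.hgM h.hT h.adj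
  intro t ht y hy
  rw [commutatorElement_def]
  exact hfin t (h.h2.VdS ht) y hy

theorem V0b1 : cr.V ⊓ b₁.V = cen S := by
  apply le_antisymm
  · rintro x ⟨hx, hx1⟩
    exact cr.loc.crit_mem b₂.loc (h.h2.VbQc.trans h.h2.QcSd) h.h2.VdS h.h2.nbd hx
      fun y hy => (h.h2.ccd x hx1 y hy).symm
  · exact le_inf cr.loc.ZV b₁.loc.ZV

theorem card_Y : cr.V.relIndex (cr.V ⊔ b₁.V) = b₁.q := by
  haveI := cr.loc.finS
  haveI := cr.loc.finV
  haveI := cr.loc.finZ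
  have h1 := h.h2.cbc.card_mul
  rw [h.V0b1, b₁.loc.cardV] at h1
  have h2 : Nat.card cr.V * cr.V.relIndex (cr.V ⊔ b₁.V) = Nat.card (cr.V ⊔ b₁.V : Subgroup G) :=
    card_mul_relIndex le_sup_left
  have hZ : 0 < Nat.card (cen S) := Nat.card_pos
  have hV : 0 < Nat.card cr.V := Nat.card_pos
  apply Nat.eq_of_mul_eq_mul_left (Nat.mul_pos hV hZ)
  calc Nat.card cr.V * Nat.card (cen S) * cr.V.relIndex (cr.V ⊔ b₁.V) =
      Nat.card cr.V * cr.V.relIndex (cr.V ⊔ b₁.V) * Nat.card (cen S) := by ring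
    _ = Nat.card (cr.V ⊔ b₁.V : Subgroup G) * Nat.card (cen S) := by rw [h2]
    _ = _ := by rw [h1]; ring

theorem card_SQ : cr.Q.relIndex S = cr.q := by
  have h2 := card_mul_relIndex cr.loc.QS
  rw [cr.loc.cardS, mul_comm cr.q] at h2
  haveI := cr.loc.finQ
  exact Nat.eq_of_mul_eq_mul_left Nat.card_pos h2

/-- the injection `S/Q → V V_{b₁} / V`. -/
theorem inj {t : G} (ht : t ∈ a₁.V) (htT : t ∉ cen T) :
    cr.q ≤ b₁.q ∧ (b₁.q ≤ cr.q → ∀ w ∈ b₁.V, ∃ s ∈ S, (s * t * s⁻¹ * t⁻¹)⁻¹ * w ∈ cr.V) := by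
  haveI := cr.loc.finS
  haveI := b₁.loc.finV
  haveI := cr.loc.finV
  have hYS : cr.V ⊔ b₁.V ≤ S := sup_le cr.loc.VS b₁.loc.VS
  haveI : Finite (cr.V ⊔ b₁.V : Subgroup G) := fin_le hYS
  let f : S → (cr.V ⊔ b₁.V : Subgroup G) := fun s => ⟨s * t * (s : G)⁻¹ * t⁻¹, h.SV s.2 ht⟩
  let φ : (S ⧸ cr.Q.subgroupOf S) → ((cr.V ⊔ b₁.V : Subgroup G) ⧸ cr.V.subgroupOf (cr.V ⊔ b₁.V)) :=
    fun x => QuotientGroup.mk (f x.out)
  have hφ : Function.Injective φ := by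
    intro x x' hxx
    have h4 : (f x.out)⁻¹ * f x'.out ∈ cr.V.subgroupOf (cr.V ⊔ b₁.V) := QuotientGroup.eq.mp hxx
    rw [mem_subgroupOf] at h4
    set s : S := x.out with hs
    set s' : S := x'.out with hs'
    have h5 : (s * t * (s : G)⁻¹ * t⁻¹)⁻¹ * (s' * t * (s' : G)⁻¹ * t⁻¹) ∈ cr.V := h4
    have h6 : (s : G)⁻¹ * s' ∈ cr.Q := by
      by_contra hsQ
      apply htT
      apply h.N1 (mul_mem (inv_mem s.2) s'.2) hsQ ht
      -- e_{s'} = s e_r s⁻¹ e_s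
      set r := (s : G)⁻¹ * s' with hr
      set es := s * t * (s : G)⁻¹ * t⁻¹ with hes
      have hesL : es ∈ cr.L := cr.loc.SL (hYS (h.SV s.2 ht))
      have hsL := cr.loc.SL s.2
      have e1 : s' * t * (s' : G)⁻¹ * t⁻¹ = (s * (r * t * r⁻¹ * t⁻¹) * (s : G)⁻¹) * es := by
        rw [hr, hes]; group
      rw [e1] at h5
      have h7 := cr.loc.cjV_mem hesL h5
      have e2 : es * (es⁻¹ * (s * (r * t * r⁻¹ * t⁻¹) * (s : G)⁻¹ * es)) * es⁻¹ =
          s * (r * t * r⁻¹ * t⁻¹) * (s : G)⁻¹ := by group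
      rw [e2] at h7
      have h8 := cr.loc.cjV_mem (inv_mem hsL) h7
      have e3 : (s : G)⁻¹ * (s * (r * t * r⁻¹ * t⁻¹) * (s : G)⁻¹) * (s : G)⁻¹⁻¹ = r * t * r⁻¹ * t⁻¹ := by
        group
      rwa [e3] at h8
    have h7 : (QuotientGroup.mk s : S ⧸ cr.Q.subgroupOf S) = QuotientGroup.mk s' := by
      rw [QuotientGroup.eq, mem_subgroupOf]
      exact h6
    have e1 : (QuotientGroup.mk s : S ⧸ cr.Q.subgroupOf S) = x := Quotient.out_eq x
    have e2 : (QuotientGroup.mk s' : S ⧸ cr.Q.subgroupOf S) = x' := Quotient.out_eq x'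
    rw [← e1, ← e2, h7]
  have c1 : Nat.card (S ⧸ cr.Q.subgroupOf S) = cr.q := h.card_SQ
  have c2 : Nat.card ((cr.V ⊔ b₁.V : Subgroup G) ⧸ cr.V.subgroupOf (cr.V ⊔ b₁.V)) = b₁.q := h.card_Y
  constructor
  · rw [← c1, ← c2]
    exact Nat.card_le_card_of_injective φ hφ
  · intro hle w hw
    have hb : Function.Bijective φ := hφ.bijective_of_nat_card_le (by rw [c1, c2]; exact hle)
    obtain ⟨x, hx⟩ := hb.2 (QuotientGroup.mk ⟨w, mem_sup_right hw⟩)
    have h4 : (f x.out)⁻¹ * ⟨w, mem_sup_right hw⟩ ∈ cr.V.subgroupOf (cr.V ⊔ b₁.V) := QuotientGroup.eq.mp hx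
    rw [mem_subgroupOf] at h4
    exact ⟨x.out, (x.out).2, h4⟩

theorem q_le : cr.q ≤ b₁.q := by
  obtain ⟨t, ht, htT⟩ := a₁.loc.ZneV
  exact (h.inj ht htT).1

theorem b1_norm : ∀ k ∈ a₁.V, cj k b₁.V = b₁.V :=
  fun k hk => b₁.loc.Vn k (b₁.loc.SL (h.h2.VaS hk))

/-- **N2**. -/
theorem N2 {x : G} (hx : x ∈ a₁.V ⊔ b₁.V) (hx' : ∀ s ∈ S, s * x * s⁻¹ * x⁻¹ ∈ cr.C) : x ∈ b₁.V := by
  obtain ⟨t, ht, w, hw, rfl⟩ := mem_sup_of_norm h.b1_norm hx
  obtain ⟨b, hb, hbQ⟩ := cr.loc.SneQ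
  have h1 := hx' b hb
  have h2 := h.tS hb hw
  have htL : t ∈ cr.L := h.XL (mem_sup_left ht)
  have e : b * (t * w) * b⁻¹ * (t * w)⁻¹ = (b * t * b⁻¹ * t⁻¹) * (t * (b * w * b⁻¹ * w⁻¹) * t⁻¹) := by group
  rw [e, h.cC h2 htL] at h1
  have h3 : b * t * b⁻¹ * t⁻¹ ∈ cr.C := by
    have := mul_mem h1 (inv_mem h2)
    rwa [mul_inv_cancel_right] at this
  have h4 := h.N1 hb hbQ ht (cr.loc.CV h3)
  have h5 : t ∈ cr.V := by
    rw [h.V0]
    exact mem_sup_right h4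
  exact mul_mem (b₁.loc.ZV (cr.loc.cmc b hb hbQ t h5 h3)) hw

/-- **N3**. -/
theorem N3_le : a₁.V ≤ cj g b₁.V := by
  intro x hx
  rw [mem_cj]
  apply h.N2
  · rw [← mem_cj, h.X_inv g h.hg]
    exact mem_sup_left hx
  · intro s hs
    have h1 : g * s * g⁻¹ ∈ T := by
      rw [h.hT]
      exact conj_mem_cj hs
    have h2 := h.tT h1 hx
    have h3 := cr.loc.cj_mem (inv_mem h.hg) cr.loc.Cn h2
    have e : g⁻¹ * (g * s * g⁻¹ * x * (g * s * g⁻¹)⁻¹ * x⁻¹) * g⁻¹⁻¹ =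
        s * (g⁻¹ * x * g) * s⁻¹ * (g⁻¹ * x * g)⁻¹ := by group
    rwa [e] at h3

theorem N3 : cj g b₁.V = a₁.V := by
  apply le_antisymm _ h.N3_le
  rw [cj_le_iff]
  exact h.symm.N3_le

/-- elements of `X` centralised by `L` modulo `V`. -/
theorem fixX {x : G} (hx : x ∈ a₁.V ⊔ b₁.V) (hx' : ∀ k ∈ cr.L, k * x * k⁻¹ * x⁻¹ ∈ cr.V) :
    x ∈ cr.V := by
  obtain ⟨t, ht, w, hw, rfl⟩ := mem_sup_of_norm h.b1_norm hx
  have htL : t ∈ cr.L := h.XL (mem_sup_left ht)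
  have e : ∀ b, b * (t * w) * b⁻¹ * (t * w)⁻¹ = (b * t * b⁻¹ * t⁻¹) * (t * (b * w * b⁻¹ * w⁻¹) * t⁻¹) := by
    intro b; group
  have ht2 : t ∈ cen T := by
    obtain ⟨b, hb, hbQ⟩ := cr.loc.SneQ
    apply h.N1 hb hbQ ht
    have h1 := hx' b (cr.loc.SL hb)
    rw [e b] at h1
    have h2 := cr.loc.cjV_mem htL (cr.loc.CV (h.tS hb hw))
    have := mul_mem h1 (inv_mem h2)
    rwa [mul_inv_cancel_right] at this
  have hw2 : w ∈ cen S := by
    obtain ⟨b, hb, hbQ⟩ := cl.loc.SneQ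
    apply h.symm.N1 hb hbQ hw
    rw [h.hV]
    have h1 := hx' b (h.TL hb)
    rw [e b] at h1
    have h2 := cr.loc.CV (h.tT hb ht)
    have h3 := mul_mem (inv_mem h2) h1
    rw [inv_mul_cancel_left] at h3
    have h4 := cr.loc.cjV_mem (inv_mem htL) h3
    have e2 : t⁻¹ * (t * (b * w * b⁻¹ * w⁻¹) * t⁻¹) * t⁻¹⁻¹ = b * w * b⁻¹ * w⁻¹ := by group
    rwa [e2] at h4
  rw [h.V0]
  exact mul_mem (mem_sup_right ht2) (mem_sup_left hw2)

/-- elements of `Y^a ∩ Y^b`, `Y = V V_{b₁}`. -/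
theorem twoY {a b x : G} (ha : a ∈ cr.L) (hb : b ∈ cr.L) (hab : a⁻¹ * b ∉ cr.M)
    (h1 : x ∈ cj a (cr.V ⊔ b₁.V)) (h2 : x ∈ cj b (cr.V ⊔ b₁.V)) : x ∈ cr.V := by
  have hYX : cr.V ⊔ b₁.V ≤ a₁.V ⊔ b₁.V := sup_le h.V0X le_sup_right
  have hxX : x ∈ a₁.V ⊔ b₁.V := by
    have := cj_mono (g := a) hYX h1
    rwa [h.X_inv a ha] at this
  apply h.fixX hxX
  have hSY : ∀ s ∈ S, ∀ y ∈ cr.V ⊔ b₁.V, s * y * s⁻¹ * y⁻¹ ∈ cr.V := by
    intro s hs
    apply cs_sup (N := a₁.V ⊔ b₁.V) (fun z hz => cr.loc.Vn z (h.XL hz)) h.V0X le_sup_right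
    · exact fun v hv => cr.loc.cm_mem_V (cr.loc.SL hs) hv
    · exact fun w hw => cr.loc.CV (h.tS hs hw)
  have key : ∀ a ∈ cr.L, x ∈ cj a (cr.V ⊔ b₁.V) → cj a S ≤ tr1 cr.L x cr.V cr.loc.Vn := by
    intro a ha hxa s hs
    rw [mem_cj] at hs hxa
    have haS : s ∈ cr.L := by
      have := mul_mem (mul_mem ha (cr.loc.SL hs)) (inv_mem ha)
      have e : a * (a⁻¹ * s * a) * a⁻¹ = s := by group
      rwa [e] at this
    refine ⟨haS, ?_⟩
    have h3 := cr.loc.cjV_mem ha (hSY _ hs _ hxa)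
    have e : a * (a⁻¹ * s * a * (a⁻¹ * x * a) * (a⁻¹ * s * a)⁻¹ * (a⁻¹ * x * a)⁻¹) * a⁻¹ =
        s * x * s⁻¹ * x⁻¹ := by group
    rwa [e] at h3
  have h3 : cj a S ⊔ cj b S = cr.L := by
    have h4 := cr.loc.gen _ (mul_mem (inv_mem ha) hb) hab
    have h5 : cj a (S ⊔ cj (a⁻¹ * b) S) = cj a cr.L := by rw [h4]
    rw [cj_sup, cj_mul, mul_inv_cancel_left, cj_of_mem ha] at h5
    exact h5
  have h4 : cj a S ⊔ cj b S ≤ tr1 cr.L x cr.V cr.loc.Vn := sup_le (key a ha h1) (key b hb h2)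
  exact fun k hk => (h4 (h3.ge hk)).2

/-- **N4a**: `M` normalises `V V_{b₁}`. -/
theorem N4a (hq : b₁.q ≤ cr.q) : ∀ m ∈ cr.M, cj m (cr.V ⊔ b₁.V) = cr.V ⊔ b₁.V := by
  intro m hm
  haveI := cr.loc.finS
  haveI : Finite (cr.V ⊔ b₁.V : Subgroup G) := fin_le (sup_le cr.loc.VS b₁.loc.VS)
  have hmL := cr.loc.ML hm
  have hYX : cr.V ⊔ b₁.V ≤ a₁.V ⊔ b₁.V := sup_le h.V0X le_sup_right
  apply cj_eq_of_le
  intro x hx
  by_contra hxY
  have hxX : x ∈ a₁.V ⊔ b₁.V := by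
    have := cj_mono (g := m) hYX hx
    rwa [h.X_inv m hmL] at this
  obtain ⟨t, ht, w, hw, rfl⟩ := mem_sup_of_norm h.b1_norm hxX
  have htT : t ∉ cen T := by
    intro h1
    apply hxY
    refine mul_mem (mem_sup_left ?_) (mem_sup_right hw)
    rw [h.V0]
    exact mem_sup_right h1
  obtain ⟨s, hs, hsw⟩ := (h.inj ht htT).2 hq w hw
  have hsL := cr.loc.SL hs
  set e := s * t * s⁻¹ * t⁻¹ with he
  have heY : e ∈ cr.V ⊔ b₁.V := h.SV hs ht
  -- [t, e] ∈ C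
  have h1 := h.QX (h.XQ (mem_sup_left ht)) (hYX heY)
  have hYY : cj g (cr.V ⊔ b₁.V) = cr.V ⊔ a₁.V := by rw [cj_sup, cr.loc.Vn g h.hg, h.N3]
  have hx2 : t * w ∈ cj (s * g) (cr.V ⊔ b₁.V) := by
    rw [← cj_mul, hYY, cj_sup, cr.loc.Vn s hsL]
    have e1 : t * w = (t * e * t⁻¹ * e⁻¹) * (s * t * s⁻¹) * (e⁻¹ * w) := by
      rw [he]; group
    rw [e1]
    exact mul_mem (mul_mem (mem_sup_left (cr.loc.CV h1)) (mem_sup_right (conj_mem_cj ht)))
      (mem_sup_left hsw)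
  have h2 := h.twoY hmL (mul_mem hsL h.hg) (by
    intro h3
    apply h.hgM
    have := mul_mem (mul_mem (inv_mem (cr.loc.SM hs)) hm) h3
    have e : s⁻¹ * m * (m⁻¹ * (s * g)) = g := by group
    rwa [e] at this) hx hx2
  exact hxY (mem_sup_left h2)

/-- **N4**: `M` normalises `V_{b₁}`. -/
theorem N4 (hq : b₁.q ≤ cr.q) : ∀ m ∈ cr.M, cj m b₁.V = b₁.V := by
  have hML := cr.loc.ML
  haveI := cr.loc.finS
  haveI := cr.loc.finZ
  haveI := cr.loc.finV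
  haveI := b₁.loc.finV
  haveI : Finite cr.C := fin_le cr.loc.CZ
  have hYX : cr.V ⊔ b₁.V ≤ a₁.V ⊔ b₁.V := sup_le h.V0X le_sup_right
  have hMV : ∀ m ∈ cr.M, cj m cr.V = cr.V := fun m hm => cr.loc.Vn m (hML hm)
  have hMY := h.N4a hq
  have hMb : ∀ m ∈ cr.M, cj m (⊥ : Subgroup G) = ⊥ := fun m hm => Subgroup.map_bot _
  set U := (tr cr.M (cr.V ⊔ b₁.V) cr.V hMV ⊓ tr cr.M cr.V (cen S) cr.loc.MZ) ⊓
    tr cr.M (cen S) cr.C cr.loc.MC with hU
  set K := tr cr.M (cr.V ⊔ b₁.V) ⊥ hMb with hK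
  have hKV : ∀ k ∈ K, ∀ v ∈ cr.V ⊔ b₁.V, k * v = v * k := by
    intro k hk v hv
    have := hk.2 v hv
    rw [mem_bot] at this
    have h2 := mul_inv_eq_one.mp this
    calc k * v = (k * v * k⁻¹) * k := by group
      _ = v * k := by rw [h2]
  have hn : ∀ m ∈ cr.M, cj m U = U := fun m hm =>
    cj_inf_eq (cj_inf_eq (tr_n hMY m hm) (tr_n hMV m hm)) (tr_n cr.loc.MZ m hm)
  have hSU : S ≤ U := by
    intro s hs
    refine ⟨⟨⟨cr.loc.SM hs, ?_⟩, ⟨cr.loc.SM hs, fun v hv => cr.loc.quad v hv s hs⟩⟩,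
      ⟨cr.loc.SM hs, fun z hz => ?_⟩⟩
    · apply cs_sup (N := a₁.V ⊔ b₁.V) (fun z hz => cr.loc.Vn z (h.XL hz)) h.V0X le_sup_right
      · exact fun v hv => cr.loc.cm_mem_V (cr.loc.SL hs) hv
      · exact fun w hw => cr.loc.CV (h.tS hs hw)
    · have h1 : s * z = z * s := cen_comm hz hs
      rw [h1]
      have : z * s * s⁻¹ * z⁻¹ = 1 := by group
      rw [this]
      exact one_mem _
  have hKU : K ≤ U := by
    intro k hk
    have h1 : ∀ v ∈ cr.V ⊔ b₁.V, k * v * k⁻¹ * v⁻¹ = 1 := fun v hv => by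
      rw [hKV k hk v hv]; group
    refine ⟨⟨⟨hk.1, fun v hv => by rw [h1 v hv]; exact one_mem _⟩,
      ⟨hk.1, fun v hv => by rw [h1 v (mem_sup_left hv)]; exact one_mem _⟩⟩,
      ⟨hk.1, fun z hz => by rw [h1 z (mem_sup_left (cr.loc.ZV hz))]; exact one_mem _⟩⟩
  have hUM : U ≤ cr.M := fun x hx => hx.2.1
  have hsyl : U ≤ S ⊔ K := by
    apply sylAct cr.loc.fin cr.loc.idx hSU (hUM.trans hML) hKU
    · exact fun m hm => tr_n hMY m (hUM hm)
    · intro g hg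
      have h1 : ∃ m, ∀ k ∈ cr.C, g ^ (p ^ m) * k = k * g ^ (p ^ m) :=
        ⟨0, fun k hk => (cr.loc.CL k hk _ (pow_mem (hML (hUM hg)) _)).symm⟩
      have h2 := unip_step cr.loc.CZ cr.loc.pgC hg.2.2 h1
      have h3 := unip_step cr.loc.ZV cr.loc.pgZ hg.1.2.2 h2
      obtain ⟨m, hm⟩ := unip_step (le_sup_left : cr.V ≤ cr.V ⊔ b₁.V) cr.loc.pgV hg.1.1.2 h3
      refine ⟨m, pow_mem (hUM hg) _, fun v hv => ?_⟩
      rw [hm v hv, mem_bot]
      group
  have hKn : ∀ s ∈ S, cj s K = K := fun s hs => tr_n hMY s (cr.loc.SM hs)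
  intro m hm
  apply cj_eq_of_forall
  intro w hw
  have hmL := hML hm
  have hmw : m * w * m⁻¹ ∈ cr.V ⊔ b₁.V := by
    have := conj_mem_cj (g := m) (mem_sup_right hw : w ∈ cr.V ⊔ b₁.V)
    rwa [hMY m hm] at this
  apply h.N2 (hYX hmw)
  intro s hs
  have h1 : m⁻¹ * s * m ∈ S ⊔ K := by
    apply hsyl
    have h2 := cj_mono (g := m⁻¹) hSU
    rw [hn _ (inv_mem hm)] at h2
    apply h2
    rw [mem_cj]
    have e : m⁻¹⁻¹ * (m⁻¹ * s * m) * m⁻¹ = s := by group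
    rwa [e]
  obtain ⟨s', hs', k, hk, hsk⟩ := mem_sup_of_norm hKn h1
  have h2 := h.tS hs' hw
  have h3 := cr.loc.cj_mem hmL cr.loc.Cn h2
  have hkw : k * w = w * k := hKV k hk w (mem_sup_right hw)
  have e : s * (m * w * m⁻¹) * s⁻¹ * (m * w * m⁻¹)⁻¹ = m * (s' * w * s'⁻¹ * w⁻¹) * m⁻¹ := by
    have e1 : s = m * (s' * k) * m⁻¹ := by rw [hsk]; group
    rw [e1]
    calc m * (s' * k) * m⁻¹ * (m * w * m⁻¹) * (m * (s' * k) * m⁻¹)⁻¹ * (m * w * m⁻¹)⁻¹ =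
        m * s' * (k * w) * k⁻¹ * s'⁻¹ * w⁻¹ * m⁻¹ := by group
      _ = _ := by rw [hkw]; group
  rw [e]
  exact h3

/-- the key computation: for `p ≥ 5`, `[V_{a₁}, x] ≤ V_{b₁}` for `x ∈ S - Q`. -/
theorem key (hq : b₁.q ≤ cr.q) (h5 : 5 ≤ p) {x t : G} (hx : x ∈ S) (hxQ : x ∉ cr.Q) (ht : t ∈ a₁.V) :
    x * t * x⁻¹ * t⁻¹ ∈ b₁.V := by
  obtain ⟨y, hy, k1, k2, k3⟩ := cr.loc.swap (V' := b₂.V) h.h2.critbd.2.1 h.hg h.hgM hx hxQ
  set n := x * y * x with hn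
  have hV'S := h.h2.VdS
  have hyT : y ∈ T := by
    rw [h.hT]
    exact cj_mono hV'S hy
  have hxL := cr.loc.SL hx
  have hyL := h.TL hyT
  have hnL : n ∈ cr.L := mul_mem (mul_mem hxL hyL) hxL
  have hgn : g⁻¹ * n ∈ cr.M := by
    apply cr.loc.mem_M_of (mul_mem (inv_mem h.hg) hnL)
    rw [← cj_mul, k1, cj_inv_cj]
  have hng : n * g ∈ cr.M := by
    apply cr.loc.mem_M_of (mul_mem hnL h.hg)
    rw [← cj_mul, k2]
  have n1 : cj n b₁.V = a₁.V := by
    have := h.N4 hq _ hgn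
    rw [← cj_mul, cj_eq_iff, inv_inv, h.N3] at this
    exact this
  have n2 : cj n a₁.V = b₁.V := by
    rw [← h.N3, cj_mul]
    exact h.N4 hq _ hng
  have hCT : cr.C ≤ cen T := by
    rw [← h.cenT]
    exact cr.loc.C_cj h.hg
  have hCS := cr.loc.CZ
  have hXX : ∀ a ∈ a₁.V ⊔ b₁.V, ∀ b ∈ a₁.V ⊔ b₁.V, a * b * a⁻¹ * b⁻¹ ∈ cr.C :=
    fun a ha b hb => h.QX (h.XQ ha) hb
  have hdis : a₁.V ⊓ b₁.V ≤ cr.C := by
    rintro z ⟨hz1, hz2⟩
    have h6 : z ∈ cen S := by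
      rw [← h.h2.critac.2.2.2.1]
      exact ⟨hz2, a₁.loc.VQ hz1⟩
    have h7 : z ∈ cen T := by
      rw [← h.h2.critac.2.2.2.2.1]
      exact ⟨hz1, b₁.loc.VQ hz2⟩
    rw [← h.cenT] at h7
    exact cr.loc.two' h.hg h.hgM h6 h7
  -- decomposition of `[x,t]`
  have hdec : ∀ x ∈ S, ∀ t ∈ a₁.V, ∃ c ∈ cen T, ∃ e ∈ b₁.V, x * t * x⁻¹ * (t * c * e)⁻¹ ∈ cr.C := by
    intro x hx t ht
    have h6 := h.SV hx ht
    have h7 : cr.V ⊔ b₁.V ≤ cen T ⊔ b₁.V := by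
      rw [h.V0]
      exact sup_le (sup_le (b₁.loc.ZV.trans le_sup_right) le_sup_left) le_sup_right
    have hcm : Cm (cen T) b₁.V := h.VX.mono (by rw [h.V0]; exact le_sup_right) le_sup_right
    obtain ⟨c, hc, e, he, hce⟩ := hcm.mem_sup (h7 h6)
    refine ⟨c, hc, e, he, ?_⟩
    have e1 : x * t * x⁻¹ * (t * c * e)⁻¹ = (c * e) * t * (c * e)⁻¹ * t⁻¹ := by
      rw [hce]
      have e2 : x * t * x⁻¹ * (t * c * e)⁻¹ = (x * t * x⁻¹ * t⁻¹) * t * (c * e)⁻¹ * t⁻¹ := by group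
      rw [e2, hce]
    rw [e1]
    apply hXX
    · exact mul_mem (mem_sup_left (a₁.loc.ZV hc)) (mem_sup_right he)
    · exact mem_sup_left ht
  have hdec' : ∀ y ∈ T, ∀ w ∈ b₁.V, ∃ f ∈ a₁.V, ∃ d ∈ cen S, y * w * y⁻¹ * (w * f * d)⁻¹ ∈ cr.C := by
    intro y hy w hw
    have h6 := h.symm.SV hy hw
    rw [h.hV] at h6
    have h7 : cr.V ⊔ a₁.V ≤ cen S ⊔ a₁.V := by
      rw [h.V0]
      exact sup_le (sup_le le_sup_left (a₁.loc.ZV.trans le_sup_right)) le_sup_right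
    have hcm : Cm (cen S) a₁.V := h.VX.mono (by rw [h.V0]; exact le_sup_left) le_sup_left
    obtain ⟨d, hd, f, hf, hdf⟩ := hcm.mem_sup (h7 h6)
    refine ⟨f, hf, d, hd, ?_⟩
    have hdf' : d * f = f * d := hcm d hd f hf
    have e1 : y * w * y⁻¹ * (w * f * d)⁻¹ = (f * d) * w * (f * d)⁻¹ * w⁻¹ := by
      have e2 : y * w * y⁻¹ * (w * f * d)⁻¹ = (y * w * y⁻¹ * w⁻¹) * w * (f * d)⁻¹ * w⁻¹ := by group
      rw [e2, ← hdf, hdf']
    rw [e1]
    apply hXX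
    · exact mul_mem (mem_sup_left hf) (mem_sup_right (b₁.loc.ZV hd))
    · exact mem_sup_right hw
  have hV0T : cen T ≤ cr.V := by rw [h.V0]; exact le_sup_right
  obtain ⟨c, hc, e, he, hce⟩ := hdec x hx t ht
  have hmain := live_calc (L := cr.L) (X := a₁.V ⊔ b₁.V) (Cz := cr.C) h.X_inv (cr.loc.CV.trans h.V0X)
    cr.loc.CL h.XL hXX hxL hyL (Am := a₁.V) (Ap := b₁.V) (Zm := cen T) (Zp := cen S) le_sup_left
    le_sup_right hCT hCS hdis a₁.loc.ZV b₁.loc.ZV (fun w hw => h.tS hx hw) (fun t ht => h.tT hyT ht)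
    (hdec x hx)
    (by
      intro z hz
      refine ⟨cm z x, b₁.loc.ZV (cr.loc.quad z (hV0T hz) x hx), ?_⟩
      have hzc : cm z x * z = z * cm z x :=
        cr.loc.Vab _ (cr.loc.ZV (cr.loc.quad z (hV0T hz) x hx)) _ (hV0T hz)
      have : x * z * x⁻¹ * (z * cm z x)⁻¹ = 1 := by
        rw [← hzc]; unfold cm; group
      rw [this]
      exact one_mem _)
    (hdec' y hyT)
    (by
      intro z hz
      have hzV := cl.loc.ZV
      have h6 : cm z y ∈ cen T := cl.loc.quad z (by rw [h.hV]; exact cr.loc.ZV hz) y hyT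
      refine ⟨cm z y, h6, ?_⟩
      have hzc : cm z y * z = z * cm z y := cr.loc.Vab _ (hV0T h6) _ (cr.loc.ZV hz)
      have : y * z * y⁻¹ * (z * cm z y)⁻¹ = 1 := by
        rw [← hzc]; unfold cm; group
      rw [this]
      exact one_mem _)
    (by
      intro z hz hxz
      have h6 := cr.loc.cmc x hx hxQ z (hV0T hz) hxz
      apply cr.loc.two' h.hg h.hgM h6
      rw [h.cenT]
      exact hz)
    (by
      intro t ht
      rw [← n2]
      exact conj_mem_cj ht)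
    (by
      intro w hw
      rw [← n1]
      exact conj_mem_cj hw)
    (fun z hz => k3 z (hV0T hz)) ht hc he hce
  rw [← hn] at hmain
  -- n⁴ is trivial on V / C
  have hn4L : n ^ 4 ∈ cr.L := pow_mem hnL 4
  have hn4V : ∀ v ∈ cr.V, n ^ 4 * v * (n ^ 4)⁻¹ * v⁻¹ ∈ cr.C := by
    intro v hv
    have h6 := k3 v hv
    have hu : n ^ 2 * v * (n ^ 2)⁻¹ ∈ cr.V := cr.loc.cjV_mem (pow_mem hnL 2) hv
    have h7 := k3 _ hu
    set u := n ^ 2 * v * (n ^ 2)⁻¹ with hu'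
    have e1 : n ^ 4 * v * (n ^ 4)⁻¹ = n ^ 2 * u * (n ^ 2)⁻¹ := by
      have : n ^ 4 = n ^ 2 * n ^ 2 := by rw [← pow_add]
      rw [this, hu']; group
    rw [e1]
    have e2 : n ^ 2 * u * (n ^ 2)⁻¹ * v⁻¹ = (n ^ 2 * u * (n ^ 2)⁻¹ * u) * (u⁻¹ * v⁻¹) := by group
    rw [e2]
    apply mul_mem h7
    have e3 : u⁻¹ * v⁻¹ = (u * v)⁻¹ := by
      have : u * v = v * u := cr.loc.Vab u hu v hv
      rw [this]; group
    rw [e3]
    exact inv_mem h6
  have hc6 : c ^ 6 ∈ cen T := pow_mem hc 6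
  have htc : t * c ^ 6 = c ^ 6 * t := (h.VX _ (hV0T hc6) t (mem_sup_left ht)).symm
  have hn4t : n ^ 4 * t * (n ^ 4)⁻¹ * t⁻¹ ∈ cr.V := by
    have e1 : n ^ 4 * t * (n ^ 4)⁻¹ * t⁻¹ = (n ^ 4 * t * (n ^ 4)⁻¹ * (t * c ^ 6)⁻¹) * c ^ 6 := by
      rw [htc]; group
    rw [e1]
    exact mul_mem (cr.loc.CV hmain) (hV0T hc6)
  have h6 : n ^ 4 * t * (n ^ 4)⁻¹ * t⁻¹ ∈ cr.C := by
    apply cr.loc.triv hn4L hn4V hn4t
    intro s hs _
    exact h.QX hs (mem_sup_left ht)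
  have h7 : c ^ 6 ∈ cr.C := by
    have e1 : c ^ 6 = (n ^ 4 * t * (n ^ 4)⁻¹ * (t * c ^ 6)⁻¹)⁻¹ * (n ^ 4 * t * (n ^ 4)⁻¹ * t⁻¹) := by
      rw [htc]; group
    rw [e1]
    exact mul_mem (inv_mem hmain) h6
  have h8 : c ∈ cr.C := by
    apply mem_of_pow (p := p) (e := 1) _ _ h7
    · have h9 : ¬ p ∣ 6 := by
        intro hdvd
        have h10 : p ≤ 6 := Nat.le_of_dvd (by norm_num) hdvd
        have h11 : p = 5 ∨ p = 6 := by omega
        rcases h11 with rfl | rfl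
        · omega
        · exact absurd hp.out (by norm_num)
      exact ((Nat.Prime.coprime_iff_not_dvd hp.out).mpr h9).symm
    · rw [pow_one]
      exact cl.loc.el c hc
  have hcZ : c ∈ b₁.V := b₁.loc.ZV (cr.loc.CZ h8)
  have htc' : t * c = c * t := (h.VX _ (hV0T hc) t (mem_sup_left ht)).symm
  have e1 : x * t * x⁻¹ * t⁻¹ = (x * t * x⁻¹ * (t * c * e)⁻¹) * c * (t * e * t⁻¹) := by
    rw [htc']; group
  rw [e1]
  refine mul_mem (mul_mem (b₁.loc.ZV (cr.loc.CZ hce)) hcZ) ?_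
  exact b₁.loc.cjV_mem (b₁.loc.SL (h.h2.VaS ht)) he

/-- **`p ≥ 5`**: contradiction. -/
theorem false_five (hq : b₁.q ≤ cr.q) (h5 : 5 ≤ p) {g' : G} (hg' : g' ∈ b₁.L) (hg'M : g' ∉ b₁.M)
    (hS' : S' = cj g' S) (hcm : Cm cr.V (cj g'⁻¹ b₂.V)) : False := by
  apply h.h2.noc hg' hg'M hS' hcm
  intro t ht y hy
  have e : ⁅t, y⁆ = (y * t * y⁻¹ * t⁻¹)⁻¹ := by rw [commutatorElement_def]; group
  by_cases hyQ : y ∈ cr.Q
  · have h3 : y ∈ cen S' := by
      rw [← h.h2.critbd.2.2.2.1]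
      exact ⟨hy, hyQ⟩
    have h4 := h.h2.cenSd hg' hS' h3
    rw [commutatorElement_def]
    exact mul_mem (b₁.loc.cjV_mem (b₁.loc.SL (h.h2.VaS ht)) h4) (inv_mem h4)
  · rw [e]
    exact inv_mem (h.key hq h5 (h.h2.VdS hy) hyQ ht)

end P5

end Cfsg.Agent.H260.GN
end

-- part: H260/GN10
section
/-!
# Glauberman-Niles, part 10: the subgroup `S₀`
-/

set_option autoImplicit false
set_option linter.unusedSectionVars false
set_option linter.unusedVariables false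
set_option linter.style.haveILetI false

namespace Cfsg.Agent.H260.GN

open Subgroup Push
open scoped commutatorElement

variable {G : Type*} [Group G]

/-- the subgroup `S₀` of Glauberman and Niles. -/
def s0 (p : ℕ) (X : Subgroup G) : Subgroup G :=
  if p = 2 then ⁅phi p X, X⁆ ⊔ phi p (phi p X)
  else if p = 3 then ⁅⁅phi p X, X⁆, X⁆ ⊔ phi p (phi p X)
  else ⁅phi p X, X⁆ ⊔ Cfsg.powerClosure p 1 X

theorem pc_mono {p : ℕ} {A B : Subgroup G} (h : A ≤ B) : Cfsg.powerClosure p 1 A ≤ Cfsg.powerClosure p 1 B := by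
  unfold Cfsg.powerClosure
  apply Subgroup.closure_mono
  rintro _ ⟨x, hx, rfl⟩
  exact ⟨x, h hx, rfl⟩

theorem pc_map {G' : Type*} [Group G'] (f : G →* G') (p : ℕ) (R : Subgroup G) :
    (Cfsg.powerClosure p 1 R).map f = Cfsg.powerClosure p 1 (R.map f) := by
  unfold Cfsg.powerClosure
  rw [MonoidHom.map_closure]
  congr 1
  ext z
  constructor
  · rintro ⟨_, ⟨x, hx, rfl⟩, rfl⟩
    exact ⟨f x, ⟨x, hx, rfl⟩, map_pow _ _ _⟩
  · rintro ⟨_, ⟨x, hx, rfl⟩, rfl⟩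
    exact ⟨_, ⟨x, hx, rfl⟩, map_pow _ _ _⟩

theorem comm_self_le {A B X : Subgroup G} (hA : A ≤ X) (hB : B ≤ X) : ⁅A, B⁆ ≤ X := by
  rw [Subgroup.commutator_le]
  intro a ha b hb
  rw [commutatorElement_def]
  exact mul_mem (mul_mem (mul_mem (hA ha) (hB hb)) (inv_mem (hA ha))) (inv_mem (hB hb))

theorem pc_le {p : ℕ} {A : Subgroup G} : Cfsg.powerClosure p 1 A ≤ A := by
  unfold Cfsg.powerClosure
  rw [closure_le]
  rintro _ ⟨x, hx, rfl⟩
  exact pow_mem hx _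

theorem s0_le {p : ℕ} {X : Subgroup G} : s0 p X ≤ X := by
  have h1 := phi_le p X
  unfold s0
  split_ifs
  · exact sup_le (comm_self_le h1 le_rfl) ((phi_le p _).trans h1)
  · exact sup_le (comm_self_le (comm_self_le h1 le_rfl) le_rfl) ((phi_le p _).trans h1)
  · exact sup_le (comm_self_le h1 le_rfl) pc_le

theorem s0_mono {p : ℕ} {A B : Subgroup G} (h : A ≤ B) : s0 p A ≤ s0 p B := by
  have h1 := phi_mono (p := p) h
  unfold s0
  split_ifs
  · exact sup_le_sup (commutator_mono h1 h) (phi_mono h1)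
  · exact sup_le_sup (commutator_mono (commutator_mono h1 h) h) (phi_mono h1)
  · exact sup_le_sup (commutator_mono h1 h) (pc_mono h)

theorem s0_map {G' : Type*} [Group G'] (f : G →* G') (p : ℕ) (R : Subgroup G) :
    (s0 p R).map f = s0 p (R.map f) := by
  unfold s0
  split_ifs
  · rw [Subgroup.map_sup, Subgroup.map_commutator, phi_map, phi_map, phi_map]
  · rw [Subgroup.map_sup, Subgroup.map_commutator, Subgroup.map_commutator, phi_map, phi_map, phi_map]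
  · rw [Subgroup.map_sup, Subgroup.map_commutator, phi_map, pc_map]

theorem s0_cj (g : G) (p : ℕ) (R : Subgroup G) : cj g (s0 p R) = s0 p (cj g R) := s0_map _ _ _

/-! ## commuting products -/

theorem comm_elem {a a' b b' : G} (h1 : a * b = b * a) (h2 : a * b' = b' * a) (h3 : a' * b = b * a')
    (h4 : a' * b' = b' * a') : ⁅a * b, a' * b'⁆ = ⁅a, a'⁆ * ⁅b, b'⁆ := by
  have c1 : a * b * (a' * b') = (a * a') * (b * b') := by
    calc a * b * (a' * b') = a * (b * a') * b' := by group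
      _ = a * (a' * b) * b' := by rw [h3]
      _ = _ := by group
  have c2 : a' * b' * (a * b) = (a' * a) * (b' * b) := by
    calc a' * b' * (a * b) = a' * (b' * a) * b := by group
      _ = a' * (a * b') * b := by rw [h2]
      _ = _ := by group
  have c3 : Commute ⁅b, b'⁆ (a' * a)⁻¹ := by
    apply Commute.inv_right
    rw [commutatorElement_def]
    have e1 : Commute b (a' * a) := Commute.mul_right h3.symm h1.symm
    have e2 : Commute b' (a' * a) := Commute.mul_right h4.symm h2.symm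
    exact ((e1.mul_left e2).mul_left e1.inv_left).mul_left e2.inv_left
  rw [commutatorElement_def (a * b)]
  have c5 : a * b * (a' * b') * (a * b)⁻¹ * (a' * b')⁻¹ =
      (a * b * (a' * b')) * (a' * b' * (a * b))⁻¹ := by group
  rw [c5, c1, c2]
  have c6 : a * a' * (b * b') * (a' * a * (b' * b))⁻¹ = a * a' * (⁅b, b'⁆ * (a' * a)⁻¹) := by
    rw [commutatorElement_def]; group
  rw [c6, c3.eq]
  rw [commutatorElement_def a a']
  group

theorem comm_prod {X Y A B A' B' : Subgroup G} (h : Cm X Y) (hA : A ≤ X) (hA' : A' ≤ X) (hB : B ≤ Y)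
    (hB' : B' ≤ Y) : ⁅A ⊔ B, A' ⊔ B'⁆ ≤ ⁅A, A'⁆ ⊔ ⁅B, B'⁆ := by
  rw [Subgroup.commutator_le]
  intro x hx y hy
  obtain ⟨a, ha, b, hb, rfl⟩ := (h.mono hA hB).mem_sup hx
  obtain ⟨a', ha', b', hb', rfl⟩ := (h.mono hA' hB').mem_sup hy
  rw [comm_elem (h a (hA ha) b (hB hb)) (h a (hA ha) b' (hB' hb')) (h a' (hA' ha') b (hB hb))
    (h a' (hA' ha') b' (hB' hb'))]
  exact mul_mem (mem_sup_left (commutator_mem_commutator ha ha'))
    (mem_sup_right (commutator_mem_commutator hb hb'))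

theorem phi_prod {p : ℕ} {A B : Subgroup G} (h : Cm A B) : phi p (A ⊔ B) ≤ phi p A ⊔ phi p B := by
  unfold phi
  rw [closure_le]
  rintro _ (⟨x, hx, y, hy, rfl⟩ | ⟨x, hx, rfl⟩)
  · obtain ⟨a, ha, b, hb, rfl⟩ := h.mem_sup hx
    obtain ⟨a', ha', b', hb', rfl⟩ := h.mem_sup hy
    rw [comm_elem (h a ha b hb) (h a ha b' hb') (h a' ha' b hb) (h a' ha' b' hb')]
    exact mul_mem (mem_sup_left (comm_mem_phi ha ha')) (mem_sup_right (comm_mem_phi hb hb'))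
  · obtain ⟨a, ha, b, hb, rfl⟩ := h.mem_sup hx
    rw [(show Commute a b from h a ha b hb).mul_pow]
    exact mul_mem (mem_sup_left (pow_mem_phi ha)) (mem_sup_right (pow_mem_phi hb))

theorem pc_prod {p : ℕ} {A B : Subgroup G} (h : Cm A B) :
    Cfsg.powerClosure p 1 (A ⊔ B) ≤ Cfsg.powerClosure p 1 A ⊔ Cfsg.powerClosure p 1 B := by
  unfold Cfsg.powerClosure
  rw [closure_le]
  rintro _ ⟨x, hx, rfl⟩
  obtain ⟨a, ha, b, hb, rfl⟩ := h.mem_sup hx
  rw [(show Commute a b from h a ha b hb).mul_pow]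
  exact mul_mem (mem_sup_left (subset_closure ⟨a, ha, rfl⟩)) (mem_sup_right (subset_closure ⟨b, hb, rfl⟩))

theorem s0_prod {p : ℕ} {A B : Subgroup G} (h : Cm A B) : s0 p (A ⊔ B) ≤ s0 p A ⊔ s0 p B := by
  have h1 := phi_prod (p := p) h
  have hA := phi_le p A
  have hB := phi_le p B
  have k1 : ⁅phi p (A ⊔ B), A ⊔ B⁆ ≤ ⁅phi p A, A⁆ ⊔ ⁅phi p B, B⁆ :=
    (commutator_mono h1 le_rfl).trans (comm_prod h hA le_rfl hB le_rfl)
  have k2 : phi p (phi p (A ⊔ B)) ≤ phi p (phi p A) ⊔ phi p (phi p B) :=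
    (phi_mono h1).trans (phi_prod (h.mono hA hB))
  unfold s0
  split_ifs
  · apply sup_le
    · exact k1.trans (sup_le_sup le_sup_left le_sup_left)
    · exact k2.trans (sup_le_sup le_sup_right le_sup_right)
  · apply sup_le
    · have k3 : ⁅⁅phi p (A ⊔ B), A ⊔ B⁆, A ⊔ B⁆ ≤ ⁅⁅phi p A, A⁆, A⁆ ⊔ ⁅⁅phi p B, B⁆, B⁆ :=
        (commutator_mono k1 le_rfl).trans
          (comm_prod h (comm_self_le hA le_rfl) le_rfl (comm_self_le hB le_rfl) le_rfl)
      exact k3.trans (sup_le_sup le_sup_left le_sup_left)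
    · exact k2.trans (sup_le_sup le_sup_right le_sup_right)
  · apply sup_le
    · exact k1.trans (sup_le_sup le_sup_left le_sup_left)
    · exact (pc_prod h).trans (sup_le_sup le_sup_right le_sup_right)

theorem s0_eq {p : ℕ} {A B : Subgroup G} (h : Cm A B) (hA : s0 p A = ⊥) : s0 p (A ⊔ B) = s0 p B := by
  apply le_antisymm
  · have := s0_prod (p := p) h
    rwa [hA, bot_sup_eq] at this
  · exact s0_mono le_sup_right

/-- the conclusion about `S₀` from decompositions of `S` and `Q`. -/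
theorem Loc.s0_conc {p q : ℕ} [hp : Fact p.Prime] {S L Q V C M : Subgroup G} (c : Loc p q S L Q V C M)
    {X Y D : Subgroup G} (hX : s0 p X = ⊥) (hY : s0 p Y = ⊥) (hXD : Cm X D) (hYD : Cm Y D)
    (hS : X ⊔ D = S) (hQ : Y ⊔ D = Q) (hD : D ⊓ V ≤ cen S) : s0 p S ⊓ cen S ≤ C := by
  have h1 : s0 p S = s0 p D := by rw [← hS, s0_eq hXD hX]
  have h2 : s0 p Q = s0 p D := by rw [← hQ, s0_eq hYD hY]
  have h3 : s0 p S ⊓ V ≤ cen S := by
    refine le_trans ?_ hD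
    rw [h1]
    exact inf_le_inf s0_le le_rfl
  have h4 : ∀ g ∈ L, cj g (s0 p S ⊓ V) = s0 p S ⊓ V := by
    intro g hg
    apply cj_inf_eq _ (c.Vn g hg)
    rw [h1, ← h2, s0_cj, c.Qn g hg]
  exact (inf_le_inf le_rfl c.ZV).trans (c.le_C h3 h4)

/-! ## groups with `Φ ≤ Z` -/

theorem pow_mem_of_comm {X N : Subgroup G} (hN : ∀ g ∈ X, cj g N = N)
    (hc : ∀ x ∈ X, ∀ y ∈ X, ⁅x, y⁆ ∈ N) {x y : G} (hx : x ∈ X) (hy : y ∈ X) {n : ℕ} (h1 : x ^ n ∈ N)
    (h2 : y ^ n ∈ N) : (x * y) ^ n ∈ N := by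
  haveI : (N.subgroupOf X).Normal := by
    constructor
    rintro ⟨n, hn⟩ hn' ⟨g, hg⟩
    rw [mem_subgroupOf] at hn' ⊢
    have := conj_mem_cj (g := g) hn'
    rw [hN g hg] at this
    exact this
  have hmem : ∀ z : X, (QuotientGroup.mk z : X ⧸ N.subgroupOf X) = 1 ↔ (z : G) ∈ N := by
    intro z
    rw [QuotientGroup.eq_one_iff, mem_subgroupOf]
  set a : X := ⟨x, hx⟩ with ha
  set b : X := ⟨y, hy⟩ with hb
  have h3 : Commute (QuotientGroup.mk a : X ⧸ N.subgroupOf X) (QuotientGroup.mk b) := by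
    rw [← commutatorElement_eq_one_iff_commute]
    have : ⁅(QuotientGroup.mk a : X ⧸ N.subgroupOf X), QuotientGroup.mk b⁆ = QuotientGroup.mk ⁅a, b⁆ :=
      (map_commutatorElement (QuotientGroup.mk' (N.subgroupOf X)) a b).symm
    rw [this, hmem]
    exact hc x hx y hy
  have h4 : (QuotientGroup.mk ((a * b) ^ n) : X ⧸ N.subgroupOf X) = 1 := by
    rw [QuotientGroup.mk_pow, QuotientGroup.mk_mul, h3.mul_pow]
    rw [← QuotientGroup.mk_pow, ← QuotientGroup.mk_pow, (hmem (a ^ n)).mpr h1, (hmem (b ^ n)).mpr h2, one_mul]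
  exact (hmem _).mp h4

/-- `[A ⊔ B, Y] ≤ N`. -/
theorem comm_sup_le {X N A B Y : Subgroup G} (hN : ∀ g ∈ X, cj g N = N) (hA : A ≤ X) (hB : B ≤ X)
    (h1 : ⁅A, Y⁆ ≤ N) (h2 : ⁅B, Y⁆ ≤ N) : ⁅A ⊔ B, Y⁆ ≤ N := by
  have h3 : A ⊔ B ≤ tr X Y N hN := by
    apply sup_le
    · intro a ha
      refine ⟨hA ha, fun y hy => ?_⟩
      have := h1 (commutator_mem_commutator ha hy)
      rwa [commutatorElement_def] at this
    · intro a ha
      refine ⟨hB ha, fun y hy => ?_⟩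
      have := h2 (commutator_mem_commutator ha hy)
      rwa [commutatorElement_def] at this
  rw [Subgroup.commutator_le]
  intro x hx y hy
  rw [commutatorElement_def]
  exact (h3 hx).2 y hy

theorem comm_sup_le' {X N A B Y : Subgroup G} (hN : ∀ g ∈ X, cj g N = N) (hA : A ≤ X) (hB : B ≤ X)
    (h1 : ⁅Y, A⁆ ≤ N) (h2 : ⁅Y, B⁆ ≤ N) : ⁅Y, A ⊔ B⁆ ≤ N := by
  rw [commutator_comm]
  apply comm_sup_le hN hA hB
  · rwa [commutator_comm]
  · rwa [commutator_comm]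

theorem Cm.comm_le {A B N : Subgroup G} (h : Cm A B) : ⁅A, B⁆ ≤ N := by
  rw [Subgroup.commutator_le]
  intro a ha b hb
  have : ⁅a, b⁆ = 1 := by rw [commutatorElement_eq_one_iff_mul_comm]; exact h a ha b hb
  rw [this]
  exact N.one_mem

/-- `Φ(A ⊔ B) ≤ N`. -/
theorem phi_sup_le {p : ℕ} {X N A B : Subgroup G} (hX : X = A ⊔ B) (hN : ∀ g ∈ X, cj g N = N)
    (h1 : ⁅A, A⁆ ≤ N) (h2 : ⁅A, B⁆ ≤ N) (h3 : ⁅B, B⁆ ≤ N) (hA : ∀ a ∈ A, a ^ p ∈ N)
    (hB : ∀ b ∈ B, b ^ p ∈ N) : phi p X ≤ N := by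
  have hAX : A ≤ X := hX ▸ le_sup_left
  have hBX : B ≤ X := hX ▸ le_sup_right
  have h2' : ⁅B, A⁆ ≤ N := by rwa [commutator_comm]
  have k1 : ⁅X, X⁆ ≤ N := by
    conv_lhs => rw [hX]
    apply comm_sup_le hN hAX hBX
    · exact comm_sup_le' hN hAX hBX h1 h2
    · exact comm_sup_le' hN hAX hBX h2' h3
  have hc : ∀ x ∈ X, ∀ y ∈ X, ⁅x, y⁆ ∈ N := fun x hx y hy => k1 (commutator_mem_commutator hx hy)
  unfold phi
  rw [closure_le]
  rintro _ (⟨x, hx, y, hy, rfl⟩ | ⟨x, hx, rfl⟩)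
  · exact hc x hx y hy
  · have h4 : x ∈ X ∧ x ^ p ∈ N := by
      have hx' : x ∈ closure ((A : Set G) ∪ B) := by
        rw [Subgroup.closure_union, Subgroup.closure_eq, Subgroup.closure_eq, ← hX]; exact hx
      clear hx
      induction hx' using closure_induction with
      | mem y hy =>
        rcases hy with hy | hy
        · exact ⟨hAX hy, hA y hy⟩
        · exact ⟨hBX hy, hB y hy⟩
      | one => exact ⟨X.one_mem, by rw [one_pow]; exact N.one_mem⟩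
      | mul a b _ _ iha ihb =>
        exact ⟨mul_mem iha.1 ihb.1, pow_mem_of_comm hN hc iha.1 ihb.1 iha.2 ihb.2⟩
      | inv a _ iha => exact ⟨inv_mem iha.1, by rw [inv_pow]; exact inv_mem iha.2⟩
    exact h4.2

theorem phi_bot_of {p : ℕ} {X : Subgroup G} (h1 : Cm X X) (h2 : ∀ x ∈ X, x ^ p = 1) : phi p X = ⊥ := by
  rw [eq_bot_iff]
  unfold phi
  rw [closure_le]
  rintro _ (⟨x, hx, y, hy, rfl⟩ | ⟨x, hx, rfl⟩)
  · rw [SetLike.mem_coe, mem_bot, commutatorElement_eq_one_iff_mul_comm]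
    exact h1 x hx y hy
  · rw [SetLike.mem_coe, mem_bot]
    exact h2 x hx

theorem comm_bot_of {A B : Subgroup G} (h : Cm A B) : ⁅A, B⁆ = ⊥ := le_bot_iff.mp h.comm_le

theorem pc_bot_of {p : ℕ} {X : Subgroup G} (h2 : ∀ x ∈ X, x ^ p = 1) : Cfsg.powerClosure p 1 X = ⊥ := by
  rw [eq_bot_iff]
  unfold Cfsg.powerClosure
  rw [closure_le]
  rintro _ ⟨x, hx, rfl⟩
  rw [SetLike.mem_coe, mem_bot, pow_one]
  exact h2 x hx

theorem s0_ab {p : ℕ} {X : Subgroup G} (h1 : Cm X X) (h2 : ∀ x ∈ X, x ^ p = 1) : s0 p X = ⊥ := by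
  have e1 := phi_bot_of h1 h2
  have e2 : phi p (⊥ : Subgroup G) = ⊥ := le_bot_iff.mp (phi_le p _)
  have e3 := pc_bot_of h2
  unfold s0
  rw [e1, e2, e3, commutator_bot_left, commutator_bot_left, sup_bot_eq]
  simp

/-- powers in groups of class two. -/
theorem pow_class2 {x y z : G} (h1 : y * x = x * y * z) (h2 : x * z = z * x) (h3 : y * z = z * y) (n : ℕ) :
    (x * y) ^ n = x ^ n * y ^ n * z ^ (n.choose 2) := by
  have cx : Commute x z := h2
  have cy : Commute y z := h3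
  have h4 : ∀ n : ℕ, y ^ n * x = x * y ^ n * z ^ n := by
    intro n
    induction n with
    | zero => simp
    | succ n ih =>
      calc y ^ (n + 1) * x = y ^ n * (y * x) := by rw [pow_succ]; group
        _ = y ^ n * x * y * z := by rw [h1]; group
        _ = x * y ^ n * (z ^ n * y) * z := by rw [ih]; group
        _ = x * y ^ n * (y * z ^ n) * z := by rw [(cy.pow_right n).eq]
        _ = x * y ^ (n + 1) * z ^ (n + 1) := by rw [pow_succ, pow_succ]; group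
  induction n with
  | zero => simp
  | succ n ih =>
    have e : (n + 1).choose 2 = n + n.choose 2 := by
      rw [Nat.choose_succ_succ' n 1, Nat.choose_one_right]
    have c1 : z ^ (n.choose 2) * (x * y) = x * y * z ^ (n.choose 2) :=
      (((cx.mul_left cy).pow_right _).eq).symm
    calc (x * y) ^ (n + 1) = (x * y) ^ n * (x * y) := pow_succ _ _
      _ = x ^ n * y ^ n * (z ^ (n.choose 2) * (x * y)) := by rw [ih]; group
      _ = x ^ n * (y ^ n * x) * y * z ^ (n.choose 2) := by rw [c1]; group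
      _ = x ^ n * x * y ^ n * (z ^ n * y) * z ^ (n.choose 2) := by rw [h4]; group
      _ = x ^ n * x * y ^ n * (y * z ^ n) * z ^ (n.choose 2) := by rw [(cy.pow_right n).eq]
      _ = x ^ (n + 1) * y ^ (n + 1) * z ^ ((n + 1).choose 2) := by
        rw [e, pow_succ x, pow_succ y, pow_add z]; group

theorem pow_one_of_class2 {p : ℕ} [hp : Fact p.Prime] (h2 : p ≠ 2) {A B Z : Subgroup G}
    (hc : ∀ x ∈ A ⊔ B, ∀ y ∈ A ⊔ B, ⁅x, y⁆ ∈ Z) (hZ : Cm Z (A ⊔ B)) (hZp : ∀ z ∈ Z, z ^ p = 1)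
    (hA : ∀ a ∈ A, a ^ p = 1) (hB : ∀ b ∈ B, b ^ p = 1) : ∀ x ∈ A ⊔ B, x ^ p = 1 := by
  intro x hx
  have h4 : x ∈ A ⊔ B ∧ x ^ p = 1 := by
    have hx' : x ∈ closure ((A : Set G) ∪ B) := by
      rw [Subgroup.closure_union, Subgroup.closure_eq, Subgroup.closure_eq]; exact hx
    clear hx
    induction hx' using closure_induction with
    | mem y hy =>
      rcases hy with hy | hy
      · exact ⟨mem_sup_left hy, hA y hy⟩
      · exact ⟨mem_sup_right hy, hB y hy⟩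
    | one => exact ⟨Subgroup.one_mem _, one_pow _⟩
    | mul a b _ _ iha ihb =>
      refine ⟨mul_mem iha.1 ihb.1, ?_⟩
      have hz : ⁅b⁻¹, a⁻¹⁆ ∈ Z := hc _ (inv_mem ihb.1) _ (inv_mem iha.1)
      have k1 : b * a = a * b * ⁅b⁻¹, a⁻¹⁆ := by rw [commutatorElement_def]; group
      rw [pow_class2 k1 (hZ _ hz _ iha.1).symm (hZ _ hz _ ihb.1).symm, iha.2, ihb.2, one_mul, one_mul]
      have hlt : 2 < p := lt_of_le_of_ne hp.out.two_le (Ne.symm h2)
      obtain ⟨k, hk⟩ := hp.out.dvd_choose_self (k := 2) (by norm_num) hlt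
      rw [hk, pow_mul, hZp _ hz, one_pow]
    | inv a _ iha => exact ⟨inv_mem iha.1, by rw [inv_pow, iha.2, inv_one]⟩
  exact h4.2

/-- `n = 0`. -/
theorem Loc.s0_zero {p q q' : ℕ} [hp : Fact p.Prime] {S L Q V C M L' Q' V' C' M' : Subgroup G}
    (c : Loc p q S L Q V C M) (c' : Loc p q' S L' Q' V' C' M') (hnc : ¬ Cm V V') :
    s0 p S ⊓ cen S ≤ C := by
  obtain ⟨hq, e1, e2, e3, e4, e5, e6⟩ := c.crit c' c.VS c'.VS hnc
  set X := V ⊔ V' with hX
  set D := Q ⊓ Q' with hD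
  have hXS : X ≤ S := sup_le c.VS c'.VS
  have hXD : Cm X D := Cm.sup_left (c.VQc.mono le_rfl inf_le_left) (c'.VQc.mono le_rfl inf_le_right)
  have hZX : Cm (cen S) X := c.ZScm.mono le_rfl hXS
  have hZn : ∀ g ∈ X, cj g (cen S) = cen S := hZX.symm.cj_eq
  have hVV' : ⁅V, V'⁆ ≤ cen S := by rw [e5]; exact c.VS_le
  have hphi : phi p X ≤ cen S := by
    apply phi_sup_le hX hZn (c.Vab.comm_le) hVV' (c'.Vab.comm_le)
    · intro a ha; rw [c.elV a ha]; exact Subgroup.one_mem _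
    · intro a ha; rw [c'.elV a ha]; exact Subgroup.one_mem _
  have hcomm : ⁅phi p X, X⁆ = ⊥ := comm_bot_of (hZX.mono hphi le_rfl)
  have hphi2 : phi p (phi p X) = ⊥ := by
    apply phi_bot_of
    · exact (hZX.mono hphi ((phi_le p X).trans le_rfl))
    · exact fun x hx => c.el x (hphi hx)
  have hX0 : s0 p X = ⊥ := by
    unfold s0
    split_ifs with h2 h3
    · rw [hcomm, hphi2, sup_bot_eq]
    · rw [hcomm, hphi2, sup_bot_eq, commutator_bot_left]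
    · rw [hcomm, bot_sup_eq]
      apply pc_bot_of
      apply pow_one_of_class2 (p := p) h2 (Z := cen S) (A := V) (B := V')
      · intro x hx y hy
        exact hphi (comm_mem_phi hx hy)
      · exact hZX
      · exact c.el
      · exact c.elV
      · exact c'.elV
  have hY0 : s0 p V = ⊥ := s0_ab c.Vab c.elV
  have hVD : Cm V D := hXD.mono le_sup_left le_rfl
  refine c.s0_conc hX0 hY0 hXD hVD ?_ ?_ ?_
  · apply le_antisymm (sup_le hXS (inf_le_left.trans c.QS))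
    intro x hx
    rw [← e1] at hx
    obtain ⟨v', hv', y, hy, rfl⟩ := mem_sup_of_norm (fun k hk => c.Qn k (c.SL (c'.VS hk))) hx
    have hyS := c.QS hy
    rw [← e2] at hyS
    obtain ⟨v, hv, d, hd, rfl⟩ := mem_sup_of_norm (fun k hk => c'.Qn k (c'.SL (c.VS hk))) hyS
    have hdQ : d ∈ Q := by
      have e : d = v⁻¹ * (v * d) := by group
      rw [e]
      exact mul_mem (inv_mem (c.VQ hv)) hy
    exact mul_mem (mem_sup_left (mem_sup_right hv')) (mul_mem (mem_sup_left (mem_sup_left hv))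
      (mem_sup_right ⟨hdQ, hd⟩))
  · apply le_antisymm (sup_le c.VQ inf_le_left)
    intro y hy
    have hyS := c.QS hy
    rw [← e2] at hyS
    obtain ⟨v, hv, d, hd, rfl⟩ := mem_sup_of_norm (fun k hk => c'.Qn k (c'.SL (c.VS hk))) hyS
    have hdQ : d ∈ Q := by
      have e : d = v⁻¹ * (v * d) := by group
      rw [e]
      exact mul_mem (inv_mem (c.VQ hv)) hy
    exact mul_mem (mem_sup_left hv) (mem_sup_right ⟨hdQ, hd⟩)
  · rintro x ⟨⟨_, hx'⟩, hxV⟩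
    rw [← e4]
    exact ⟨hxV, hx'⟩

/-- `n = 1`, `p = 3`. -/
theorem P4.s0_three {p : ℕ} [hp : Fact p.Prime] {Sa S Sd : Subgroup G} {a : Vx p Sa} {b c : Vx p S}
    {d : Vx p Sd} (h : P4 a b c d) (h3 : p = 3) : s0 p S ⊓ cen S ≤ b.C := by
  obtain ⟨-, f1, f2, f3, f4, f5, f6⟩ := h.critac
  obtain ⟨-, g1, g2, g3, g4, g5, g6⟩ := h.critbd
  set X := a.V ⊔ b.V ⊔ (c.V ⊔ d.V) with hX
  set D := a.Q ⊓ b.Q ⊓ (c.Q ⊓ d.Q) with hD
  set N := b.V ⊔ c.V with hN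
  have hXS : X ≤ S := sup_le (sup_le h.VaS b.loc.VS) (sup_le c.loc.VS h.VdS)
  have hXD : Cm X D := by
    apply Cm.sup_left
    · apply Cm.sup_left
      · exact a.loc.VQc.mono le_rfl (inf_le_left.trans inf_le_left)
      · exact b.loc.VQc.mono le_rfl (inf_le_left.trans inf_le_right)
    · apply Cm.sup_left
      · exact c.loc.VQc.mono le_rfl (inf_le_right.trans inf_le_left)
      · exact d.loc.VQc.mono le_rfl (inf_le_right.trans inf_le_right)
  have hNX : N ≤ X := sup_le (le_sup_right.trans le_sup_left) (le_sup_left.trans le_sup_right)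
  have hNn : ∀ g ∈ X, cj g N = N := fun g hg =>
    cj_sup_eq (b.loc.Vn g (b.loc.SL (hXS hg))) (c.loc.Vn g (c.loc.SL (hXS hg)))
  have hZN : cen S ≤ N := b.loc.ZV.trans le_sup_left
  have hac : ⁅a.V, c.V⁆ ≤ N := by
    rw [f5, ← f6]
    exact c.loc.VS_le.trans hZN
  have hbd : ⁅b.V, d.V⁆ ≤ N := by
    rw [g5]
    exact b.loc.VS_le.trans hZN
  have had : ⁅a.V, d.V⁆ ≤ N := by
    rw [Subgroup.commutator_le]
    intro t ht y hy
    obtain ⟨v, hv, w, hw, e⟩ := h.comm_mem ht hy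
    rw [e]
    exact mul_mem (mem_sup_left hv) (mem_sup_right hw)
  have hNab : Cm N N := comm_sup' b.loc.Vab c.loc.Vab h.cbc
  have hNel : ∀ x ∈ N, x ^ p = 1 := by
    intro x hx
    obtain ⟨v, hv, w, hw, rfl⟩ := h.cbc.mem_sup hx
    rw [(show Commute v w from h.cbc v hv w hw).mul_pow, b.loc.elV v hv, c.loc.elV w hw, one_mul]
  have hphi : phi p X ≤ N := by
    have hABle : a.V ⊔ b.V ≤ X := le_sup_left
    have hCDle : c.V ⊔ d.V ≤ X := le_sup_right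
    have haX : a.V ≤ X := le_sup_left.trans hABle
    have hbX : b.V ≤ X := le_sup_right.trans hABle
    have hcX : c.V ≤ X := le_sup_left.trans hCDle
    have hdX : d.V ≤ X := le_sup_right.trans hCDle
    apply phi_sup_le hX hNn
    · exact (comm_sup' a.loc.Vab b.loc.Vab h.cab).comm_le
    · apply comm_sup_le hNn haX hbX
      · exact comm_sup_le' hNn hcX hdX hac had
      · exact comm_sup_le' hNn hcX hdX h.cbc.comm_le hbd
    · exact (comm_sup' c.loc.Vab d.loc.Vab h.ccd).comm_le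
    · intro x hx
      obtain ⟨v, hv, w, hw, rfl⟩ := h.cab.mem_sup hx
      rw [(show Commute v w from h.cab v hv w hw).mul_pow, a.loc.elV v hv, b.loc.elV w hw, one_mul]
      exact N.one_mem
    · intro x hx
      obtain ⟨v, hv, w, hw, rfl⟩ := h.ccd.mem_sup hx
      rw [(show Commute v w from h.ccd v hv w hw).mul_pow, c.loc.elV v hv, d.loc.elV w hw, one_mul]
      exact N.one_mem
  have hNS : ⁅N, S⁆ ≤ cen S := by
    apply comm_sup_le (X := S) (b.loc.ZScm.symm.cj_eq) b.loc.VS c.loc.VS b.loc.VS_le c.loc.VS_le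
  have hX0 : s0 p X = ⊥ := by
    unfold s0
    rw [if_neg (by rw [h3]; norm_num), if_pos h3]
    have k1 : ⁅phi p X, X⁆ ≤ cen S := (commutator_mono hphi hXS).trans hNS
    have k2 : ⁅⁅phi p X, X⁆, X⁆ = ⊥ := comm_bot_of (b.loc.ZScm.mono k1 hXS)
    have k3 : phi p (phi p X) = ⊥ := by
      apply phi_bot_of
      · exact hNab.mono hphi hphi
      · exact fun x hx => hNel x (hphi hx)
    rw [k2, k3, sup_bot_eq]
  set Y := a.V ⊔ b.V ⊔ c.V with hY
  have hYX : Y ≤ X := sup_le le_sup_left (le_sup_left.trans le_sup_right)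
  have hY0 : s0 p Y = ⊥ := by
    rw [eq_bot_iff, ← hX0]
    exact s0_mono hYX
  have hDb : D ≤ b.Q := inf_le_left.trans inf_le_right
  refine b.loc.s0_conc hX0 hY0 hXD (hXD.mono hYX le_rfl) ?_ ?_ ?_
  · apply le_antisymm (sup_le hXS (hDb.trans b.loc.QS))
    intro x hx
    obtain ⟨r, hr, u, hu, v, hv, w, hw, k, k1, k2, k3, k4, rfl⟩ := h.decS hx
    exact mul_mem (mem_sup_left (mem_sup_right (mem_sup_right hr)))
      (mul_mem (mem_sup_left (mem_sup_left (mem_sup_left hu)))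
      (mul_mem (mem_sup_left (mem_sup_left (mem_sup_right hv)))
      (mul_mem (mem_sup_left (mem_sup_right (mem_sup_left hw)))
        (mem_sup_right ⟨⟨k1, k2⟩, ⟨k3, k4⟩⟩))))
  · apply le_antisymm (sup_le (sup_le (sup_le h.VaQb b.loc.VQ) h.VcQb) hDb)
    intro x hx
    obtain ⟨u, hu, v, hv, w, hw, k, k1, k2, k3, k4, rfl⟩ := h.decb hx
    exact mul_mem (mem_sup_left (mem_sup_left (mem_sup_left hu)))
      (mul_mem (mem_sup_left (mem_sup_left (mem_sup_right hv)))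
      (mul_mem (mem_sup_left (mem_sup_right hw)) (mem_sup_right ⟨⟨k1, k2⟩, ⟨k3, k4⟩⟩)))
  · rintro x ⟨⟨_, ⟨_, hx'⟩⟩, hxV⟩
    rw [← g4]
    exact ⟨hxV, hx'⟩

end Cfsg.Agent.H260.GN
end

-- part: H260/GN11
section
/-!
# Glauberman-Niles, part 11: the main theorem for families of groups
-/

set_option autoImplicit false
set_option linter.unusedSectionVars false
set_option linter.unusedVariables false
set_option linter.style.haveILetI false

namespace Cfsg.Agent.H260.GN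

open Subgroup Push
open scoped commutatorElement

variable {G : Type*} [Group G] {ι : Type*}

section fam

variable {p : ℕ} [hp : Fact p.Prime] {S : Subgroup G} {q : ι → ℕ} {L Q V C M : ι → Subgroup G}

/-- the vertex `(x, i)` seen from the edge `x`. -/
def vx (loc : ∀ i, Loc p (q i) S (L i) (Q i) (V i) (C i) (M i)) (x : G) (i : ι) : Vx p (cj x S) :=
  ⟨q i, cj x (L i), cj x (Q i), cj x (V i), cj x (C i), cj x (M i), (loc i).cj' x⟩

variable (loc : ∀ i, Loc p (q i) S (L i) (Q i) (V i) (C i) (M i))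
include loc

theorem inv_mul_symm {x y : G} {k : ι} (h : x⁻¹ * y ∈ L k) : y⁻¹ * x ∈ L k := by
  have := (L k).inv_mem h
  have e : (x⁻¹ * y)⁻¹ = y⁻¹ * x := by group
  rwa [e] at this

theorem mkP4 (h0 : CommN L V 0) {x y z : G} {i j k l : ι} (hxy : x⁻¹ * y ∈ L j) (hyz : y⁻¹ * z ∈ L k)
    (n1 : ¬ Cm (cj x (V i)) (cj y (V k))) (n2 : ¬ Cm (cj y (V j)) (cj z (V l))) :
    P4 (vx loc x i) (vx loc y j) (vx loc y k) (vx loc z l) where
  QbSa := by
    show cj y (Q j) ≤ cj x S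
    rw [cjQ_eq loc hxy]
    exact cj_mono (loc j).QS
  QcSd := by
    show cj y (Q k) ≤ cj z S
    rw [cjQ_eq loc (inv_mul_symm loc hyz)]
    exact cj_mono (loc k).QS
  VaS := inS loc h0 (wd_single (inv_mul_symm loc hxy)) i
  VdS := inS loc h0 (wd_single hyz) l
  cab := by
    show Cm (cj x (V i)) (cj y (V j))
    rw [cjV_eq loc hxy]
    exact (h0.cm0 i j).cj x
  cbc := (h0.cm0 j k).cj y
  ccd := by
    show Cm (cj y (V k)) (cj z (V l))
    rw [← cjV_eq loc hyz]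
    exact (h0.cm0 k l).cj z
  nac := n1
  nbd := n2

theorem mkP5 (h0 : CommN L V 0) {x₀ x₁ x₂ x₃ : G} {i₀ i₁ i₂ i₃ i₄ : ι}
    (s1 : x₀⁻¹ * x₁ ∈ L i₁) (s2 : x₁⁻¹ * x₂ ∈ L i₂) (s3 : x₂⁻¹ * x₃ ∈ L i₃) (m2 : x₁⁻¹ * x₂ ∉ M i₂)
    (n0 : ¬ Cm (cj x₀ (V i₀)) (cj x₁ (V i₂))) (n1 : ¬ Cm (cj x₁ (V i₁)) (cj x₂ (V i₃)))
    (n2 : ¬ Cm (cj x₂ (V i₂)) (cj x₃ (V i₄))) :
    P5 (vx loc x₀ i₀) (vx loc x₁ i₁) (vx loc x₁ i₂) (vx loc x₂ i₂) (vx loc x₂ i₃) (vx loc x₃ i₄)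
      (x₁ * x₂⁻¹) where
  h1 := mkP4 loc h0 s1 s2 n0 n1
  h2 := mkP4 loc h0 s2 s3 n1 n2
  hL := by
    show cj x₁ (L i₂) = cj x₂ (L i₂)
    have e : x₂ = x₁ * (x₁⁻¹ * x₂) := by group
    rw [e, ← cj_mul, cj_of_mem s2]
  hQ := (cjQ_eq loc s2).symm
  hV := (cjV_eq loc s2).symm
  hC := (cjC_eq loc s2 le_rfl).symm
  hg := by
    show x₁ * x₂⁻¹ ∈ cj x₂ (L i₂)
    rw [mem_cj]
    have e : x₂⁻¹ * (x₁ * x₂⁻¹) * x₂ = x₂⁻¹ * x₁ := by group
    rw [e]
    exact inv_mul_symm loc s2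
  hgM := by
    show x₁ * x₂⁻¹ ∉ cj x₂ (M i₂)
    rw [mem_cj]
    have e : x₂⁻¹ * (x₁ * x₂⁻¹) * x₂ = (x₁⁻¹ * x₂)⁻¹ := by group
    rw [e]
    exact fun h => m2 (by simpa using inv_mem h)
  hgM' := by
    show (x₁ * x₂⁻¹)⁻¹ ∉ cj x₁ (M i₂)
    rw [mem_cj]
    have e : x₁⁻¹ * (x₁ * x₂⁻¹)⁻¹ * x₁ = x₁⁻¹ * x₂ := by group
    rw [e]
    exact m2
  hT := by
    rw [cj_mul]
    congr 1
    group
  adj := by
    show Cm (cj x₂ (V i₃)) (cj (x₁ * x₂⁻¹)⁻¹ (cj x₁ (V i₁)))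
    rw [cj_mul]
    have e : (x₁ * x₂⁻¹)⁻¹ * x₁ = x₂ := by group
    rw [e]
    exact (h0.cm0 i₃ i₁).cj x₂
  hM := by
    show ⁅cj x₂ (V i₃), cj x₂ S⁆ ≤ cj x₂ (C i₂)
    rw [(loc i₃).cj_comm']
    apply cj_mono
    exact lemmaM' loc h0 (x := x₂) (u := x₁) (y := x₁) (inv_mul_symm loc s2)
      (by rw [inv_mul_cancel]; exact wd_zero.mpr rfl) (i := i₃) (j := i₁) (fun h => n1 h.symm)

theorem live_one (h0 : CommN L V 0) : ∀ w ∈ Wd L (0 + 1), ∀ i j, ¬ Cm (V i) (cj w (V j)) →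
    ¬ ∀ g ∈ L i, cj g (⨆ k, V k) = ⨆ k, V k := by
  intro w hw i j hnc hE
  obtain ⟨k, l, hl, w', hw', rfl⟩ := wd_succ.mp hw
  rw [wd_zero] at hw'
  subst hw'
  rw [mul_one] at hnc hw
  set E := ⨆ k, V k with hEd
  have hVE : ∀ m, V m ≤ E := fun m => le_iSup V m
  have hES : E ≤ S := iSup_le fun m => (loc m).VS
  have hsym : l⁻¹ * 1 ∈ Wd L (0 + 1) := by
    rw [mul_one]
    exact wd_single ((L k).inv_mem hl)
  have d : DP p (q i) (q k) (q j) E S (L i) (Q i) (V i) (C i) (M i) (L k) (Q k) (V k) (C k) (M k)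
      (cj l S) (cj l (L j)) (cj l (Q j)) (cj l (V j)) (cj l (C j)) (cj l (M j)) := by
    refine
      { c := loc i
        c₁ := loc k
        c' := (loc j).cj' l
        hE := hE
        ES := hES
        VE := hVE i
        V₁E := hVE k
        Eab := ?_
        Eq := ?_
        ES' := ?_
        V'S := ?_
        nc := hnc
        h1' := ?_
        Q₁S' := (loc k).Q_le_cjS hl
        Z'V₁ := ?_
        R₁ := ?_ }
    · exact Cm.iSup_left fun a => Cm.iSup_right fun b => h0.cm0 a b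
    · intro e he s hs
      have hB : ∀ x ∈ S, cj x (cen S) = cen S := (loc i).ZScm.symm.cj_eq
      exact cs_iSup (g := s) hB (A := V) (fun m => (loc m).VS) (fun m x hx => (loc m).quad x hx s hs) e he
    · apply iSup_le
      intro m
      have := inS loc h0 hsym m
      rwa [cj_one] at this
    · have := inS loc h0 (x := 1) (y := l) (by simpa using hw) j
      rwa [cj_one] at this
    · have := (h0.cm0 k j).cj l
      rwa [(loc k).Vn l hl] at this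
    · rw [← cj_cen]
      exact (loc k).cjZV hl
    · exact lemmaM' loc h0 (x := 1) (u := l) (y := l) (k := k) (by simpa using hl)
        (by rw [inv_mul_cancel]; exact wd_zero.mpr rfl) (i := i) (j := j) (by rwa [cj_one])
  exact d.dead1 hl ((h0.cm0 i j).cj l)

/-- **The main theorem.** -/
theorem main : (∀ n, CommN L V n) ∨ ∃ i, s0 p S ⊓ cen S ≤ C i := by
  by_cases h0 : CommN L V 0
  swap
  · right
    unfold CommN at h0
    push Not at h0
    obtain ⟨w, hw, i, j, hnc⟩ := h0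
    rw [wd_zero] at hw
    subst hw
    rw [cj_one] at hnc
    exact ⟨i, (loc i).s0_zero (loc j) hnc⟩
  by_cases h1 : CommN L V 1
  · left
    exact commN_all loc h1
  unfold CommN at h1
  push Not at h1
  obtain ⟨w, hw, i, j, hnc⟩ := h1
  obtain ⟨h, τ, T⟩ := exists_track loc (m := 0) h0 (live_one loc h0) hw hnc 3
  have s1 := T.step 0 (by norm_num)
  have s2 := T.step 1 (by norm_num)
  have s3 := T.step 2 (by norm_num)
  have s4 := T.step 3 (by norm_num)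
  have m2 := T.move 1 (by norm_num) (by norm_num)
  have m3 := T.move 2 (by norm_num) (by norm_num)
  have n0 := T.nc 0 (by norm_num)
  have n1 := T.nc 1 (by norm_num)
  have n2 := T.nc 2 (by norm_num)
  have n3 := T.nc 3 (by norm_num)
  norm_num at s1 s2 s3 s4 m2 m3 n0 n1 n2 n3
  by_cases h2 : p = 2
  · exfalso
    have P := mkP4 loc h0 s1 s2 n0 n1
    refine P.false_two h2 (g := h 2 * (h 1)⁻¹) ?_ ?_ ?_ ?_
    · show h 2 * (h 1)⁻¹ ∈ cj (h 1) (L (τ 2))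
      rw [mem_cj]
      have e : (h 1)⁻¹ * (h 2 * (h 1)⁻¹) * h 1 = (h 1)⁻¹ * h 2 := by group
      rw [e]
      exact s2
    · show h 2 * (h 1)⁻¹ ∉ cj (h 1) (M (τ 2))
      rw [mem_cj]
      have e : (h 1)⁻¹ * (h 2 * (h 1)⁻¹) * h 1 = (h 1)⁻¹ * h 2 := by group
      rw [e]
      exact m2
    · rw [cj_mul]
      congr 1
      group
    · show Cm (cj (h 1) (V (τ 1))) (cj (h 2 * (h 1)⁻¹)⁻¹ (cj (h 2) (V (τ 3))))
      rw [cj_mul]
      have e : (h 2 * (h 1)⁻¹)⁻¹ * h 2 = h 1 := by group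
      rw [e]
      exact (h0.cm0 _ _).cj _
  by_cases h3 : p = 3
  · right
    have P := (mkP4 loc h0 s1 s2 n0 n1).s0_three h3
    refine ⟨τ 1, ?_⟩
    have P' : s0 p (cj (h 1) S) ⊓ cen (cj (h 1) S) ≤ cj (h 1) (C (τ 1)) := P
    rw [← s0_cj, ← cj_cen, ← cj_inf, cj_le_cj] at P'
    exact P'
  have h5 : 5 ≤ p := by
    have := hp.out.two_le
    by_contra hlt
    have h4 : p = 4 := by omega
    exact absurd (h4 ▸ hp.out) (by norm_num)
  exfalso
  have P := mkP5 loc h0 s1 s2 s3 m2 n0 n1 n2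
  have P' := mkP5 loc h0 s2 s3 s4 m3 n1 n2 n3
  have hq : q (τ 3) ≤ q (τ 2) := P'.symm.q_le
  refine P.false_five hq h5 (g' := h 3 * (h 2)⁻¹) ?_ ?_ ?_ ?_
  · show h 3 * (h 2)⁻¹ ∈ cj (h 2) (L (τ 3))
    rw [mem_cj]
    have e : (h 2)⁻¹ * (h 3 * (h 2)⁻¹) * h 2 = (h 2)⁻¹ * h 3 := by group
    rw [e]
    exact s3
  · show h 3 * (h 2)⁻¹ ∉ cj (h 2) (M (τ 3))
    rw [mem_cj]
    have e : (h 2)⁻¹ * (h 3 * (h 2)⁻¹) * h 2 = (h 2)⁻¹ * h 3 := by group
    rw [e]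
    exact m3
  · rw [cj_mul]
    congr 1
    group
  · show Cm (cj (h 2) (V (τ 2))) (cj (h 3 * (h 2)⁻¹)⁻¹ (cj (h 3) (V (τ 4))))
    rw [cj_mul]
    have e : (h 3 * (h 2)⁻¹)⁻¹ * h 3 = h 2 := by group
    rw [e]
    exact (h0.cm0 _ _).cj _

end fam

end Cfsg.Agent.H260.GN
end
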